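import Cfsg.Agent.Lib.Helper96.FrobRam

/-!
# Fully ramified characters under a Frobenius action, part 2 (helper96)

`gallagher_decomp`: a character of `U` lying over a multiple of an extendible invariant
irreducible character of `M ⊴ U` is a combination of the Gallagher translates `β θ^`.
`frob_ramified`: `N ≤ G ⊴ Γ`, `Γ/G` cyclic of order `m`, Frobenius-type action on `G/N`,
`θ` invariant in `Γ` with `θ^G = e χ`; then `m ∣ e - 1` or `m ∣ e + 1`.
-/

set_option autoImplicit false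
set_option linter.style.haveILetI false
set_option linter.unusedSectionVars false
open Cfsg
open scoped ComplexConjugate

namespace Cfsg.Agent.Lib.Helper96

open Cfsg.Agent Cfsg.Agent.H4 Cfsg.Agent.Clifford

universe u

theorem sum_reindex_aux {α : Type*} [Fintype α] [DecidableEq α] {E : Type*} [AddCommMonoid E]
    [Module ℂ E] (m : α → ℕ) (I : Finset α) (ι : α → α)
    (hC1 : ∀ ψ, m ψ ≠ 0 → ∃ β ∈ I, ι β = ψ) (hC2 : ∀ β ∈ I, ∀ γ ∈ I, ι β = ι γ → β = γ)
    (F : α → E) : ∑ ψ, (m ψ : ℂ) • F ψ = ∑ β ∈ I, (m (ι β) : ℂ) • F (ι β) := by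
  have h1 : ∑ ψ, (m ψ : ℂ) • F ψ = ∑ ψ ∈ I.image ι, (m ψ : ℂ) • F ψ := by
    symm
    apply Finset.sum_subset (Finset.subset_univ _)
    intro ψ _ hψ
    by_cases h0 : m ψ = 0
    · rw [h0, Nat.cast_zero, zero_smul]
    · exfalso
      obtain ⟨β, hβ, hβψ⟩ := hC1 ψ h0
      exact hψ (Finset.mem_image.mpr ⟨β, hβ, hβψ⟩)
  rw [h1, Finset.sum_image hC2]

/-- Gallagher decomposition: a character `A` of `U` whose restriction to the normal subgroup `M`
is a multiple of an invariant irreducible character `ϑ` which extends to `θh ∈ Irr(U)` is a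
combination of the `β θh`, `β` running over the irreducible constituents of `(1_M)^U`. -/
theorem gallagher_decomp {U : Type u} [Group U] [Fintype U] (M : Subgroup U) [hM : M.Normal]
    [Fintype M] {ϑ : M → ℂ} (hϑ : IsIrrCharacter M ϑ) (hϑinv : ∀ g : U, conjChar M ϑ g = ϑ)
    {θh : U → ℂ} (hθh : IsIrrCharacter U θh) (hext : ∀ n : M, θh n = ϑ n)
    {A : U → ℂ} (hA : IsCharacter U A) (c : ℂ) (hAM : (fun n : M => A n) = c • ϑ)
    (I : Finset (IrrCharacter U))
    (hI : ∀ β : IrrCharacter U, β ∈ I ↔ classInner (indFun M (1 : M → ℂ)) β.1 ≠ 0) :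
    ∃ a : IrrCharacter U → ℕ, A = ∑ β ∈ I, (a β : ℂ) • (β.1 * θh) ∧
      classInner A A = ∑ β ∈ I, (a β : ℂ) ^ 2 := by
  classical
  letI := fintypeIrr U
  obtain ⟨hg1, hg2, hg3⟩ := gallagher M (Cfsg.Agent.H82.isIrrCharacter_one M) hϑ (fun u => rfl)
    hϑinv (by rw [one_mul]; exact hϑ) (isCharacter_of_isIrrCharacter hθh) hext
  rw [one_mul] at hg1 hg3
  obtain ⟨mA, hmA⟩ := isCharacter_iff.mp hA
  have hmAψ : ∀ ψ : IrrCharacter U, classInner A ψ.1 = mA ψ := by
    intro ψ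
    conv_lhs => rw [hmA]
    rw [classInner_finsum_irr]
  have hAsum : A = ∑ ψ : IrrCharacter U, (mA ψ : ℂ) • ψ.1 := by
    conv_lhs => rw [hmA]
    rw [finsum_irr_eq_sum]
  set ι : IrrCharacter U → IrrCharacter U := fun β =>
    if h : classInner (indFun M (1 : M → ℂ)) β.1 ≠ 0 then ⟨β.1 * θh, (hg1 β.1 β.2 h).1⟩ else β
    with hι
  have hιI : ∀ β ∈ I, (ι β).1 = β.1 * θh := by
    intro β hβ
    have h := (hI β).mp hβ
    simp only [hι]
    rw [dif_pos h]
  have hC1 : ∀ ψ : IrrCharacter U, mA ψ ≠ 0 → ∃ β ∈ I, ι β = ψ := by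
    intro ψ hψ
    have hAψ : classInner A ψ.1 ≠ 0 := by rw [hmAψ]; exact_mod_cast hψ
    have hres : classInner (fun n : M => ψ.1 n) ϑ ≠ 0 := by
      intro h0
      have hz : (fun n : M => ψ.1 n) = 0 := by
        apply eq_zero_of_inner_irr_eq_zero (isClassFunction_of_isCharacter
          (isCharacter_restrict M (isCharacter_of_isIrrCharacter ψ.2)))
        intro φ
        by_contra hne
        have h1 := Cfsg.Agent.H32.constituent_res_of_constituent M hA ψ.2 hAψ
          (isCharacter_of_isIrrCharacter φ.2) hne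
        rw [hAM, classInner_smul_left] at h1
        have h2 : classInner ϑ φ.1 ≠ 0 := fun h => h1 (by rw [h, mul_zero])
        have h3 := eq_of_classInner_ne_zero hϑ φ.2 h2
        rw [← h3] at hne
        exact hne h0
      have h1 := congrFun hz 1
      exact irr_one_ne_zero' ψ.2 (by simpa using h1)
    have hind : classInner (indFun M ϑ) ψ.1 ≠ 0 := by
      rw [frobenius_reciprocity _ _ ψ.1 (irr_isClassFunction ψ)]
      intro h0
      apply hres
      rw [← classInner_conj_symm, h0, map_zero]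
    obtain ⟨β, hβ1, hβ2, hβ3⟩ := hg3 ψ.1 ψ.2 hind
    have hβI : (⟨β, hβ1⟩ : IrrCharacter U) ∈ I := (hI ⟨β, hβ1⟩).mpr hβ2
    refine ⟨⟨β, hβ1⟩, hβI, ?_⟩
    apply Subtype.ext
    rw [hιI ⟨β, hβ1⟩ hβI]
    exact hβ3
  have hC2 : ∀ β ∈ I, ∀ γ ∈ I, ι β = ι γ → β = γ := by
    intro β hβ γ hγ h
    have h1 := congrArg Subtype.val h
    rw [hιI β hβ, hιI γ hγ] at h1
    exact Subtype.ext (hg2 β.1 γ.1 β.2 ((hI β).mp hβ) γ.2 ((hI γ).mp hγ) h1)
  refine ⟨fun β => mA (ι β), ?_, ?_⟩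
  · rw [hAsum]
    rw [sum_reindex_aux mA I ι hC1 hC2 (fun ψ => ψ.1)]
    refine Finset.sum_congr rfl fun β hβ => ?_
    rw [hιI β hβ]
  · have h1 : classInner A A = ∑ ψ : IrrCharacter U, (mA ψ : ℂ) • (mA ψ : ℂ) := by
      nth_rewrite 1 [hAsum]
      rw [classInner_sum_left]
      refine Finset.sum_congr rfl fun ψ _ => ?_
      rw [classInner_smul_left, ← classInner_conj_symm, hmAψ, Complex.conj_natCast, smul_eq_mul]
    rw [h1, sum_reindex_aux mA I ι hC1 hC2 (fun ψ => (mA ψ : ℂ))]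
    refine Finset.sum_congr rfl fun β _ => ?_
    rw [smul_eq_mul, sq]

theorem card_mul_classInner_res {Γ : Type u} [Group Γ] [Fintype Γ] (H : Subgroup Γ) [Fintype H]
    [DecidablePred fun y => y ∈ H] (φ : Γ → ℂ) :
    (Nat.card H : ℂ) * classInner (fun h : H => φ h) (fun h : H => φ h) =
      ∑ y ∈ Finset.univ.filter (fun y => y ∈ H), φ y * conj (φ y) := by
  unfold classInner
  have hne : (Nat.card H : ℂ) ≠ 0 := by exact_mod_cast (Nat.card_pos (α := H)).ne'
  rw [← mul_assoc, mul_inv_cancel₀ hne, one_mul]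
  exact (Finset.sum_subtype (Finset.univ.filter (fun y => y ∈ H)) (fun x => by simp)
    (fun y => φ y * conj (φ y))).symm

theorem frob_ramified {Γ : Type u} [Group Γ] [Fintype Γ] (G N : Subgroup Γ) [hG : G.Normal]
    [hN : N.Normal] [Fintype G] [Fintype N] (hNG : N ≤ G) (hGlt : G ≠ ⊤)
    (hcyc : IsCyclic (Γ ⧸ G))
    (hfrob : ∀ x : Γ, x ∉ G → ∀ g : Γ, g ∈ G → x * g * x⁻¹ * g⁻¹ ∈ N → g ∈ N)
    (θ : IrrCharacter N)
    (hinv : ∀ (x : Γ) (n : N), (θ : N → ℂ) ⟨x * n * x⁻¹, hN.conj_mem n n.2 x⟩ = (θ : N → ℂ) n)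
    (χ : IrrCharacter G) (e : ℕ)
    (hram : indFun (N.subgroupOf G) (fun n : N.subgroupOf G => (θ : N → ℂ) ⟨(n : G), n.2⟩) =
      fun g => (e : ℂ) * (χ : G → ℂ) g) :
    (G.index : ℤ) ∣ (e : ℤ) - 1 ∨ (G.index : ℤ) ∣ (e : ℤ) + 1 := by
  classical
  obtain ⟨U, hNU, hGU, hsup, hcycU⟩ := frob_complement G N hNG hGlt hcyc hfrob
  have hm2 : 2 ≤ G.index := by
    have h1 : G.index ≠ 1 := fun h => hGlt (Subgroup.index_eq_one.mp h)
    have h0 : G.index ≠ 0 := Subgroup.index_ne_zero_of_finite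
    omega
  -- B1: χ restricted to N is e θ
  haveI hN'n : (N.subgroupOf G).Normal := Subgroup.normal_subgroupOf
  letI : Fintype ↥(N.subgroupOf G) := Fintype.ofFinite _
  set θ' : ↥(N.subgroupOf G) → ℂ := fun n => θ.1 ⟨(n : G), n.2⟩ with hθ'
  have hθ'irr : IsIrrCharacter ↥(N.subgroupOf G) θ' :=
    isIrrCharacter_comp_equiv (Subgroup.subgroupOfEquivOfLe hNG) θ.2
  have hθ'inv : ∀ g : G, conjChar (N.subgroupOf G) θ' g = θ' := by
    intro g
    funext n
    rw [conjChar_apply]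
    exact hinv (g : Γ) ⟨(n : G), n.2⟩
  have hχcf : IsClassFunction G χ.1 := irr_isClassFunction χ
  have he0 : e ≠ 0 := by
    rintro rfl
    have h1 := congrFun hram 1
    rw [Cfsg.Agent.H82.indFun_one] at h1
    simp only [Nat.cast_zero, zero_mul] at h1
    have h2 : ((N.subgroupOf G).index : ℂ) ≠ 0 := by
      have : (N.subgroupOf G).index ≠ 0 := Subgroup.index_ne_zero_of_finite
      exact_mod_cast this
    exact mul_ne_zero h2 (irr_one_ne_zero' hθ'irr) h1
  have hfr : ∀ ψ : G → ℂ, IsClassFunction G ψ →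
      classInner (fun g => (e : ℂ) * χ.1 g) ψ = classInner θ' (fun n : ↥(N.subgroupOf G) => ψ n) :=
    fun ψ hψ => by rw [← hram]; exact frobenius_reciprocity _ θ' ψ hψ
  have hχθ' : classInner (fun n : ↥(N.subgroupOf G) => χ.1 n) θ' = e := by
    have h1 := hfr χ.1 hχcf
    have h2 : classInner (fun g => (e : ℂ) * χ.1 g) χ.1 = e := by
      rw [show (fun g => (e : ℂ) * χ.1 g) = (e : ℂ) • χ.1 from rfl, classInner_smul_left,
        irr_inner_self, mul_one]
    rw [h2] at h1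
    rw [← classInner_conj_symm, ← h1]
    simp
  obtain ⟨c, hc⟩ := Cfsg.Agent.H32.res_eq_smul_of_invariant (N.subgroupOf G) χ.2 hθ'irr
    (by rw [hχθ']; exact_mod_cast he0) hθ'inv
  have hce : c = e := by
    have h1 := hχθ'
    rw [hc, classInner_smul_left, irr_inner_self ⟨θ', hθ'irr⟩, mul_one] at h1
    exact h1
  have hχN : ∀ n : N, χ.1 ⟨n, hNG n.2⟩ = (e : ℂ) * θ.1 n := by
    intro n
    have h1 := congrFun hc ⟨⟨n, hNG n.2⟩, n.2⟩
    rw [hce] at h1
    exact h1
  -- B2: χ is Γ-invariant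
  have hχinv : ∀ (x : Γ) (g : G), χ.1 ⟨x * g * x⁻¹, hG.conj_mem g g.2 x⟩ = χ.1 g := by
    intro x g
    set χx : G → ℂ := fun g => χ.1 ⟨x * g * x⁻¹, hG.conj_mem g g.2 x⟩ with hχx
    have hχxirr : IsIrrCharacter G χx :=
      isIrrCharacter_comp_equiv (MulAut.conjNormal x : ↥G ≃* ↥G) χ.2
    have h1 : (fun n : ↥(N.subgroupOf G) => χx n) = (e : ℂ) • θ' := by
      funext n
      have h2 := hχN ⟨x * ((n : G) : Γ) * x⁻¹, hN.conj_mem _ n.2 x⟩
      have h3 := hinv x ⟨((n : G) : Γ), n.2⟩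
      show χ.1 ⟨x * ((n : G) : Γ) * x⁻¹, _⟩ = (e : ℂ) * θ.1 ⟨((n : G) : Γ), n.2⟩
      rw [← h3]
      exact h2
    have h4 : classInner (fun g => (e : ℂ) * χ.1 g) χx ≠ 0 := by
      rw [hfr χx (isClassFunction_of_isCharacter (isCharacter_of_isIrrCharacter hχxirr)), h1,
        classInner_smul_right, irr_inner_self ⟨θ', hθ'irr⟩]
      simp [he0]
    have h5 : classInner χ.1 χx ≠ 0 := by
      intro h0
      apply h4
      rw [show (fun g => (e : ℂ) * χ.1 g) = (e : ℂ) • χ.1 from rfl, classInner_smul_left, h0]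
      simp
    have h6 := eq_of_classInner_ne_zero χ.2 hχxirr h5
    exact (congrFun h6 g).symm
  -- B3: extension to Γ
  obtain ⟨X, hX, hXχ⟩ := Cfsg.Agent.H82.exists_extension_of_cyclic G hcyc χ.1 χ.2 hχinv
  have hXcf : IsClassFunction Γ X := isClassFunction_of_isCharacter (isCharacter_of_isIrrCharacter hX)
  -- B4: the group U
  letI : Fintype ↥U := Fintype.ofFinite _
  haveI hNUn : (N.subgroupOf U).Normal := Subgroup.normal_subgroupOf
  letI : Fintype ↥(N.subgroupOf U) := Fintype.ofFinite _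
  set θU : ↥(N.subgroupOf U) → ℂ := fun n => θ.1 ⟨(n : U), n.2⟩ with hθU
  have hθUirr : IsIrrCharacter ↥(N.subgroupOf U) θU :=
    isIrrCharacter_comp_equiv (Subgroup.subgroupOfEquivOfLe hNU) θ.2
  have hθUinv : ∀ (u : U) (n : ↥(N.subgroupOf U)),
      θU ⟨u * n * u⁻¹, hNUn.conj_mem (n : U) n.2 u⟩ = θU n :=
    fun u n => hinv (u : Γ) ⟨((n : U) : Γ), n.2⟩
  obtain ⟨θh, hθh, hθhext⟩ := Cfsg.Agent.H82.exists_extension_of_cyclic (N.subgroupOf U) hcycU
    θU hθUirr hθUinv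
  set A : ↥U → ℂ := fun u => X (u : Γ) with hA
  have hAchar : IsCharacter ↥U A := isCharacter_restrict U (isCharacter_of_isIrrCharacter hX)
  have hAN : (fun n : ↥(N.subgroupOf U) => A n) = (e : ℂ) • θU := by
    funext n
    have h1 := hXχ ⟨((n : U) : Γ), hNG n.2⟩
    have h2 := hχN ⟨((n : U) : Γ), n.2⟩
    show X ((n : U) : Γ) = (e : ℂ) * θ.1 ⟨((n : U) : Γ), n.2⟩
    rw [← h2, ← h1]
  -- B5: Gallagher
  have h1irr : IsIrrCharacter ↥(N.subgroupOf U) (1 : ↥(N.subgroupOf U) → ℂ) :=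
    Cfsg.Agent.H82.isIrrCharacter_one _
  have hθUconj : ∀ u : U, conjChar (N.subgroupOf U) θU u = θU := fun u => funext fun n => hθUinv u n
  set R : ↥U → ℂ := indFun (N.subgroupOf U) (1 : ↥(N.subgroupOf U) → ℂ) with hR
  letI := fintypeIrr ↥U
  set I : Finset (IrrCharacter ↥U) := Finset.univ.filter (fun β => classInner R β.1 ≠ 0) with hI
  have hImem : ∀ β : IrrCharacter ↥U, β ∈ I ↔ classInner R β.1 ≠ 0 := fun β => by simp [hI]
  have hRβ : ∀ β : IrrCharacter ↥U, classInner R β.1 =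
      classInner (1 : ↥(N.subgroupOf U) → ℂ) (fun n : ↥(N.subgroupOf U) => β.1 n) :=
    fun β => frobenius_reciprocity _ _ β.1 (irr_isClassFunction β)
  have hcomm : ∀ a b : ↥U ⧸ N.subgroupOf U, a * b = b * a := by
    obtain ⟨g, hg⟩ := hcycU.exists_generator
    intro a b
    obtain ⟨i, rfl⟩ := Subgroup.mem_zpowers_iff.mp (hg a)
    obtain ⟨j, rfl⟩ := Subgroup.mem_zpowers_iff.mp (hg b)
    exact zpow_mul_comm g i j
  have hIconst : ∀ β ∈ I, ∀ n : ↥(N.subgroupOf U), β.1 n = 1 := by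
    intro β hβ n
    have h1 : classInner (fun n : ↥(N.subgroupOf U) => β.1 n) (1 : ↥(N.subgroupOf U) → ℂ) ≠ 0 := by
      intro h0
      apply (hImem β).mp hβ
      rw [hRβ, ← classInner_conj_symm, h0, map_zero]
    have h2 := Cfsg.Agent.H82.const_of_over_one (N.subgroupOf U) β.2 h1
    obtain ⟨χ', hχ'⟩ := Cfsg.Agent.H82.exists_deflate (N.subgroupOf U) β (fun x hx => h2 ⟨x, hx⟩)
    have h3 : χ'.1 1 = 1 := irr_one_of_comm hcomm χ'.2
    have h4 : β.1 1 = 1 := by
      rw [← hχ', Cfsg.Agent.H82.inflate_apply]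
      exact h3
    rw [h2 n, h4]
  have hIone : ∀ β ∈ I, β.1 1 = 1 := by
    intro β hβ
    have := hIconst β hβ 1
    simpa using this
  have hrel : (N.subgroupOf U).index = G.index := by
    show N.relIndex U = G.index
    have h1 := Subgroup.relIndex_sup_right U G
    rw [sup_comm, hsup, Subgroup.relIndex_top_right] at h1
    rw [h1, ← hGU, Subgroup.inf_relIndex_right]
  have hIcard : I.card = G.index := by
    have hRchar : IsCharacter ↥U R :=
      isCharacter_indFun _ _ (isCharacter_of_isIrrCharacter h1irr)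
    obtain ⟨r, hr⟩ := isCharacter_iff.mp hRchar
    have hrβ : ∀ β : IrrCharacter ↥U, classInner R β.1 = r β := by
      intro β
      conv_lhs => rw [hr]
      rw [classInner_finsum_irr]
    have hrI : ∀ β : IrrCharacter ↥U, (r β : ℂ) = if β ∈ I then 1 else 0 := by
      intro β
      by_cases hβ : β ∈ I
      · rw [if_pos hβ, ← hrβ, hRβ]
        have h1 : (fun n : ↥(N.subgroupOf U) => β.1 n) = (1 : ↥(N.subgroupOf U) → ℂ) :=
          funext fun n => hIconst β hβ n
        rw [h1]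
        exact irr_inner_self ⟨1, h1irr⟩
      · rw [if_neg hβ, ← hrβ]
        by_contra h
        exact hβ ((hImem β).mpr h)
    have h1 := congrFun hr 1
    rw [hR, Cfsg.Agent.H82.indFun_one, finsum_irr_eq_sum, Finset.sum_apply, hrel] at h1
    simp only [Pi.smul_apply, smul_eq_mul, Pi.one_apply, mul_one] at h1
    have h2 : ∑ β : IrrCharacter ↥U, (r β : ℂ) * β.1 1 = ∑ β ∈ I, (1 : ℂ) := by
      rw [← Finset.sum_filter_add_sum_filter_not Finset.univ (fun β => β ∈ I)]
      have hz : ∑ β ∈ Finset.univ.filter (fun β => ¬ β ∈ I), (r β : ℂ) * β.1 1 = 0 := by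
        refine Finset.sum_eq_zero fun β hβ => ?_
        rw [hrI β, if_neg (Finset.mem_filter.mp hβ).2, zero_mul]
      rw [hz, add_zero]
      have hfil : Finset.univ.filter (fun β : IrrCharacter ↥U => β ∈ I) = I := by
        ext β
        simp
      rw [hfil]
      refine Finset.sum_congr rfl fun β hβ => ?_
      rw [hrI β, if_pos hβ, hIone β hβ, mul_one]
    rw [h2, Finset.sum_const, nsmul_eq_mul, mul_one] at h1
    exact_mod_cast h1.symm
  -- B6: decomposition of `A`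
  obtain ⟨a, hAdec, hAA⟩ := gallagher_decomp (N.subgroupOf U) hθUirr hθUconj hθh hθhext hAchar
    (e : ℂ) hAN I hImem
  have hθh1 : θh 1 = θ.1 1 := hθhext 1
  have hsum : ∑ β ∈ I, a β = e := by
    have h1 : A 1 = (e : ℂ) * θ.1 1 := congrFun hAN 1
    have h2 : A 1 = (∑ β ∈ I, (a β : ℂ)) * θh 1 := by
      rw [hAdec, Finset.sum_apply, Finset.sum_mul]
      refine Finset.sum_congr rfl fun β hβ => ?_
      simp only [Pi.smul_apply, Pi.mul_apply, smul_eq_mul]
      rw [hIone β hβ, one_mul]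
    rw [h1, hθh1] at h2
    have h3 := mul_right_cancel₀ (irr_one_ne_zero' θ.2) h2
    exact_mod_cast h3.symm
  -- B7: the norm of `A`
  set f : Γ → ℂ := fun y => X y * conj (X y) with hf
  have hfcl : ∀ y g : Γ, f (g * y * g⁻¹) = f y := by
    intro y g
    simp only [hf]
    rw [hXcf y g]
  have hcU : (Nat.card U : ℂ) * classInner A A =
      ∑ y ∈ Finset.univ.filter (fun y => y ∈ U), f y := card_mul_classInner_res U X
  have hcN := card_mul_classInner_res N X
  have hcG := card_mul_classInner_res G X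
  have hΓne : (Nat.card Γ : ℂ) ≠ 0 := by exact_mod_cast (Nat.card_pos (α := Γ)).ne'
  have hGne : (Nat.card G : ℂ) ≠ 0 := by exact_mod_cast (Nat.card_pos (α := G)).ne'
  have hNne : (Nat.card N : ℂ) ≠ 0 := by exact_mod_cast (Nat.card_pos (α := N)).ne'
  have hcΓ : (Nat.card Γ : ℂ) * classInner X X = ∑ y, f y := by
    unfold classInner
    rw [← mul_assoc, mul_inv_cancel₀ hΓne, one_mul]
  have hXN : (fun n : N => X n) = (e : ℂ) • θ.1 := by
    funext n
    have h1 := hXχ ⟨n, hNG n.2⟩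
    have h2 := hχN n
    show X (n : Γ) = (e : ℂ) * θ.1 n
    rw [← h2, ← h1]
  have hXG : (fun g : G => X g) = χ.1 := funext hXχ
  rw [hXN, classInner_smul_left, classInner_smul_right, irr_inner_self θ] at hcN
  rw [hXG, irr_inner_self χ] at hcG
  rw [irr_inner_self ⟨X, hX⟩] at hcΓ
  set D : Finset Γ := Finset.univ.filter (fun y => y ∈ U ∧ y ∉ N) with hDdef
  set Y : Finset Γ := Finset.univ.filter (fun y => y ∉ G) with hYdef
  have hD : ∀ y, y ∈ D ↔ y ∈ U ∧ y ∉ N := fun y => by simp [hDdef]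
  have hY : ∀ y, y ∈ Y ↔ y ∉ G := fun y => by simp [hYdef]
  have hconj := frob_conj_sum G N U hNU hGU hsup hfrob f hfcl D Y hD hY
  have hsplitU : ∑ y ∈ Finset.univ.filter (fun y => y ∈ U), f y =
      ∑ y ∈ Finset.univ.filter (fun y => y ∈ N), f y + ∑ y ∈ D, f y := by
    rw [← Finset.sum_filter_add_sum_filter_not (Finset.univ.filter (fun y => y ∈ U))
      (fun y => y ∈ N)]
    congr 1
    · refine Finset.sum_congr ?_ (fun _ _ => rfl)
      ext y
      simp only [Finset.mem_filter, Finset.mem_univ, true_and]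
      exact ⟨fun h => h.2, fun h => ⟨hNU h, h⟩⟩
    · refine Finset.sum_congr ?_ (fun _ _ => rfl)
      ext y
      simp only [Finset.mem_filter, Finset.mem_univ, true_and, hDdef]
  have hsplitΓ : ∑ y, f y = ∑ y ∈ Finset.univ.filter (fun y => y ∈ G), f y + ∑ y ∈ Y, f y := by
    rw [← Finset.sum_filter_add_sum_filter_not Finset.univ (fun y => y ∈ G)]
  have hcardU : (Nat.card U : ℂ) = (Nat.card N : ℂ) * (G.index : ℂ) := by
    have h1 : Nat.card U = Nat.card N * G.index := by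
      rw [← hrel, ← Subgroup.card_mul_index (N.subgroupOf U)]
      congr 1
      exact Nat.card_congr (Subgroup.subgroupOfEquivOfLe hNU).toEquiv
    exact_mod_cast h1
  have hcardΓ : (Nat.card Γ : ℂ) = (Nat.card G : ℂ) * (G.index : ℂ) := by
    exact_mod_cast (Subgroup.card_mul_index G).symm
  have hYsum : ∑ y ∈ Y, f y = (Nat.card G : ℂ) * ((G.index : ℂ) - 1) := by
    rw [hsplitΓ, ← hcG, hcardΓ] at hcΓ
    linear_combination -hcΓ
  have hDsum : ∑ y ∈ D, f y = (Nat.card N : ℂ) * ((G.index : ℂ) - 1) := by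
    apply mul_left_cancel₀ hGne
    rw [hconj, hYsum]
    ring
  have hAAeq : (G.index : ℂ) * classInner A A = (e : ℂ) ^ 2 + G.index - 1 := by
    apply mul_left_cancel₀ hNne
    rw [← mul_assoc, ← hcardU, hcU, hsplitU, ← hcN, hDsum, Complex.conj_natCast]
    ring
  have hsq : G.index * ∑ β ∈ I, (a β) ^ 2 = e ^ 2 + G.index - 1 := by
    rw [hAA] at hAAeq
    have h1 : G.index * ∑ β ∈ I, (a β) ^ 2 + 1 = e ^ 2 + G.index := by
      have h2 : ((G.index * ∑ β ∈ I, (a β) ^ 2 + 1 : ℕ) : ℂ) = ((e ^ 2 + G.index : ℕ) : ℂ) := by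
        push_cast
        linear_combination hAAeq
      exact_mod_cast h2
    omega
  exact dvd_sub_one_or_add_one I a G.index e hm2 hIcard hsum hsq

end Cfsg.Agent.Lib.Helper96
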