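import Mathlib
import Cfsg.Prelude.Def_Characters
import Cfsg.Agent.Lib.Helper96.FrobRam2
import Cfsg.Agent.Lib.Glaub.Sub
import Cfsg.Agent.H61.MinNormal
import Cfsg.Agent.H4.IrrCount
import Cfsg.Agent.H4.TwoTrans

/-!
# Character lemmas for a Berger-type theorem (helper96)

* `ind_res_of_sup`: Mackey for a normal supplement, `(ϑ^G)|U = (ϑ|H∩U)^U` when `G = U H`.
* `indFun_one_abelian`: `(1_N)^M` is a sum of distinct linear characters when `M/N` is abelian.
* `eq_smul_of_inner_of_degree`, `conj_mem_of_indFun_one_eq`, `indFun_smul'`.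
* `homog_step`: the key step of the proof that an induced character `ϑ^G` from a maximal subgroup
  (with `ϑ` irreducible on the core) is not quasi-primitive.
-/

set_option autoImplicit false
set_option linter.style.haveILetI false
set_option linter.unusedSectionVars false
open Cfsg
open scoped ComplexConjugate

namespace Cfsg.Agent.Lib.Helper96

open Cfsg.Agent Cfsg.Agent.H4 Cfsg.Agent.Clifford

universe u

section MackeyLite

variable {G : Type u} [Group G] [Fintype G]

/-- Mackey for a normal supplement: if `G = U H` with `U` normal and `B = H ∩ U`, then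
`(ϑ^G)|U = (ϑ|B)^U`. -/
theorem ind_res_of_sup (H U B : Subgroup G) [hU : U.Normal] [Fintype U] (hBH : B ≤ H)
    (hBU : B ≤ U) (hB : H ⊓ U ≤ B) (hsup : H ⊔ U = ⊤) (ϑ : H → ℂ) (hcf : IsClassFunction H ϑ) :
    (fun u : U => indFun H ϑ u) =
      indFun (B.subgroupOf U) (fun x : B.subgroupOf U => ϑ ⟨((x : U) : G), hBH x.2⟩) := by
  classical
  funext v
  rw [indFun_apply, indFun_apply]
  set F : G → ℂ := fun y => extendByZero H ϑ (y⁻¹ * (v : G) * y) with hF
  have hFH : ∀ (y : G) (h : G), h ∈ H → F (y * h) = F y := by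
    intro y h hh
    simp only [hF]
    have e1 : (y * h)⁻¹ * (v : G) * (y * h) = h⁻¹ * (y⁻¹ * (v : G) * y) * h := by group
    rw [e1]
    by_cases hy : y⁻¹ * (v : G) * y ∈ H
    · have hy' : h⁻¹ * (y⁻¹ * (v : G) * y) * h ∈ H :=
        H.mul_mem (H.mul_mem (H.inv_mem hh) hy) hh
      rw [extendByZero_of_mem H ϑ hy, extendByZero_of_mem H ϑ hy']
      have h1 := hcf ⟨_, hy⟩ ⟨h⁻¹, H.inv_mem hh⟩
      rw [← h1]
      refine congrArg ϑ (Subtype.ext ?_)
      simp
    · have hy' : h⁻¹ * (y⁻¹ * (v : G) * y) * h ∉ H := by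
        intro hc
        apply hy
        have h1 := H.mul_mem (H.mul_mem hh hc) (H.inv_mem hh)
        have e2 : h * (h⁻¹ * (y⁻¹ * (v : G) * y) * h) * h⁻¹ = y⁻¹ * (v : G) * y := by group
        rwa [e2] at h1
      rw [extendByZero_of_not_mem H ϑ hy, extendByZero_of_not_mem H ϑ hy']
  have hdecomp : ∀ x : G, ∃ u ∈ U, ∃ h ∈ H, x = u * h := by
    intro x
    have hx : x ∈ (U ⊔ H : Subgroup G) := by rw [sup_comm, hsup]; exact Subgroup.mem_top x
    rw [← SetLike.mem_coe, Subgroup.normal_mul, Set.mem_mul] at hx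
    obtain ⟨u, hu, h, hh, rfl⟩ := hx
    exact ⟨u, hu, h, hh, rfl⟩
  have hΦ : ∀ x : G, ∑ u : U, F ((u : G) * x) = ∑ u : U, F (u : G) := by
    intro x
    obtain ⟨u₀, hu₀, h₀, hh₀, rfl⟩ := hdecomp x
    have h1 : ∀ u : U, F ((u : G) * (u₀ * h₀)) = F (((u * ⟨u₀, hu₀⟩ : U) : G)) := by
      intro u
      rw [← mul_assoc, hFH _ _ hh₀]
      rfl
    simp_rw [h1]
    exact Equiv.sum_comp (Equiv.mulRight (⟨u₀, hu₀⟩ : U)) (fun u : U => F (u : G))
  have h4a : ∑ x : G, ∑ u : U, F ((u : G) * x) = (Nat.card G : ℂ) * ∑ u : U, F (u : G) := by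
    simp_rw [hΦ]
    rw [Finset.sum_const, Finset.card_univ, nsmul_eq_mul, Nat.card_eq_fintype_card]
  have h4b : ∑ x : G, ∑ u : U, F ((u : G) * x) = (Nat.card U : ℂ) * ∑ x : G, F x := by
    rw [Finset.sum_comm]
    have h1 : ∀ u : U, ∑ x : G, F ((u : G) * x) = ∑ x : G, F x := fun u =>
      Equiv.sum_comp (Equiv.mulLeft (u : G)) F
    simp_rw [h1]
    rw [Finset.sum_const, Finset.card_univ, nsmul_eq_mul, Nat.card_eq_fintype_card]
  have hcard : Nat.card G * Nat.card B = Nat.card H * Nat.card U := by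
    have h1 := Cfsg.Agent.H61.card_sup_mul_card_inf H U
    have hBeq : H ⊓ U = B := le_antisymm hB (le_inf hBH hBU)
    rw [hsup, hBeq] at h1
    rw [← h1]
    congr 1
    exact (Nat.card_congr Subgroup.topEquiv.toEquiv).symm
  have hcardB : Nat.card (B.subgroupOf U) = Nat.card B :=
    Nat.card_congr (Subgroup.subgroupOfEquivOfLe hBU).toEquiv
  have hE : ∀ u : U, extendByZero (B.subgroupOf U)
      (fun x : B.subgroupOf U => ϑ ⟨((x : U) : G), hBH x.2⟩) (u⁻¹ * v * u) = F (u : G) := by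
    intro u
    simp only [hF]
    by_cases hy : (u : G)⁻¹ * (v : G) * (u : G) ∈ H
    · have hyB : (u⁻¹ * v * u : U) ∈ B.subgroupOf U := by
        rw [Subgroup.mem_subgroupOf]
        exact hB ⟨hy, (u⁻¹ * v * u : U).2⟩
      rw [extendByZero_of_mem _ _ hyB, extendByZero_of_mem H ϑ hy]
      rfl
    · have hyB : (u⁻¹ * v * u : U) ∉ B.subgroupOf U := by
        rw [Subgroup.mem_subgroupOf]
        intro hc
        exact hy (hBH hc)
      rw [extendByZero_of_not_mem _ _ hyB, extendByZero_of_not_mem H ϑ hy]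
  simp_rw [hE]
  rw [hcardB]
  have hHne : (Nat.card H : ℂ) ≠ 0 := by exact_mod_cast (Nat.card_pos (α := H)).ne'
  have hBne : (Nat.card B : ℂ) ≠ 0 := by exact_mod_cast (Nat.card_pos (α := B)).ne'
  have hUne : (Nat.card U : ℂ) ≠ 0 := by exact_mod_cast (Nat.card_pos (α := U)).ne'
  have h5 : (Nat.card U : ℂ) * ∑ x : G, F x = (Nat.card G : ℂ) * ∑ u : U, F (u : G) := by
    rw [← h4b, h4a]
  have hcardC : (Nat.card G : ℂ) * Nat.card B = Nat.card H * Nat.card U := by
    exact_mod_cast hcard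
  have key : (Nat.card B : ℂ) * ∑ x : G, F x = (Nat.card H : ℂ) * ∑ u : U, F (u : G) := by
    apply mul_left_cancel₀ hUne
    linear_combination (Nat.card B : ℂ) * h5 + (∑ u : U, F (u : G)) * hcardC
  rw [inv_mul_eq_iff_eq_mul₀ hHne, mul_left_comm, eq_comm, inv_mul_eq_iff_eq_mul₀ hBne]
  exact key.symm

end MackeyLite

section RegAbelian

variable {M : Type u} [Group M] [Fintype M]

/-- For a normal subgroup with abelian quotient, `(1_N)^M` is a sum of distinct linear characters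
which are trivial on `N`. -/
theorem indFun_one_abelian (N : Subgroup M) [hN : N.Normal] [Fintype N]
    (hcomm : ∀ a b : M ⧸ N, a * b = b * a) :
    ∃ I : Finset (IrrCharacter M), (∀ β ∈ I, β.1 1 = 1 ∧ ∀ n : N, β.1 n = 1) ∧
      indFun N (1 : N → ℂ) = ∑ β ∈ I, β.1 := by
  classical
  letI := fintypeIrr M
  have h1irr : IsIrrCharacter N (1 : N → ℂ) := Cfsg.Agent.H82.isIrrCharacter_one _
  set I : Finset (IrrCharacter M) :=
    Finset.univ.filter (fun β => classInner (indFun N (1 : N → ℂ)) β.1 ≠ 0) with hI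
  have hImem : ∀ β : IrrCharacter M, β ∈ I ↔ classInner (indFun N (1 : N → ℂ)) β.1 ≠ 0 :=
    fun β => by simp [hI]
  have hRβ : ∀ β : IrrCharacter M, classInner (indFun N (1 : N → ℂ)) β.1 =
      classInner (1 : N → ℂ) (fun n : N => β.1 n) :=
    fun β => frobenius_reciprocity _ _ β.1 (irr_isClassFunction β)
  have hIconst : ∀ β ∈ I, ∀ n : N, β.1 n = 1 := by
    intro β hβ n
    have h1 : classInner (fun n : N => β.1 n) (1 : N → ℂ) ≠ 0 := by
      intro h0
      apply (hImem β).mp hβ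
      rw [hRβ, ← classInner_conj_symm, h0, map_zero]
    have h2 := Cfsg.Agent.H82.const_of_over_one N β.2 h1
    obtain ⟨χ', hχ'⟩ := Cfsg.Agent.H82.exists_deflate N β (fun x hx => h2 ⟨x, hx⟩)
    have h3 : χ'.1 1 = 1 := irr_one_of_comm hcomm χ'.2
    have h4 : β.1 1 = 1 := by
      rw [← hχ', Cfsg.Agent.H82.inflate_apply]
      exact h3
    rw [h2 n, h4]
  have hIone : ∀ β ∈ I, β.1 1 = 1 := by
    intro β hβ
    have := hIconst β hβ 1
    simpa using this
  have hRchar : IsCharacter M (indFun N (1 : N → ℂ)) :=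
    isCharacter_indFun _ _ (isCharacter_of_isIrrCharacter h1irr)
  obtain ⟨r, hr⟩ := isCharacter_iff.mp hRchar
  have hrβ : ∀ β : IrrCharacter M, classInner (indFun N (1 : N → ℂ)) β.1 = r β := by
    intro β
    conv_lhs => rw [hr]
    rw [classInner_finsum_irr]
  have hrI : ∀ β : IrrCharacter M, (r β : ℂ) = if β ∈ I then 1 else 0 := by
    intro β
    by_cases hβ : β ∈ I
    · rw [if_pos hβ, ← hrβ, hRβ]
      have h1 : (fun n : N => β.1 n) = (1 : N → ℂ) := funext fun n => hIconst β hβ n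
      rw [h1]
      exact irr_inner_self ⟨1, h1irr⟩
    · rw [if_neg hβ, ← hrβ]
      by_contra h
      exact hβ ((hImem β).mpr h)
  refine ⟨I, fun β hβ => ⟨hIone β hβ, hIconst β hβ⟩, ?_⟩
  conv_lhs => rw [hr]
  rw [finsum_irr_eq_sum, ← Finset.sum_filter_add_sum_filter_not Finset.univ (fun β => β ∈ I)]
  have hz : ∑ β ∈ Finset.univ.filter (fun β => ¬ β ∈ I), (r β : ℂ) • β.1 = 0 := by
    refine Finset.sum_eq_zero fun β hβ => ?_
    rw [hrI β, if_neg (Finset.mem_filter.mp hβ).2, zero_smul]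
  rw [hz, add_zero]
  have hfil : Finset.univ.filter (fun β : IrrCharacter M => β ∈ I) = I := by
    ext β
    simp
  rw [hfil]
  refine Finset.sum_congr rfl fun β hβ => ?_
  rw [hrI β, if_pos hβ, one_smul]

/-- A character containing an irreducible `ψ` with multiplicity `e` and of degree `e ψ(1)` is
`e ψ`. -/
theorem eq_smul_of_inner_of_degree {A : M → ℂ} (hA : IsCharacter M A) (ψ : IrrCharacter M)
    (e : ℕ) (h1 : classInner A ψ.1 = e) (h2 : A 1 = e * ψ.1 1) : A = (e : ℂ) • ψ.1 := by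
  have key : ∀ j : ℕ, j ≤ e → IsCharacter M (A - (j : ℂ) • ψ.1) := by
    intro j
    induction j with
    | zero =>
      intro _
      simpa using hA
    | succ j ih =>
      intro hj
      have hc := ih (by omega)
      have hne : classInner (A - (j : ℂ) • ψ.1) ψ.1 ≠ 0 := by
        rw [classInner_sub_left, classInner_smul_left, h1, irr_inner_self, mul_one]
        have h3 : (j : ℂ) ≠ e := by exact_mod_cast (by omega : j ≠ e)
        exact sub_ne_zero.mpr (Ne.symm h3)
      have h4 := isCharacter_sub_irr hc ψ hne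
      have h5 : A - ((j + 1 : ℕ) : ℂ) • ψ.1 = A - (j : ℂ) • ψ.1 - ψ.1 := by
        funext x
        simp only [Pi.sub_apply, Pi.smul_apply, smul_eq_mul, Nat.cast_add, Nat.cast_one]
        ring
      rw [h5]
      exact h4
  have hc := key e le_rfl
  obtain ⟨r, hr, hr0⟩ := Cfsg.Agent.H82.isCharacter_one_nat hc
  have hr' : r = 0 := by
    have h3 : (A - (e : ℂ) • ψ.1) 1 = 0 := by
      simp only [Pi.sub_apply, Pi.smul_apply, smul_eq_mul]
      rw [h2, sub_self]
    rw [hr] at h3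
    exact_mod_cast h3
  exact sub_eq_zero.mp (hr0 hr')

/-- If the permutation character on the cosets of `Q` takes its degree at `m`, then every
conjugate of `m` lies in `Q`. -/
theorem conj_mem_of_indFun_one_eq (Q : Subgroup M) [Fintype Q] (m : M)
    (h : indFun Q (1 : Q → ℂ) m = (Q.index : ℂ)) : ∀ x : M, x⁻¹ * m * x ∈ Q := by
  classical
  rw [indFun_apply] at h
  have hterm : ∀ x : M, extendByZero Q (1 : Q → ℂ) (x⁻¹ * m * x) =
      if x⁻¹ * m * x ∈ Q then 1 else 0 := by
    intro x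
    split_ifs with hx
    · rw [extendByZero_of_mem Q _ hx]
      rfl
    · rw [extendByZero_of_not_mem Q _ hx]
  simp_rw [hterm] at h
  rw [Finset.sum_boole] at h
  have hQne : (Nat.card Q : ℂ) ≠ 0 := by exact_mod_cast (Nat.card_pos (α := Q)).ne'
  rw [inv_mul_eq_iff_eq_mul₀ hQne] at h
  have h2 : (Finset.univ.filter (fun x : M => x⁻¹ * m * x ∈ Q)).card = Nat.card Q * Q.index := by
    exact_mod_cast h
  rw [Subgroup.card_mul_index, Nat.card_eq_fintype_card, ← Finset.card_univ] at h2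
  have h3 := (Finset.card_filter_eq_iff).mp h2
  intro x
  exact h3 x (Finset.mem_univ x)

end RegAbelian

section Homog

variable {M : Type u} [Group M] [Fintype M]

theorem indFun_smul' (H : Subgroup M) (c : ℂ) (θ : H → ℂ) :
    indFun H (c • θ) = c • indFun H θ := by
  funext g
  have h1 : ∀ x : M, extendByZero H (c • θ) (x⁻¹ * g * x) =
      c * extendByZero H θ (x⁻¹ * g * x) := by
    intro x
    by_cases hx : x⁻¹ * g * x ∈ H
    · rw [extendByZero_of_mem H _ hx, extendByZero_of_mem H _ hx]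
      rfl
    · rw [extendByZero_of_not_mem H _ hx, extendByZero_of_not_mem H _ hx, mul_zero]
  show (Nat.card H : ℂ)⁻¹ * ∑ x : M, extendByZero H (c • θ) (x⁻¹ * g * x) =
    c * ((Nat.card H : ℂ)⁻¹ * ∑ x : M, extendByZero H θ (x⁻¹ * g * x))
  simp_rw [h1]
  rw [← Finset.mul_sum]
  ring

/-- The key step: if `(ϑ_Q)^M = a η` is homogeneous, restricts to `K` as `e θ` with
`θ(1) = e ϑ_Q(1)`, `M/K` is abelian of order prime to `e`, then every element of `Q` on which
`ϑ_Q` does not vanish has all its conjugates in `Q`. -/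
theorem homog_step (K Q : Subgroup M) [hK : K.Normal] [Fintype K] [Fintype Q]
    (hcomm : ∀ a b : M ⧸ K, a * b = b * a)
    (θ : IrrCharacter K)
    (ϑq : IrrCharacter Q) (η : IrrCharacter M) (a e : ℕ)
    (hΨ : indFun Q ϑq.1 = (a : ℂ) • η.1)
    (hΨK : ∀ k : K, indFun Q ϑq.1 k = (e : ℂ) * θ.1 k)
    (hdeg : θ.1 1 = (e : ℂ) * ϑq.1 1)
    (hcop : Nat.Coprime e K.index) :
    ∀ y : Q, ϑq.1 y ≠ 0 → ∀ m : M, m⁻¹ * (y : M) * m ∈ Q := by
  classical
  letI := fintypeIrr M
  have hηcf : IsClassFunction M η.1 := irr_isClassFunction η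
  have hηch : IsCharacter M η.1 := isCharacter_of_isIrrCharacter η.2
  have hθch : IsCharacter K θ.1 := isCharacter_of_isIrrCharacter θ.2
  have hϑ1 : ϑq.1 1 ≠ 0 := irr_one_ne_zero' ϑq.2
  have hθ1 : θ.1 1 ≠ 0 := irr_one_ne_zero' θ.2
  have hη1 : η.1 1 ≠ 0 := irr_one_ne_zero' η.2
  have hQidx : (Q.index : ℂ) ≠ 0 := by
    have : Q.index ≠ 0 := Subgroup.index_ne_zero_of_finite
    exact_mod_cast this
  -- A1
  have hΨ1 : (Q.index : ℂ) * ϑq.1 1 = (a : ℂ) * η.1 1 := by
    have h1 := congrFun hΨ 1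
    rw [Cfsg.Agent.H82.indFun_one] at h1
    exact h1
  have ha0 : a ≠ 0 := by
    rintro rfl
    rw [Nat.cast_zero, zero_mul] at hΨ1
    exact mul_ne_zero hQidx hϑ1 hΨ1
  have he0 : e ≠ 0 := by
    rintro rfl
    have h1 := hΨK 1
    rw [Nat.cast_zero, zero_mul] at h1
    have h2 := congrFun hΨ 1
    rw [show ((1 : K) : M) = 1 from rfl] at h1
    rw [h1] at h2
    have h3 : (a : ℂ) * η.1 1 = 0 := by
      simpa using h2.symm
    exact mul_ne_zero (by exact_mod_cast ha0) hη1 h3
  have hηK : (a : ℂ) • (fun k : K => η.1 k) = (e : ℂ) • θ.1 := by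
    funext k
    have h1 := hΨK k
    rw [hΨ] at h1
    exact h1
  obtain ⟨b, hb⟩ := classInner_isCharacter_nat (isCharacter_restrict K hηch) hθch
  have hab : a * b = e := by
    have h1 : classInner ((a : ℂ) • (fun k : K => η.1 k)) θ.1 = (a : ℂ) * b := by
      rw [classInner_smul_left, hb]
    rw [hηK, classInner_smul_left, irr_inner_self, mul_one] at h1
    exact_mod_cast h1.symm
  have hb0 : b ≠ 0 := by
    rintro rfl
    rw [mul_zero] at hab
    exact he0 hab.symm
  have hηKb : (fun k : K => η.1 k) = (b : ℂ) • θ.1 := by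
    have ha' : (a : ℂ) ≠ 0 := by exact_mod_cast ha0
    have h1 : (a : ℂ) • (fun k : K => η.1 k) = (a : ℂ) • ((b : ℂ) • θ.1) := by
      rw [hηK, smul_smul]
      congr 1
      exact_mod_cast hab.symm
    exact smul_right_injective _ ha' h1
  -- A2
  obtain ⟨I, hI, hR⟩ := indFun_one_abelian K hcomm
  have hprod : (b : ℂ) • indFun K θ.1 = ∑ β ∈ I, β.1 * η.1 := by
    have h1 := indFun_mul_res K (1 : K → ℂ) hηcf
    rw [one_mul, hηKb, indFun_smul', hR, Finset.sum_mul] at h1
    exact h1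
  have hT : ∀ ξ : IrrCharacter M, classInner (indFun K θ.1) ξ.1 ≠ 0 →
      classInner (indFun K θ.1) ξ.1 = b ∧ ξ.1 1 = (b : ℂ) * θ.1 1 := by
    intro ξ hξ
    have h1 : classInner ((b : ℂ) • indFun K θ.1) ξ.1 ≠ 0 := by
      rw [classInner_smul_left]
      exact mul_ne_zero (by exact_mod_cast hb0) hξ
    rw [hprod, classInner_sum_left] at h1
    obtain ⟨β, hβ, hβne⟩ := Finset.exists_ne_zero_of_sum_ne_zero h1
    have hβη : IsIrrCharacter M (β.1 * η.1) :=
      Cfsg.Agent.H83.isIrrCharacter_linear_mul β η (hI β hβ).1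
    have heq : β.1 * η.1 = ξ.1 := eq_of_classInner_ne_zero hβη ξ.2 hβne
    have hξK : (fun k : K => ξ.1 k) = (b : ℂ) • θ.1 := by
      rw [← hηKb]
      funext k
      rw [← heq, Pi.mul_apply, (hI β hβ).2 k, one_mul]
    refine ⟨?_, ?_⟩
    · rw [frobenius_reciprocity K θ.1 ξ.1 (irr_isClassFunction ξ), hξK, classInner_smul_right,
        irr_inner_self, mul_one, Complex.conj_natCast]
    · have h2 := congrFun hξK 1
      exact h2
  have hbdvd : b ∣ K.index := by
    have hch : IsCharacter M (indFun K θ.1) := isCharacter_indFun K θ.1 hθch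
    obtain ⟨mm, hmm⟩ := isCharacter_iff.mp hch
    have hmmξ : ∀ ξ : IrrCharacter M, classInner (indFun K θ.1) ξ.1 = mm ξ := by
      intro ξ
      conv_lhs => rw [hmm]
      rw [classInner_finsum_irr]
    have h1 := congrFun hmm 1
    rw [Cfsg.Agent.H82.indFun_one, finsum_irr_eq_sum, Finset.sum_apply] at h1
    set T : Finset (IrrCharacter M) :=
      Finset.univ.filter (fun ξ => classInner (indFun K θ.1) ξ.1 ≠ 0) with hTdef
    have h2 : ∑ ξ : IrrCharacter M, ((mm ξ : ℂ) • ξ.1) 1 =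
        ∑ ξ ∈ T, (b : ℂ) * ((b : ℂ) * θ.1 1) := by
      rw [← Finset.sum_filter_add_sum_filter_not Finset.univ
        (fun ξ => classInner (indFun K θ.1) ξ.1 ≠ 0)]
      have hz : ∑ ξ ∈ Finset.univ.filter (fun ξ => ¬ classInner (indFun K θ.1) ξ.1 ≠ 0),
          ((mm ξ : ℂ) • ξ.1) 1 = 0 := by
        refine Finset.sum_eq_zero fun ξ hξ => ?_
        have h3 := (Finset.mem_filter.mp hξ).2
        push Not at h3
        rw [Pi.smul_apply, ← hmmξ, h3, zero_smul]
      rw [hz, add_zero]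
      refine Finset.sum_congr rfl fun ξ hξ => ?_
      have h3 := hT ξ (Finset.mem_filter.mp hξ).2
      rw [Pi.smul_apply, ← hmmξ, h3.1, h3.2, smul_eq_mul]
    rw [h2, Finset.sum_const, nsmul_eq_mul] at h1
    have h3 : (K.index : ℂ) = (T.card : ℂ) * ((b : ℂ) * (b : ℂ)) := by
      apply mul_right_cancel₀ hθ1
      rw [h1]
      ring
    have h4 : K.index = T.card * (b * b) := by exact_mod_cast h3
    rw [h4]
    exact Dvd.dvd.mul_left (Dvd.intro _ rfl) _
  have hb1 : b = 1 := by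
    have h1 : b ∣ Nat.gcd e K.index := Nat.dvd_gcd (Dvd.intro_left _ hab) hbdvd
    rw [hcop.gcd_eq_one] at h1
    exact Nat.dvd_one.mp h1
  -- A3
  subst hb1
  rw [mul_one] at hab
  subst hab
  have hηQ : (fun y : Q => η.1 y) = (a : ℂ) • ϑq.1 := by
    apply eq_smul_of_inner_of_degree (isCharacter_restrict Q hηch) ϑq a
    · have h1 := frobenius_reciprocity Q ϑq.1 η.1 hηcf
      rw [hΨ, classInner_smul_left, irr_inner_self, mul_one] at h1
      rw [← classInner_conj_symm, ← h1, Complex.conj_natCast]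
    · have h1 := congrFun hηKb 1
      simp only [Pi.smul_apply, smul_eq_mul, Nat.cast_one, one_mul] at h1
      show η.1 1 = (a : ℂ) * ϑq.1 1
      rw [← hdeg, ← h1]
      rfl
  -- A4
  have hperm : ∀ m : M, (a : ℂ) * (a : ℂ) * η.1 m = indFun Q (1 : Q → ℂ) m * η.1 m := by
    intro m
    have h1 := indFun_mul_res Q (1 : Q → ℂ) hηcf
    rw [one_mul, hηQ, indFun_smul', hΨ] at h1
    have h2 := congrFun h1 m
    simp only [Pi.smul_apply, Pi.mul_apply, smul_eq_mul] at h2
    rw [← h2]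
    ring
  have hidx : (Q.index : ℂ) = (a : ℂ) * (a : ℂ) := by
    have h1 : η.1 1 = (a : ℂ) * ϑq.1 1 := by
      have h2 := congrFun hηQ 1
      exact h2
    rw [h1] at hΨ1
    apply mul_right_cancel₀ hϑ1
    rw [hΨ1]
    ring
  intro y hy m
  have hηy : η.1 (y : M) ≠ 0 := by
    have h1 := congrFun hηQ y
    simp only [Pi.smul_apply, smul_eq_mul] at h1
    rw [h1]
    exact mul_ne_zero (by exact_mod_cast ha0) hy
  have h2 := hperm (y : M)
  have h3 : indFun Q (1 : Q → ℂ) (y : M) = (Q.index : ℂ) := by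
    rw [hidx]
    exact (mul_right_cancel₀ hηy h2).symm
  exact conj_mem_of_indFun_one_eq Q (y : M) h3 m

end Homog

end Cfsg.Agent.Lib.Helper96
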