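import Mathlib
import Cfsg.Agent.Lib.Helper96.Berger1
import Cfsg.Agent.H1.MinNormal
import Cfsg.Agent.H58.PGroup

/-!
# A Berger-type theorem (helper96)

`not_quasiprimitive_of_induced`: let `H` be a maximal subgroup of `G`, `L ≤ H` normal in `G` with
`G/L` solvable, `ϑ ∈ Irr(H)` with `ϑ|L` irreducible and `χ = ϑ^G` irreducible.  Then `χ|M` is not
homogeneous for some normal `M ≥ L`.

Proof: let `L₁` be the core of `H`, `K/L₁` and `M/K` successive chief factors (a `p`-group and a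
`q`-group, `q ≠ p` since `H/L₁` acts faithfully on `K/L₁`).  If `χ` is homogeneous on `L₁`, `K`
and `M`, then `ϑ|L₁` is fully ramified in `K` (`χ|K = e θ`, `e² = |K:L₁|`), and `χ|M = a η` with
`η|K = θ` (as `η(1)/θ(1)` is a `p`-number whose square divides `|M:K|`), so `η|H∩M = e ϑ`; the
projection formula for the permutation character on `M/(H∩M)` then shows that `ϑ` vanishes on
`(H ∩ M) ∖ L₁`, which forces `H ∩ M = L₁`, a contradiction.
-/

set_option autoImplicit false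
set_option linter.style.haveILetI false
set_option linter.unusedSectionVars false
open Cfsg
open scoped ComplexConjugate

namespace Cfsg.Agent.Lib.Helper96

open Cfsg.Agent Cfsg.Agent.H4 Cfsg.Agent.Clifford

universe u

section GT

variable {G : Type u} [Group G]

theorem solvable_quotient_of_le (N N' : Subgroup G) [N.Normal] [N'.Normal] (h : N ≤ N')
    (hs : Group.IsSolvable (G ⧸ N)) : Group.IsSolvable (G ⧸ N') :=
  Group.isSolvable_of_surjective (f := QuotientGroup.map N N' (MonoidHom.id G) h) (by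
    intro x
    obtain ⟨g, rfl⟩ := QuotientGroup.mk_surjective x
    exact ⟨QuotientGroup.mk g, rfl⟩)

theorem exists_mul_of_sup_eq_top (H K : Subgroup G) [K.Normal] (hsup : H ⊔ K = ⊤) (g : G) :
    ∃ k ∈ K, ∃ h ∈ H, g = k * h := by
  have hx : g ∈ (K ⊔ H : Subgroup G) := by rw [sup_comm, hsup]; exact Subgroup.mem_top g
  rw [← SetLike.mem_coe, Subgroup.normal_mul, Set.mem_mul] at hx
  obtain ⟨u, hu, h, hh, rfl⟩ := hx
  exact ⟨u, hu, h, hh, rfl⟩

/-- An abelian chief factor above a proper normal subgroup with solvable quotient. -/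
theorem chief_step [Finite G] (N : Subgroup G) [hN : N.Normal] (hNtop : N ≠ ⊤)
    (hs : Group.IsSolvable (G ⧸ N)) :
    ∃ K : Subgroup G, K.Normal ∧ N ≤ K ∧ K ≠ N ∧
      (∀ N' : Subgroup G, N'.Normal → N ≤ N' → N' ≤ K → N' = N ∨ N' = K) ∧
      (∀ a ∈ K, ∀ b ∈ K, a * b * a⁻¹ * b⁻¹ ∈ N) ∧
      ∃ p n : ℕ, p.Prime ∧ N.relIndex K = p ^ n := by
  haveI : Nontrivial (G ⧸ N) := QuotientGroup.nontrivial_iff.mpr hNtop
  obtain ⟨Kb, hKbn, hKb1, hKbmin⟩ := Cfsg.Agent.H1.exists_minimal_normal (G := G ⧸ N)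
  haveI := hKbn
  obtain ⟨hcomm, p, hp, hexp⟩ := Cfsg.Agent.H1.minimal_normal_elementary_abelian Kb hKb1 hKbmin
  have hsurj := QuotientGroup.mk'_surjective N
  have hker : (⊥ : Subgroup (G ⧸ N)).comap (QuotientGroup.mk' N) = N := by
    rw [MonoidHom.comap_bot, QuotientGroup.ker_mk']
  have hNK : N ≤ Kb.comap (QuotientGroup.mk' N) :=
    hker.symm.le.trans (Subgroup.comap_mono bot_le)
  refine ⟨Kb.comap (QuotientGroup.mk' N), hKbn.comap _, hNK, ?_, ?_, ?_, p, ?_⟩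
  · intro h
    apply hKb1
    exact Subgroup.comap_injective hsurj (h.trans hker.symm)
  · intro N' hN' hNN' hN'K
    have h1 : (N'.map (QuotientGroup.mk' N)).Normal := hN'.map _ hsurj
    have h2 : N'.map (QuotientGroup.mk' N) ≤ Kb := Subgroup.map_le_iff_le_comap.mpr hN'K
    have h3 : (N'.map (QuotientGroup.mk' N)).comap (QuotientGroup.mk' N) = N' := by
      rw [Subgroup.comap_map_eq, QuotientGroup.ker_mk']
      exact sup_eq_left.mpr hNN'
    rcases hKbmin _ h1 h2 with h | h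
    · left
      exact h3.symm.trans ((congrArg (Subgroup.comap (QuotientGroup.mk' N)) h).trans hker)
    · right
      exact h3.symm.trans (congrArg (Subgroup.comap (QuotientGroup.mk' N)) h)
  · intro a ha b hb
    have h1 := hcomm.is_comm.comm ⟨QuotientGroup.mk' N a, ha⟩ ⟨QuotientGroup.mk' N b, hb⟩
    have h2 : QuotientGroup.mk' N a * QuotientGroup.mk' N b =
        QuotientGroup.mk' N b * QuotientGroup.mk' N a := congrArg Subtype.val h1
    rw [← QuotientGroup.eq_one_iff]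
    show QuotientGroup.mk' N (a * b * a⁻¹ * b⁻¹) = 1
    rw [map_mul, map_mul, map_mul, map_inv, map_inv, h2]
    group
  · haveI : Fact p.Prime := ⟨hp⟩
    have hP : IsPGroup p ↥Kb := by
      intro x
      refine ⟨1, ?_⟩
      rw [pow_one]
      exact Subtype.ext (hexp x.1 x.2)
    obtain ⟨n, hn⟩ := IsPGroup.iff_card.mp hP
    refine ⟨n, hp, ?_⟩
    rw [← hn]
    have h1 := Subgroup.relIndex_comap (⊥ : Subgroup (G ⧸ N)) (QuotientGroup.mk' N)
      (Kb.comap (QuotientGroup.mk' N))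
    rw [hker, Subgroup.map_comap_eq_self_of_surjective hsurj, Subgroup.relIndex_bot_left] at h1
    exact h1

theorem le_of_inf_le (H L₁ K Mg : Subgroup G) [hK : K.Normal] (hsup : H ⊔ K = ⊤)
    (hL₁K : L₁ ≤ K) (hKM : K ≤ Mg) (hQ : H ⊓ Mg ≤ L₁) : Mg ≤ K := by
  intro x hx
  obtain ⟨k, hk, h, hh, rfl⟩ := exists_mul_of_sup_eq_top H K hsup x
  have h1 : h ∈ Mg := by
    have h2 := Mg.mul_mem (Mg.inv_mem (hKM hk)) hx
    rwa [inv_mul_cancel_left] at h2
  exact K.mul_mem hk (hL₁K (hQ ⟨hh, h1⟩))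

/-- Two successive chief factors `K/L₁`, `M/K` over the core `L₁` of a maximal subgroup cannot
both be `p`-groups. -/
theorem chief_coprime_aux [Finite G] (H L₁ K Mg : Subgroup G) [hL₁ : L₁.Normal] [hK : K.Normal]
    [hM : Mg.Normal] (hL₁H : L₁ ≤ H)
    (hcore : ∀ N : Subgroup G, N.Normal → N ≤ H → N ≤ L₁)
    (hL₁K : L₁ ≤ K) (hKne : K ≠ L₁)
    (hKmin : ∀ N' : Subgroup G, N'.Normal → L₁ ≤ N' → N' ≤ K → N' = L₁ ∨ N' = K)
    (hKM : K ≤ Mg) (hMne : Mg ≠ K) (hsup : H ⊔ K = ⊤)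
    (p n m : ℕ) (hp : p.Prime) (hKidx : L₁.relIndex K = p ^ n) (hMidx : K.relIndex Mg = p ^ m) :
    False := by
  haveI : Fact p.Prime := ⟨hp⟩
  have hsurj := QuotientGroup.mk'_surjective L₁
  have hker : (⊥ : Subgroup (G ⧸ L₁)).comap (QuotientGroup.mk' L₁) = L₁ := by
    rw [MonoidHom.comap_bot, QuotientGroup.ker_mk']
  have hcardM : Nat.card ↥(Mg.map (QuotientGroup.mk' L₁)) = p ^ (n + m) := by
    have h1 := Subgroup.relIndex_comap (⊥ : Subgroup (G ⧸ L₁)) (QuotientGroup.mk' L₁) Mg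
    rw [hker, Subgroup.relIndex_bot_left] at h1
    rw [← h1, ← Subgroup.relIndex_mul_relIndex L₁ K Mg hL₁K hKM, hKidx, hMidx, pow_add]
  have hMbP : IsPGroup p ↥(Mg.map (QuotientGroup.mk' L₁)) := IsPGroup.of_card hcardM
  haveI hMbn : (Mg.map (QuotientGroup.mk' L₁)).Normal := hM.map _ hsurj
  haveI hKbn : (K.map (QuotientGroup.mk' L₁)).Normal := hK.map _ hsurj
  haveI hN'n : ((K.map (QuotientGroup.mk' L₁)).subgroupOf (Mg.map (QuotientGroup.mk' L₁))).Normal :=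
    Subgroup.normal_subgroupOf
  obtain ⟨k₁, hk₁K, hk₁L⟩ : ∃ k₁ ∈ K, k₁ ∉ L₁ := by
    by_contra hcon
    push Not at hcon
    exact hKne (le_antisymm hcon hL₁K)
  have hN'ne : (K.map (QuotientGroup.mk' L₁)).subgroupOf (Mg.map (QuotientGroup.mk' L₁)) ≠ ⊥ := by
    intro h0
    have h1 : (⟨QuotientGroup.mk' L₁ k₁, Subgroup.mem_map_of_mem _ (hKM hk₁K)⟩ :
        ↥(Mg.map (QuotientGroup.mk' L₁))) ∈
        (K.map (QuotientGroup.mk' L₁)).subgroupOf (Mg.map (QuotientGroup.mk' L₁)) := by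
      rw [Subgroup.mem_subgroupOf]
      exact Subgroup.mem_map_of_mem _ hk₁K
    rw [h0, Subgroup.mem_bot] at h1
    have h2 : QuotientGroup.mk' L₁ k₁ = 1 := congrArg Subtype.val h1
    exact hk₁L ((QuotientGroup.eq_one_iff k₁).mp h2)
  obtain ⟨z, hzN, hz1, hzc⟩ := Cfsg.Agent.H58.exists_central_of_normal hMbP _ hN'ne
  rw [Subgroup.mem_subgroupOf] at hzN
  obtain ⟨k₀, hk₀K, hk₀z⟩ := Subgroup.mem_map.mp hzN
  have hk₀L : k₀ ∉ L₁ := by
    intro hc
    apply hz1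
    apply Subtype.ext
    rw [← hk₀z]
    exact (QuotientGroup.eq_one_iff k₀).mpr hc
  set D : Subgroup G := K ⊓ (Subgroup.centralizer
    ((Mg.map (QuotientGroup.mk' L₁) : Subgroup (G ⧸ L₁)) : Set (G ⧸ L₁))).comap
      (QuotientGroup.mk' L₁) with hD
  have hDn : D.Normal := by
    constructor
    intro x hx g
    have h2 : ((Subgroup.centralizer
        ((Mg.map (QuotientGroup.mk' L₁) : Subgroup (G ⧸ L₁)) : Set (G ⧸ L₁))).comap
        (QuotientGroup.mk' L₁)).Normal := Subgroup.Normal.comap inferInstance _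
    exact Subgroup.mem_inf.mpr ⟨hK.conj_mem x (Subgroup.mem_inf.mp hx).1 g,
      h2.conj_mem x (Subgroup.mem_inf.mp hx).2 g⟩
  have hL₁D : L₁ ≤ D := by
    intro x hx
    refine Subgroup.mem_inf.mpr ⟨hL₁K hx, ?_⟩
    rw [Subgroup.mem_comap]
    have h1 : QuotientGroup.mk' L₁ x = 1 := (QuotientGroup.eq_one_iff x).mpr hx
    rw [h1]
    exact Subgroup.one_mem _
  have hDK : D ≤ K := inf_le_left
  have hk₀D : k₀ ∈ D := by
    refine Subgroup.mem_inf.mpr ⟨hk₀K, ?_⟩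
    rw [Subgroup.mem_comap, Subgroup.mem_centralizer_iff]
    intro w hw
    have h1 := hzc ⟨w, hw⟩
    have h2 : w * (z : G ⧸ L₁) = (z : G ⧸ L₁) * w := congrArg Subtype.val h1
    rw [hk₀z]
    exact h2
  have hDeq : D = K := by
    rcases hKmin D hDn hL₁D hDK with h | h
    · exact absurd (h ▸ hk₀D) hk₀L
    · exact h
  have hcent : ∀ k ∈ K, ∀ x ∈ Mg, k * x * k⁻¹ * x⁻¹ ∈ L₁ := by
    intro k hk x hx
    have hkD : k ∈ D := by rw [hDeq]; exact hk
    have h1 := (Subgroup.mem_inf.mp hkD).2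
    rw [Subgroup.mem_comap, Subgroup.mem_centralizer_iff] at h1
    have h2 := h1 (QuotientGroup.mk' L₁ x) (Subgroup.mem_map_of_mem _ hx)
    rw [← QuotientGroup.eq_one_iff]
    show QuotientGroup.mk' L₁ (k * x * k⁻¹ * x⁻¹) = 1
    rw [map_mul, map_mul, map_mul, map_inv, map_inv, ← h2]
    group
  have hQn : (H ⊓ Mg).Normal := by
    constructor
    intro y hy g
    obtain ⟨k, hk, h, hh, rfl⟩ := exists_mul_of_sup_eq_top H K hsup g
    have hy' : h * y * h⁻¹ ∈ H ⊓ Mg :=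
      ⟨H.mul_mem (H.mul_mem hh hy.1) (H.inv_mem hh), hM.conj_mem y hy.2 h⟩
    have h1 := hcent k hk (h * y * h⁻¹) hy'.2
    have h2 : k * h * y * (k * h)⁻¹ = (k * (h * y * h⁻¹) * k⁻¹ * (h * y * h⁻¹)⁻¹) * (h * y * h⁻¹) := by
      group
    rw [h2]
    exact (H ⊓ Mg).mul_mem ⟨hL₁H h1, hKM (hL₁K h1)⟩ hy'
  have hQL : H ⊓ Mg ≤ L₁ := hcore _ hQn inf_le_left
  exact hMne (le_antisymm (le_of_inf_le H L₁ K Mg hsup hL₁K hKM hQL) hKM)

end GT

section Main

variable {G : Type u} [Group G] [Fintype G]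

/-- Berger-type theorem: a character induced from a maximal subgroup `H` by a character which is
irreducible on a normal subgroup `L ≤ H` with `G/L` solvable is not quasi-primitive above `L`. -/
theorem not_quasiprimitive_of_induced (L H : Subgroup G) [hLn : L.Normal] (hLH : L ≤ H)
    (hmax : IsCoatom H) (hsolv : Group.IsSolvable (G ⧸ L)) (ϑ : H → ℂ) (hϑ : IsIrrCharacter H ϑ)
    (hϑL : IsIrrCharacter L (fun x : L => ϑ ⟨(x : G), hLH x.2⟩))
    (hind : IsIrrCharacter G (indFun H ϑ)) :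
    ∃ M : Subgroup G, M.Normal ∧ L ≤ M ∧ ¬ ∃ (φ : M → ℂ) (e : ℕ), IsIrrCharacter M φ ∧
      (fun m : M => indFun H ϑ m) = (e : ℂ) • φ := by
  classical
  by_contra hcon
  have hom : ∀ M : Subgroup G, M.Normal → L ≤ M → ∃ (φ : M → ℂ) (e : ℕ), IsIrrCharacter M φ ∧
      (fun m : M => indFun H ϑ m) = (e : ℂ) • φ := by
    intro M hM hLM
    by_contra h
    exact hcon ⟨M, hM, hLM, h⟩
  letI : Fintype ↥H := Fintype.ofFinite _
  have hχcf : IsClassFunction G (indFun H ϑ) := indFun_isClassFunction H ϑ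
  have hϑch : IsCharacter H ϑ := isCharacter_of_isIrrCharacter hϑ
  have hϑcf : IsClassFunction H ϑ := isClassFunction_of_isCharacter hϑch
  have hχ1 : indFun H ϑ 1 ≠ 0 := irr_one_ne_zero' hind
  have hϑ1 : ϑ 1 ≠ 0 := irr_one_ne_zero' hϑ
  -- the core
  obtain ⟨L₁, hL₁def⟩ : ∃ L₁ : Subgroup G, L₁ = H.normalCore := ⟨_, rfl⟩
  haveI hL₁n : L₁.Normal := by rw [hL₁def]; infer_instance
  have hL₁H : L₁ ≤ H := by rw [hL₁def]; exact Subgroup.normalCore_le H
  have hcore : ∀ N : Subgroup G, N.Normal → N ≤ H → N ≤ L₁ := fun N hN h => by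
    haveI := hN
    rw [hL₁def]
    exact Subgroup.normal_le_normalCore.mpr h
  have hLL₁ : L ≤ L₁ := hcore L hLn hLH
  have hL₁top : L₁ ≠ ⊤ := fun h => hmax.1 (top_le_iff.mp (h ▸ hL₁H))
  have hs₁ : Group.IsSolvable (G ⧸ L₁) := solvable_quotient_of_le L _ hLL₁ hsolv
  obtain ⟨K, hKn, hL₁K, hKne, hKmin, hKab, p, n, hp, hKidx⟩ := chief_step L₁ hL₁top hs₁
  haveI := hKn
  have hKH : ¬ K ≤ H := fun h => hKne (le_antisymm (hcore K hKn h) hL₁K)
  have hsup : H ⊔ K = ⊤ :=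
    hmax.2 _ (lt_of_le_of_ne le_sup_left (fun h => hKH (h ▸ le_sup_right)))
  have hinf : H ⊓ K ≤ L₁ := by
    apply hcore _ _ inf_le_left
    constructor
    intro y hy g
    obtain ⟨k, hk, h, hh, rfl⟩ := exists_mul_of_sup_eq_top H K hsup g
    have hy' : h * y * h⁻¹ ∈ H ⊓ K :=
      ⟨H.mul_mem (H.mul_mem hh hy.1) (H.inv_mem hh), hKn.conj_mem y hy.2 h⟩
    have h1 := hKab k hk (h * y * h⁻¹) hy'.2
    have h2 : k * h * y * (k * h)⁻¹ =
        (k * (h * y * h⁻¹) * k⁻¹ * (h * y * h⁻¹)⁻¹) * (h * y * h⁻¹) := by group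
    rw [h2]
    exact (H ⊓ K).mul_mem ⟨hL₁H h1, hL₁K h1⟩ hy'
  -- restriction of ϑ to L₁
  letI : Fintype ↥L₁ := Fintype.ofFinite _
  have hφ₁irr : IsIrrCharacter L₁ (fun x : L₁ => ϑ ⟨(x : G), hL₁H x.2⟩) := by
    have hch : IsCharacter L₁ (fun x : L₁ => ϑ ⟨(x : G), hL₁H x.2⟩) :=
      isCharacter_comp (Subgroup.inclusion hL₁H) hϑch
    exact Cfsg.Agent.Glaub.isIrrCharacter_of_comp_irr (Subgroup.inclusion hLL₁) hch hϑL
  letI : Fintype ↥(L₁.subgroupOf H) := Fintype.ofFinite _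
  have hφ₁' : IsIrrCharacter ↥(L₁.subgroupOf H) (fun x : L₁.subgroupOf H => ϑ x) :=
    isIrrCharacter_comp_equiv (Subgroup.subgroupOfEquivOfLe hL₁H) hφ₁irr
  -- homogeneity at L₁ gives invariance
  obtain ⟨φ', f₁, hφ', hχL₁⟩ := hom L₁ hL₁n hLL₁
  have hφ'eq : φ' = (fun x : L₁ => ϑ ⟨(x : G), hL₁H x.2⟩) := by
    apply eq_of_classInner_ne_zero hφ' hφ₁irr
    have h1 : classInner (fun x : L₁ => indFun H ϑ x)
        (fun x : L₁ => ϑ ⟨(x : G), hL₁H x.2⟩) ≠ 0 := by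
      have hA : IsCharacter H (fun h : H => indFun H ϑ h) :=
        isCharacter_restrict H (isCharacter_of_isIrrCharacter hind)
      have hAϑ : classInner (fun h : H => indFun H ϑ h) ϑ ≠ 0 := by
        have h2 := frobenius_reciprocity H ϑ (indFun H ϑ) hχcf
        rw [irr_inner_self ⟨_, hind⟩] at h2
        intro h0
        have h3 : classInner ϑ (fun h : H => indFun H ϑ h) = 0 := by
          rw [← classInner_conj_symm, h0, map_zero]
        rw [h3] at h2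
        exact one_ne_zero h2
      have h3 := Cfsg.Agent.H32.constituent_res_of_constituent (L₁.subgroupOf H) hA hϑ hAϑ
        (isCharacter_of_isIrrCharacter hφ₁')
        (by rw [irr_inner_self ⟨_, hφ₁'⟩]; exact one_ne_zero)
      have h4 := classInner_comp_equiv (Subgroup.subgroupOfEquivOfLe hL₁H)
        (fun x : L₁ => indFun H ϑ x) (fun x : L₁ => ϑ ⟨(x : G), hL₁H x.2⟩)
      rw [← h4]
      exact h3
    rw [hχL₁, classInner_smul_left] at h1
    exact right_ne_zero_of_mul h1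
  subst hφ'eq
  have hf₁ : (f₁ : ℂ) ≠ 0 := by
    intro h0
    have h1 := congrFun hχL₁ 1
    rw [h0, zero_smul] at h1
    exact hχ1 h1
  have hφ₁inv : ∀ (g : G) (x : G) (hx : x ∈ L₁),
      ϑ ⟨g * x * g⁻¹, hL₁H (hL₁n.conj_mem x hx g)⟩ = ϑ ⟨x, hL₁H hx⟩ := by
    intro g x hx
    have h1 : indFun H ϑ x = (f₁ : ℂ) * ϑ ⟨x, hL₁H hx⟩ := congrFun hχL₁ ⟨x, hx⟩
    have h2 : indFun H ϑ (g * x * g⁻¹) =
        (f₁ : ℂ) * ϑ ⟨g * x * g⁻¹, hL₁H (hL₁n.conj_mem x hx g)⟩ :=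
      congrFun hχL₁ ⟨g * x * g⁻¹, hL₁n.conj_mem x hx g⟩
    rw [hχcf x g, h1] at h2
    exact (mul_left_cancel₀ hf₁ h2).symm
  -- the chief factor K / L₁
  letI : Fintype ↥K := Fintype.ofFinite _
  letI : Fintype ↥(L₁.subgroupOf K) := Fintype.ofFinite _
  haveI hNKn : (L₁.subgroupOf K).Normal := Subgroup.normal_subgroupOf
  have hresK := ind_res_of_sup H K L₁ hL₁H hL₁K hinf hsup ϑ hϑcf
  obtain ⟨θ, e, hθ, hχK⟩ := hom K hKn (hLL₁.trans hL₁K)
  have he0 : e ≠ 0 := by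
    rintro rfl
    have h1 := congrFun hχK 1
    rw [Nat.cast_zero, zero_smul] at h1
    exact hχ1 h1
  have hφKirr : IsIrrCharacter ↥(L₁.subgroupOf K)
      (fun x : L₁.subgroupOf K => ϑ ⟨((x : K) : G), hL₁H x.2⟩) :=
    isIrrCharacter_comp_equiv (Subgroup.subgroupOfEquivOfLe hL₁K) hφ₁irr
  have hφKinv : ∀ g : K, conjChar (L₁.subgroupOf K)
      (fun x : L₁.subgroupOf K => ϑ ⟨((x : K) : G), hL₁H x.2⟩) g =
      (fun x : L₁.subgroupOf K => ϑ ⟨((x : K) : G), hL₁H x.2⟩) := by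
    intro g
    funext x
    rw [conjChar_apply]
    exact hφ₁inv (g : G) ((x : K) : G) x.2
  have hθφ : classInner (fun x : L₁.subgroupOf K => θ x)
      (fun x : L₁.subgroupOf K => ϑ ⟨((x : K) : G), hL₁H x.2⟩) = e := by
    have h1 := frobenius_reciprocity (L₁.subgroupOf K)
      (fun x : L₁.subgroupOf K => ϑ ⟨((x : K) : G), hL₁H x.2⟩) θ
      (isClassFunction_of_isCharacter (isCharacter_of_isIrrCharacter hθ))
    rw [← hresK, hχK, classInner_smul_left, irr_inner_self ⟨θ, hθ⟩, mul_one] at h1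
    rw [← classInner_conj_symm, ← h1, Complex.conj_natCast]
  obtain ⟨c, hc⟩ := Cfsg.Agent.H32.res_eq_smul_of_invariant (L₁.subgroupOf K) hθ hφKirr
    (by rw [hθφ]; exact_mod_cast he0) hφKinv
  have hce : c = e := by
    have h1 := hθφ
    rw [hc, classInner_smul_left, irr_inner_self ⟨_, hφKirr⟩, mul_one] at h1
    exact h1
  have hθ1 : θ 1 = (e : ℂ) * ϑ 1 := by
    have h1 := congrFun hc 1
    rw [hce] at h1
    exact h1
  have hidxK : L₁.relIndex K = e * e := by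
    have h1 : indFun H ϑ 1 = ((L₁.subgroupOf K).index : ℂ) * ϑ 1 := by
      have h2 := congrFun hresK 1
      rw [Cfsg.Agent.H82.indFun_one] at h2
      exact h2
    have h3 : indFun H ϑ 1 = (e : ℂ) * θ 1 := congrFun hχK 1
    rw [h3, hθ1, ← mul_assoc] at h1
    have h4 := mul_right_cancel₀ hϑ1 h1
    have h5 : (L₁.subgroupOf K).index = e * e := by exact_mod_cast h4.symm
    exact h5
  have hKtop : K ≠ ⊤ := by
    intro hK
    have h1 : classInner (fun k : K => indFun H ϑ k) (fun k : K => indFun H ϑ k) = 1 := by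
      have h2 := classInner_comp_equiv ((MulEquiv.subgroupCongr hK).trans Subgroup.topEquiv)
        (indFun H ϑ) (indFun H ϑ)
      rw [irr_inner_self ⟨_, hind⟩] at h2
      exact h2
    rw [hχK, classInner_smul_left, classInner_smul_right, irr_inner_self ⟨θ, hθ⟩,
      Complex.conj_natCast, mul_one] at h1
    have h3 : e * e = 1 := by exact_mod_cast h1
    have h4 : L₁.relIndex K = 1 := by rw [hidxK, h3]
    exact hKne (le_antisymm (Subgroup.relIndex_eq_one.mp h4) hL₁K)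
  -- the second chief factor M / K
  have hsK : Group.IsSolvable (G ⧸ K) := solvable_quotient_of_le L K (hLL₁.trans hL₁K) hsolv
  obtain ⟨Mg, hMn, hKM, hMne, hMmin, hMab, q, m, hq, hMidx⟩ := chief_step K hKtop hsK
  haveI := hMn
  have hqp : q ≠ p := by
    rintro rfl
    exact chief_coprime_aux H L₁ K Mg hL₁H hcore hL₁K hKne hKmin hKM hMne hsup q n m hq hKidx
      hMidx
  have hsupM : H ⊔ Mg = ⊤ := top_le_iff.mp (hsup ▸ sup_le_sup_left hKM H)
  letI : Fintype ↥Mg := Fintype.ofFinite _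
  letI : Fintype ↥(K.subgroupOf Mg) := Fintype.ofFinite _
  letI : Fintype ↥((H ⊓ Mg).subgroupOf Mg) := Fintype.ofFinite _
  haveI hK'n : (K.subgroupOf Mg).Normal := Subgroup.normal_subgroupOf
  have hresM := ind_res_of_sup H Mg (H ⊓ Mg) inf_le_left inf_le_right le_rfl hsupM ϑ hϑcf
  obtain ⟨η, a, hη, hχM⟩ := hom Mg hMn ((hLL₁.trans hL₁K).trans hKM)
  have hcomm' : ∀ x y : ↥Mg ⧸ K.subgroupOf Mg, x * y = y * x := by
    intro x y
    obtain ⟨x, rfl⟩ := QuotientGroup.mk_surjective x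
    obtain ⟨y, rfl⟩ := QuotientGroup.mk_surjective y
    rw [← QuotientGroup.mk_mul, ← QuotientGroup.mk_mul, QuotientGroup.eq, Subgroup.mem_subgroupOf]
    have h1 := hMab (y : G)⁻¹ (Mg.inv_mem y.2) (x : G)⁻¹ (Mg.inv_mem x.2)
    have h2 : (((x * y)⁻¹ * (y * x) : Mg) : G) = (y : G)⁻¹ * (x : G)⁻¹ * (y : G)⁻¹⁻¹ * (x : G)⁻¹⁻¹ := by
      simp [mul_assoc]
    rw [h2]
    exact h1
  have hθ'irr : IsIrrCharacter ↥(K.subgroupOf Mg)
      (fun k : K.subgroupOf Mg => θ ⟨((k : Mg) : G), k.2⟩) :=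
    isIrrCharacter_comp_equiv (Subgroup.subgroupOfEquivOfLe hKM) hθ
  have hϑqch : IsCharacter ↥((H ⊓ Mg).subgroupOf Mg)
      (fun x : (H ⊓ Mg).subgroupOf Mg => ϑ ⟨((x : Mg) : G), (inf_le_left : H ⊓ Mg ≤ H) x.2⟩) :=
    isCharacter_comp ((Subgroup.inclusion (inf_le_left : H ⊓ Mg ≤ H)).comp
      (Subgroup.subgroupOfEquivOfLe (inf_le_right : H ⊓ Mg ≤ Mg)).toMonoidHom) hϑch
  have hϑqirr : IsIrrCharacter ↥((H ⊓ Mg).subgroupOf Mg)
      (fun x : (H ⊓ Mg).subgroupOf Mg => ϑ ⟨((x : Mg) : G), (inf_le_left : H ⊓ Mg ≤ H) x.2⟩) :=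
    Cfsg.Agent.Glaub.isIrrCharacter_of_comp_irr
      ((Subgroup.subgroupOfEquivOfLe (inf_le_right : H ⊓ Mg ≤ Mg)).symm.toMonoidHom.comp
        (Subgroup.inclusion (le_inf hL₁H (hL₁K.trans hKM)))) hϑqch hφ₁irr
  have hcop : Nat.Coprime e (K.subgroupOf Mg).index := by
    show Nat.Coprime e (K.relIndex Mg)
    rw [hMidx]
    have h1 : e ∣ p ^ n := by
      rw [← hKidx, hidxK]
      exact Dvd.intro _ rfl
    exact Nat.Coprime.coprime_dvd_left h1
      (Nat.Coprime.pow n m ((Nat.coprime_primes hp hq).mpr (Ne.symm hqp)))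
  have hΨK : ∀ k : K.subgroupOf Mg,
      indFun ((H ⊓ Mg).subgroupOf Mg)
        (fun x : (H ⊓ Mg).subgroupOf Mg => ϑ ⟨((x : Mg) : G), (inf_le_left : H ⊓ Mg ≤ H) x.2⟩)
        (k : Mg) = (e : ℂ) * θ ⟨((k : Mg) : G), k.2⟩ := by
    intro k
    have h1 := congrFun hresM (k : Mg)
    have h2 := congrFun hχK ⟨((k : Mg) : G), k.2⟩
    rw [← h1]
    exact h2
  have hstep := homog_step (K.subgroupOf Mg) ((H ⊓ Mg).subgroupOf Mg) hcomm' ⟨_, hθ'irr⟩
    ⟨_, hϑqirr⟩ ⟨η, hη⟩ a e (hresM.symm.trans hχM) hΨK hθ1 hcop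
  have hvan : ∀ (y : G) (hy : y ∈ H ⊓ Mg), ϑ ⟨y, hy.1⟩ ≠ 0 → y ∈ L₁ := by
    intro y hy hne
    have h1 := hstep ⟨⟨y, hy.2⟩, hy⟩ hne
    rw [hL₁def]
    intro b
    obtain ⟨k, hk, h, hh, hb⟩ := exists_mul_of_sup_eq_top H K hsup b⁻¹
    have h2 := h1 ⟨k, hKM hk⟩
    rw [Subgroup.mem_subgroupOf] at h2
    have h3 : k⁻¹ * y * k ∈ H := h2.1
    have hb' : b = h⁻¹ * k⁻¹ := by
      rw [← inv_inv b, hb, mul_inv_rev]
    have h4 : b * y * b⁻¹ = h⁻¹ * (k⁻¹ * y * k) * h := by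
      rw [hb']
      group
    rw [h4]
    exact H.mul_mem (H.mul_mem (H.inv_mem hh) h3) hh
  -- the norm of ϑ on H ⊓ M
  letI : Fintype ↥(Mg.subgroupOf H) := Fintype.ofFinite _
  have hLQ : L₁.subgroupOf H ≤ Mg.subgroupOf H := fun y hy => hKM (hL₁K hy)
  have hirrQH : IsIrrCharacter ↥(Mg.subgroupOf H) (fun y : Mg.subgroupOf H => ϑ y) :=
    Cfsg.Agent.Glaub.isIrrCharacter_of_comp_irr
      ((Subgroup.inclusion hLQ).comp (Subgroup.subgroupOfEquivOfLe hL₁H).symm.toMonoidHom)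
      (isCharacter_restrict (Mg.subgroupOf H) hϑch) hφ₁irr
  have hsumQ := card_mul_classInner_res (Mg.subgroupOf H) ϑ
  have hsumL := card_mul_classInner_res (L₁.subgroupOf H) ϑ
  rw [irr_inner_self ⟨_, hirrQH⟩, mul_one] at hsumQ
  rw [irr_inner_self ⟨_, hφ₁'⟩, mul_one] at hsumL
  have hsumeq : ∑ y ∈ Finset.univ.filter (fun y : H => y ∈ L₁.subgroupOf H), ϑ y * conj (ϑ y) =
      ∑ y ∈ Finset.univ.filter (fun y : H => y ∈ Mg.subgroupOf H), ϑ y * conj (ϑ y) := by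
    apply Finset.sum_subset
    · intro y hy
      rw [Finset.mem_filter] at hy ⊢
      exact ⟨hy.1, hLQ hy.2⟩
    · intro y hyQ hyL
      rw [Finset.mem_filter] at hyQ
      have h0 : ϑ y = 0 := by
        by_contra hne
        apply hyL
        rw [Finset.mem_filter]
        exact ⟨Finset.mem_univ _, hvan (y : G) ⟨y.2, hyQ.2⟩ hne⟩
      rw [h0, zero_mul]
  have hcardeq : Nat.card ↥(L₁.subgroupOf H) = Nat.card ↥(Mg.subgroupOf H) := by
    have h1 : (Nat.card ↥(L₁.subgroupOf H) : ℂ) = Nat.card ↥(Mg.subgroupOf H) := by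
      rw [hsumQ, hsumL, hsumeq]
    exact_mod_cast h1
  have hQL : Mg.subgroupOf H ≤ L₁.subgroupOf H :=
    (Subgroup.eq_of_le_of_card_ge hLQ (le_of_eq hcardeq.symm)).ge
  have hfinal : H ⊓ Mg ≤ L₁ := fun y hy => hQL (show (⟨y, hy.1⟩ : H) ∈ Mg.subgroupOf H from hy.2)
  exact hMne (le_antisymm (le_of_inf_le H L₁ K Mg hsup hL₁K hKM hfinal) hKM)

end Main

end Cfsg.Agent.Lib.Helper96
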