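import Mathlib
import Cfsg.Agent.Lib.Helper96.Berger2
import Cfsg.Agent.Lib.CliffordCorr
import Cfsg.Agent.Lib.Gallagher
import Cfsg.Agent.H82.IndDeg
import Cfsg.Agent.H4.RealClasses
import Cfsg.Agent.S0188

/-!
# Abstract character lemmas for Berger's theorem (helper96)

* `eq_smul_of_add_eq_smul`: a character below a multiple of an irreducible character is a multiple
  of it.
* `exists_irr_constituent_inner`: constituents detecting a nonzero inner product.
* `isIrrCharacter_of_indFun_irr`: a character inducing an irreducible character is irreducible.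
* `exists_irr_extension`: an irreducible character `θ` of a normal subgroup `L` with
  `[θ|D ∩ L, 1] = 1`, where `D L = Y`, which is the only constituent on `L` of a character `T`
  with `[T|D, 1] ≠ 0`, extends to an irreducible constituent of `T`.
* `isIrrCharacter_of_mul_contains`, `exists_indFun_eq_of_mul_contains`: the degree count which
  transfers an imprimitivity decomposition of `Ψ` to an irreducible constituent `χ₁` of `Ψ Θ` of
  the largest possible degree.
-/

set_option autoImplicit false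
set_option linter.style.haveILetI false
set_option linter.unusedSectionVars false
open Cfsg
open scoped ComplexConjugate

namespace Cfsg.Agent.Lib.Helper96

open Cfsg.Agent Cfsg.Agent.H4 Cfsg.Agent.Clifford

universe u

section Abstract

variable {G : Type u} [Group G] [Fintype G]

/-- If `A + B = m ψ` with `A`, `B` characters and `ψ` irreducible then `A = c ψ` with `c ≤ m`. -/
theorem eq_smul_of_add_eq_smul {A B : G → ℂ} (hA : IsCharacter G A) (hB : IsCharacter G B)
    (ψ : IrrCharacter G) (m : ℕ) (h : A + B = (m : ℂ) • ψ.1) :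
    ∃ c : ℕ, c ≤ m ∧ A = (c : ℂ) • ψ.1 := by
  classical
  letI := fintypeIrr G
  obtain ⟨r, hr⟩ := isCharacter_iff.mp hA
  obtain ⟨s, hs⟩ := isCharacter_iff.mp hB
  have hrβ : ∀ β : IrrCharacter G, classInner A β.1 = r β := fun β => by
    conv_lhs => rw [hr]
    rw [classInner_finsum_irr]
  have hsβ : ∀ β : IrrCharacter G, classInner B β.1 = s β := fun β => by
    conv_lhs => rw [hs]
    rw [classInner_finsum_irr]
  have hsum : ∀ β : IrrCharacter G,
      (r β : ℂ) + s β = (m : ℂ) * (if ψ = β then 1 else 0) := by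
    intro β
    rw [← hrβ, ← hsβ, ← classInner_add_left, h, classInner_smul_left, irr_inner]
  have hr0 : ∀ β : IrrCharacter G, β ≠ ψ → r β = 0 := by
    intro β hβ
    have h1 := hsum β
    rw [if_neg (Ne.symm hβ), mul_zero] at h1
    have h2 : r β + s β = 0 := by exact_mod_cast h1
    omega
  refine ⟨r ψ, ?_, ?_⟩
  · have h1 := hsum ψ
    rw [if_pos rfl, mul_one] at h1
    have h2 : r ψ + s ψ = m := by exact_mod_cast h1
    omega
  · conv_lhs => rw [hr]
    rw [finsum_irr_eq_sum, Finset.sum_eq_single ψ]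
    · intro β _ hβ
      rw [hr0 β hβ, Nat.cast_zero, zero_smul]
    · intro h
      exact absurd (Finset.mem_univ ψ) h

/-- A character having a nonzero inner product with a function has an irreducible constituent
with the same property. -/
theorem exists_irr_constituent_inner {A : G → ℂ} (hA : IsCharacter G A) (F : G → ℂ)
    (h : classInner A F ≠ 0) :
    ∃ β : IrrCharacter G, classInner A β.1 ≠ 0 ∧ classInner β.1 F ≠ 0 := by
  classical
  letI := fintypeIrr G
  rw [classInner_eq_sum_irr (isClassFunction_of_isCharacter hA) F, finsum_irr_eq_sum] at h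
  obtain ⟨β, -, hβ⟩ := Finset.exists_ne_zero_of_sum_ne_zero h
  exact ⟨β, left_ne_zero_of_mul hβ, right_ne_zero_of_mul hβ⟩

theorem classInner_mul_left_eq (A B C : G → ℂ) :
    classInner (A * B) C = classInner A (C * fun g => conj (B g)) := by
  unfold classInner
  congr 1
  refine Finset.sum_congr rfl fun g _ => ?_
  simp only [Pi.mul_apply, map_mul, Complex.conj_conj]
  ring

theorem classInner_ne_zero_symm {A B : G → ℂ} (h : classInner A B ≠ 0) : classInner B A ≠ 0 := by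
  intro h0
  apply h
  rw [← classInner_conj_symm, h0, map_zero]

/-- A character whose induced character is irreducible is irreducible. -/
theorem isIrrCharacter_of_indFun_irr (H : Subgroup G) {ϑ : H → ℂ} (hϑ : IsCharacter H ϑ)
    (hind : IsIrrCharacter G (indFun H ϑ)) : IsIrrCharacter H ϑ := by
  classical
  letI : Fintype ↥H := Fintype.ofFinite _
  have hχcf : IsClassFunction G (indFun H ϑ) := indFun_isClassFunction H ϑ
  have h1 := frobenius_reciprocity H ϑ (indFun H ϑ) hχcf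
  rw [irr_inner_self ⟨_, hind⟩] at h1
  have h2 : classInner ϑ (fun h : H => indFun H ϑ h) ≠ 0 := by
    rw [← h1]
    exact one_ne_zero
  obtain ⟨β, hβ1, hβ2⟩ := exists_irr_constituent_inner hϑ _ h2
  have h3 : classInner (indFun H β.1) (indFun H ϑ) ≠ 0 := by
    rw [frobenius_reciprocity H β.1 (indFun H ϑ) hχcf]
    exact hβ2
  have hD := isCharacter_sub_irr (isCharacter_indFun H β.1 (isCharacter_of_isIrrCharacter β.2))
    ⟨_, hind⟩ h3
  have hR := isCharacter_sub_irr hϑ β hβ1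
  obtain ⟨d, hd, -⟩ := Cfsg.Agent.H82.isCharacter_one_nat hD
  obtain ⟨r, hr, hr0⟩ := Cfsg.Agent.H82.isCharacter_one_nat hR
  simp only [Pi.sub_apply] at hd hr
  rw [Cfsg.Agent.H82.indFun_one, Cfsg.Agent.H82.indFun_one] at hd
  have hidx : H.index ≠ 0 := Subgroup.index_ne_zero_of_finite
  have h4 : ((d + H.index * r : ℕ) : ℂ) = 0 := by
    push_cast
    rw [← hd, ← hr]
    ring
  have h5 : d + H.index * r = 0 := by exact_mod_cast h4
  have h6 : r = 0 := by
    rcases Nat.eq_zero_or_pos r with h | h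
    · exact h
    · have : 0 < H.index * r := Nat.mul_pos (Nat.pos_of_ne_zero hidx) h
      omega
  have h7 : ϑ = β.1 := sub_eq_zero.mp (hr0 h6)
  rw [h7]
  exact β.2

/-- Extension of an irreducible character of a normal subgroup `L`, complemented (up to the
intersection) by `D`, inside a character `T` all of whose constituents lie over `θ`. -/
theorem exists_irr_extension (D L : Subgroup G) [hL : L.Normal] [Fintype D] [Fintype L]
    [Fintype ↥(D ⊓ L)] (hsup : D ⊔ L = ⊤) (θ : IrrCharacter L)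
    (hθD : ∑ x : ↥(D ⊓ L), conj (θ.1 ⟨(x : G), x.2.2⟩) = (Nat.card ↥(D ⊓ L) : ℂ))
    {T : G → ℂ} (hT : IsCharacter G T) (b : ℕ) (hTL : ∀ y : L, T y = (b : ℂ) * θ.1 y)
    (hTD : classInner (fun x : D => T x) (1 : D → ℂ) ≠ 0) :
    ∃ E : G → ℂ, IsIrrCharacter G E ∧ (∀ y : L, E y = θ.1 y) ∧ classInner T E ≠ 0 := by
  classical
  have hTcf : IsClassFunction G T := isClassFunction_of_isCharacter hT
  have h1D : IsCharacter D (1 : D → ℂ) :=
    isCharacter_of_isIrrCharacter (Cfsg.Agent.H83.isIrrCharacter_one ↥D)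
  have hπ : IsCharacter G (indFun D (1 : D → ℂ)) := isCharacter_indFun D 1 h1D
  have h1 := frobenius_reciprocity D (1 : D → ℂ) T hTcf
  have h2 : classInner (indFun D (1 : D → ℂ)) T ≠ 0 := by
    rw [h1]
    exact classInner_ne_zero_symm hTD
  obtain ⟨E, hE1, hE2⟩ := exists_irr_constituent_inner hπ T h2
  have hTE : classInner T E.1 ≠ 0 := classInner_ne_zero_symm hE2
  have hEch : IsCharacter G E.1 := isCharacter_of_isIrrCharacter E.2
  have hR := isCharacter_sub_irr hT E hTE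
  have hsumL : (fun y : L => E.1 y) + (fun y : L => (T - E.1) y) = (b : ℂ) • θ.1 := by
    funext y
    simp only [Pi.add_apply, Pi.sub_apply, Pi.smul_apply, smul_eq_mul]
    rw [← hTL y]
    ring
  obtain ⟨c, -, hc⟩ := eq_smul_of_add_eq_smul (isCharacter_restrict L hEch)
    (isCharacter_restrict L hR) θ b hsumL
  have hR2 := isCharacter_sub_irr hπ E hE1
  obtain ⟨n, hn⟩ := classInner_isCharacter_nat (isCharacter_restrict L hR2)
    (isCharacter_of_isIrrCharacter θ.2)
  have h3 : classInner (fun y : L => indFun D (1 : D → ℂ) y) θ.1 = (c : ℂ) + n := by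
    have e1 : (fun y : L => indFun D (1 : D → ℂ) y) =
        (fun y : L => E.1 y) + (fun y : L => (indFun D (1 : D → ℂ) - E.1) y) := by
      funext y
      simp
    rw [e1, classInner_add_left, hn, hc, classInner_smul_left, irr_inner_self, mul_one]
  letI : Fintype ↥((D ⊓ L).subgroupOf L) := Fintype.ofFinite _
  have h4 := ind_res_of_sup D L (D ⊓ L) inf_le_left inf_le_right le_rfl hsup (1 : D → ℂ)
    (isClassFunction_of_isCharacter h1D)
  rw [h4, frobenius_reciprocity _ _ θ.1 (irr_isClassFunction θ)] at h3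
  have h5 : classInner (fun x : (D ⊓ L).subgroupOf L => (1 : D → ℂ)
      ⟨((x : L) : G), (inf_le_left : D ⊓ L ≤ D) x.2⟩)
      (fun h : (D ⊓ L).subgroupOf L => θ.1 h) = 1 := by
    unfold classInner
    have e2 : ∑ x : (D ⊓ L).subgroupOf L, (1 : D → ℂ) ⟨((x : L) : G),
        (inf_le_left : D ⊓ L ≤ D) x.2⟩ * conj (θ.1 (x : L)) =
        ∑ z : ↥(D ⊓ L), conj (θ.1 ⟨(z : G), z.2.2⟩) := by
      rw [← Equiv.sum_comp (Subgroup.subgroupOfEquivOfLe (inf_le_right : D ⊓ L ≤ L)).toEquiv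
        (fun z : ↥(D ⊓ L) => conj (θ.1 ⟨(z : G), z.2.2⟩))]
      refine Finset.sum_congr rfl fun x _ => ?_
      simp only [Pi.one_apply, one_mul]
      rfl
    rw [e2, hθD, Nat.card_congr (Subgroup.subgroupOfEquivOfLe (inf_le_right : D ⊓ L ≤ L)).toEquiv]
    have hne : (Nat.card ↥(D ⊓ L) : ℂ) ≠ 0 := by
      exact_mod_cast (Nat.card_pos (α := ↥(D ⊓ L))).ne'
    exact inv_mul_cancel₀ hne
  rw [h5] at h3
  have h6 : c + n = 1 := by exact_mod_cast h3.symm
  have hc0 : c ≠ 0 := by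
    rintro rfl
    have h7 := congrFun hc 1
    simp only [Nat.cast_zero, zero_smul, Pi.zero_apply] at h7
    exact irr_one_ne_zero' E.2 (by simpa using h7)
  have hc1 : c = 1 := by omega
  refine ⟨E.1, E.2, fun y => ?_, hTE⟩
  have h8 := congrFun hc y
  rw [hc1] at h8
  simpa using h8

/-- Degree count, part 1: a character `Ψ` with `Ψ|A = m μ` such that `Ψ Θ` contains an
irreducible character `χ₁`, trivial on `A`, of degree `m a` (where `Θ|A = a μ̄`) is
irreducible. -/
theorem isIrrCharacter_of_mul_contains (A : Subgroup G) (μ : IrrCharacter A) {χ₁ Θ Ψ : G → ℂ}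
    (hχ₁ : IsIrrCharacter G χ₁) (hχ₁A : ∀ y : A, χ₁ y = χ₁ 1) (hΘ : IsCharacter G Θ) (a : ℕ)
    (hΘA : ∀ y : A, Θ y = (a : ℂ) * conj (μ.1 y)) (hΨ : IsCharacter G Ψ) (m : ℕ)
    (hΨA : ∀ y : A, Ψ y = (m : ℂ) * μ.1 y) (hne : classInner (Ψ * Θ) χ₁ ≠ 0)
    (hdeg : χ₁ 1 = (m : ℂ) * a) : IsIrrCharacter G Ψ := by
  classical
  letI : Fintype ↥A := Fintype.ofFinite _
  have hχ₁1 : χ₁ 1 ≠ 0 := irr_one_ne_zero' hχ₁
  have ha0 : a ≠ 0 := by
    rintro rfl
    rw [Nat.cast_zero, mul_zero] at hdeg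
    exact hχ₁1 hdeg
  rw [classInner_mul_left_eq] at hne
  obtain ⟨Λ, hΛ1, hΛ2⟩ := exists_irr_constituent_inner hΨ _ hne
  rw [← classInner_mul_left_eq] at hΛ2
  have hΛch : IsCharacter G Λ.1 := isCharacter_of_isIrrCharacter Λ.2
  have hR := isCharacter_sub_irr hΨ Λ hΛ1
  have hsumA : (fun y : A => Λ.1 y) + (fun y : A => (Ψ - Λ.1) y) = (m : ℂ) • μ.1 := by
    funext y
    simp only [Pi.add_apply, Pi.sub_apply, Pi.smul_apply, smul_eq_mul]
    rw [← hΨA y]
    ring
  obtain ⟨c, hcm, hc⟩ := eq_smul_of_add_eq_smul (isCharacter_restrict A hΛch)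
    (isCharacter_restrict A hR) μ m hsumA
  have hB := isCharacter_sub_irr (isCharacter_mul hΛch hΘ) ⟨χ₁, hχ₁⟩ hΛ2
  have h1A : IsIrrCharacter A (1 : A → ℂ) := Cfsg.Agent.H83.isIrrCharacter_one ↥A
  obtain ⟨n, hn⟩ := classInner_isCharacter_nat (isCharacter_restrict A hB)
    (isCharacter_of_isIrrCharacter h1A)
  have key : ∀ y : A, Λ.1 y * Θ y = (c : ℂ) * a * (μ.1 y * conj (μ.1 y)) := by
    intro y
    have h1 := congrFun hc y
    simp only [Pi.smul_apply, smul_eq_mul] at h1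
    rw [hΘA y, h1]
    ring
  have e1 : classInner (fun y : A => Λ.1 y * Θ y) (1 : A → ℂ) = (c : ℂ) * a := by
    have e2 : classInner (fun y : A => Λ.1 y * Θ y) (1 : A → ℂ) =
        (c : ℂ) * a * classInner μ.1 μ.1 := by
      unfold classInner
      have e3 : ∀ y : A, (Λ.1 y * Θ y) * conj ((1 : A → ℂ) y) =
          (c : ℂ) * a * (μ.1 y * conj (μ.1 y)) := by
        intro y
        rw [key y, Pi.one_apply, map_one, mul_one]
      simp_rw [e3]
      rw [← Finset.mul_sum]
      ring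
    rw [e2, irr_inner_self, mul_one]
  have e4 : classInner (fun y : A => Λ.1 y * Θ y) (1 : A → ℂ) = χ₁ 1 + n := by
    have e5 : (fun y : A => Λ.1 y * Θ y) =
        (χ₁ 1) • (1 : A → ℂ) + (fun y : A => (Λ.1 * Θ - χ₁) y) := by
      funext y
      simp only [Pi.add_apply, Pi.smul_apply, Pi.one_apply, smul_eq_mul, mul_one, Pi.sub_apply,
        Pi.mul_apply]
      rw [hχ₁A y]
      ring
    rw [e5, classInner_add_left, classInner_smul_left, irr_inner_self ⟨_, h1A⟩, mul_one, hn]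
  rw [e1, hdeg] at e4
  have e6 : c * a = m * a + n := by exact_mod_cast e4
  have hmc : m ≤ c := by
    have h7 : m * a ≤ c * a := by omega
    exact Nat.le_of_mul_le_mul_right h7 (Nat.pos_of_ne_zero ha0)
  have hcm' : c = m := le_antisymm hcm hmc
  obtain ⟨r, hr, hr0⟩ := Cfsg.Agent.H82.isCharacter_one_nat hR
  have hr' : r = 0 := by
    have h8 : (Ψ - Λ.1) 1 = 0 := by
      have h9 := hΨA 1
      have h10 := congrFun hc 1
      simp only [Pi.smul_apply, smul_eq_mul, Subgroup.coe_one] at h9 h10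
      rw [Pi.sub_apply, h9, h10, hcm']
      ring
    rw [hr] at h8
    exact_mod_cast h8
  have hΨΛ : Ψ = Λ.1 := sub_eq_zero.mp (hr0 hr')
  rw [hΨΛ]
  exact Λ.2

/-- Degree count, part 2: in the situation of `isIrrCharacter_of_mul_contains`, if `Ψ` is
induced from a subgroup `I ≥ A` then so is `χ₁`. -/
theorem exists_indFun_eq_of_mul_contains (A : Subgroup G) (μ : IrrCharacter A) {χ₁ Θ : G → ℂ}
    (hχ₁ : IsIrrCharacter G χ₁) (hχ₁A : ∀ y : A, χ₁ y = χ₁ 1) (hΘ : IsCharacter G Θ) (a : ℕ)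
    (hΘA : ∀ y : A, Θ y = (a : ℂ) * conj (μ.1 y)) (m : ℕ)
    (I : Subgroup G) (hAI : A ≤ I) (Λ₀ : I → ℂ) (hΛ₀ : IsIrrCharacter I Λ₀)
    (hΨirr : IsIrrCharacter G (indFun I Λ₀))
    (hΨA : ∀ y : A, indFun I Λ₀ y = (m : ℂ) * μ.1 y)
    (hne : classInner (indFun I Λ₀ * Θ) χ₁ ≠ 0)
    (hdeg : χ₁ 1 = (m : ℂ) * a) :
    ∃ ζ₀ : I → ℂ, IsIrrCharacter I ζ₀ ∧ indFun I ζ₀ = χ₁ := by
  classical
  letI : Fintype ↥A := Fintype.ofFinite _
  letI : Fintype ↥I := Fintype.ofFinite _
  have hχ₁ch : IsCharacter G χ₁ := isCharacter_of_isIrrCharacter hχ₁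
  have hχ₁cf : IsClassFunction G χ₁ := isClassFunction_of_isCharacter hχ₁ch
  have hΘcf : IsClassFunction G Θ := isClassFunction_of_isCharacter hΘ
  have hΛ₀ch : IsCharacter I Λ₀ := isCharacter_of_isIrrCharacter hΛ₀
  have hχ₁1 : χ₁ 1 ≠ 0 := irr_one_ne_zero' hχ₁
  have hidx : I.index ≠ 0 := Subgroup.index_ne_zero_of_finite
  have h1A : IsIrrCharacter A (1 : A → ℂ) := Cfsg.Agent.H83.isIrrCharacter_one ↥A
  have hμ1 : μ.1 1 ≠ 0 := irr_one_ne_zero' μ.2
  -- the character `T = Λ₀ Θ|I`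
  have hTch : IsCharacter I (Λ₀ * fun x : I => Θ x) :=
    isCharacter_mul hΛ₀ch (isCharacter_restrict I hΘ)
  have h1 : classInner (Λ₀ * fun x : I => Θ x) (fun x : I => χ₁ x) ≠ 0 := by
    rw [← frobenius_reciprocity I _ χ₁ hχ₁cf, indFun_mul_res I Λ₀ hΘcf]
    exact hne
  obtain ⟨ζ, hζ1, hζ2⟩ := exists_irr_constituent_inner hTch _ h1
  have hζch : IsCharacter I ζ.1 := isCharacter_of_isIrrCharacter ζ.2
  -- (α)
  have h2 : classInner (indFun I ζ.1) χ₁ ≠ 0 := by
    rw [frobenius_reciprocity I ζ.1 χ₁ hχ₁cf]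
    exact hζ2
  have hD := isCharacter_sub_irr (isCharacter_indFun I ζ.1 hζch) ⟨χ₁, hχ₁⟩ h2
  obtain ⟨d, hd, hd0⟩ := Cfsg.Agent.H82.isCharacter_one_nat hD
  rw [Pi.sub_apply, Cfsg.Agent.H82.indFun_one] at hd
  change (I.index : ℂ) * ζ.1 1 - χ₁ 1 = d at hd
  -- (β) ζ is trivial on A
  have hB' := isCharacter_sub_irr (isCharacter_restrict I hχ₁ch) ζ (classInner_ne_zero_symm hζ2)
  obtain ⟨n₁, hn₁, -⟩ := Cfsg.Agent.H82.isCharacter_one_nat hχ₁ch
  have hsum1 : (fun y : A => ζ.1 ⟨(y : G), hAI y.2⟩) +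
      (fun y : A => ((fun x : I => χ₁ x) - ζ.1) ⟨(y : G), hAI y.2⟩) = (n₁ : ℂ) • (1 : A → ℂ) := by
    funext y
    simp only [Pi.add_apply, Pi.sub_apply, Pi.smul_apply, Pi.one_apply, smul_eq_mul, mul_one]
    rw [hχ₁A y, hn₁]
    ring
  obtain ⟨z, -, hz⟩ := eq_smul_of_add_eq_smul (ψ := ⟨_, h1A⟩)
    (isCharacter_comp (Subgroup.inclusion hAI) hζch)
    (isCharacter_comp (Subgroup.inclusion hAI) hB') n₁ hsum1
  have hz' : ∀ y : A, ζ.1 ⟨(y : G), hAI y.2⟩ = (z : ℂ) := by
    intro y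
    have := congrFun hz y
    simp only [Pi.smul_apply, Pi.one_apply, smul_eq_mul, mul_one] at this
    exact this
  have hζone : ζ.1 1 = (z : ℂ) := hz' 1
  -- (γ)
  have hR₀ : IsCharacter I ((fun x : I => indFun I Λ₀ x) - Λ₀) := by
    apply isCharacter_sub_irr (isCharacter_restrict I (isCharacter_of_isIrrCharacter hΨirr))
      ⟨Λ₀, hΛ₀⟩
    apply classInner_ne_zero_symm
    rw [← frobenius_reciprocity I Λ₀ (indFun I Λ₀) (indFun_isClassFunction I Λ₀),
      irr_inner_self ⟨_, hΨirr⟩]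
    exact one_ne_zero
  have hsum2 : (fun y : A => Λ₀ ⟨(y : G), hAI y.2⟩) +
      (fun y : A => ((fun x : I => indFun I Λ₀ x) - Λ₀) ⟨(y : G), hAI y.2⟩) =
      (m : ℂ) • μ.1 := by
    funext y
    simp only [Pi.add_apply, Pi.sub_apply, Pi.smul_apply, smul_eq_mul]
    rw [← hΨA y]
    ring
  obtain ⟨c', -, hc'⟩ := eq_smul_of_add_eq_smul (ψ := μ)
    (isCharacter_comp (Subgroup.inclusion hAI) hΛ₀ch)
    (isCharacter_comp (Subgroup.inclusion hAI) hR₀) m hsum2
  have hc'' : ∀ y : A, Λ₀ ⟨(y : G), hAI y.2⟩ = (c' : ℂ) * μ.1 y := by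
    intro y
    have := congrFun hc' y
    simp only [Pi.smul_apply, smul_eq_mul] at this
    exact this
  have hmc : I.index * c' = m := by
    have e1 := hΨA 1
    rw [Subgroup.coe_one, Cfsg.Agent.H82.indFun_one] at e1
    have e2 := hc'' 1
    have e3 : Λ₀ 1 = (c' : ℂ) * μ.1 1 := e2
    rw [e3] at e1
    have e4 : ((I.index * c' : ℕ) : ℂ) * μ.1 1 = (m : ℂ) * μ.1 1 := by
      push_cast
      rw [← e1]
      ring
    exact_mod_cast mul_right_cancel₀ hμ1 e4
  have hB'' := isCharacter_sub_irr hTch ζ hζ1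
  obtain ⟨n₂, hn₂⟩ := classInner_isCharacter_nat
    (isCharacter_comp (Subgroup.inclusion hAI) hB'') (isCharacter_of_isIrrCharacter h1A)
  have e5 : classInner (fun y : A => Λ₀ ⟨(y : G), hAI y.2⟩ * Θ y) (1 : A → ℂ) = (c' : ℂ) * a := by
    have e6 : classInner (fun y : A => Λ₀ ⟨(y : G), hAI y.2⟩ * Θ y) (1 : A → ℂ) =
        (c' : ℂ) * a * classInner μ.1 μ.1 := by
      unfold classInner
      have e7 : ∀ y : A, (Λ₀ ⟨(y : G), hAI y.2⟩ * Θ y) * conj ((1 : A → ℂ) y) =
          (c' : ℂ) * a * (μ.1 y * conj (μ.1 y)) := by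
        intro y
        rw [hc'' y, hΘA y, Pi.one_apply, map_one, mul_one]
        ring
      simp_rw [e7]
      rw [← Finset.mul_sum]
      ring
    rw [e6, irr_inner_self, mul_one]
  have e8 : classInner (fun y : A => Λ₀ ⟨(y : G), hAI y.2⟩ * Θ y) (1 : A → ℂ) = (z : ℂ) + n₂ := by
    have e9 : (fun y : A => Λ₀ ⟨(y : G), hAI y.2⟩ * Θ y) = (z : ℂ) • (1 : A → ℂ) +
        (fun y : A => ((Λ₀ * fun x : I => Θ x) - ζ.1) (Subgroup.inclusion hAI y)) := by
      funext y
      simp only [Pi.add_apply, Pi.smul_apply, Pi.one_apply, smul_eq_mul, mul_one, Pi.sub_apply,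
        Pi.mul_apply]
      have e10 : ζ.1 (Subgroup.inclusion hAI y) = (z : ℂ) := hz' y
      rw [e10]
      have e11 : Λ₀ (Subgroup.inclusion hAI y) = Λ₀ ⟨(y : G), hAI y.2⟩ := rfl
      have e12 : Θ ((Subgroup.inclusion hAI y : I) : G) = Θ y := rfl
      rw [e11, e12]
      ring
    rw [e9, classInner_add_left, classInner_smul_left, irr_inner_self ⟨_, h1A⟩, mul_one, hn₂]
  rw [e5] at e8
  have e13 : c' * a = z + n₂ := by exact_mod_cast e8
  -- (δ)
  rw [hζone, hn₁] at hd
  have e14 : I.index * z = n₁ + d := by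
    have : ((I.index * z : ℕ) : ℂ) = ((n₁ + d : ℕ) : ℂ) := by
      push_cast
      rw [← hd]
      ring
    exact_mod_cast this
  have e15 : n₁ = m * a := by
    rw [hn₁] at hdeg
    exact_mod_cast hdeg
  have e16 : I.index * z ≤ m * a := by
    calc I.index * z ≤ I.index * (c' * a) := Nat.mul_le_mul_left _ (by omega)
      _ = (I.index * c') * a := by ring
      _ = m * a := by rw [hmc]
  have hd' : d = 0 := by omega
  exact ⟨ζ.1, ζ.2, sub_eq_zero.mp (hd0 hd')⟩

end Abstract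

end Cfsg.Agent.Lib.Helper96
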