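import Mathlib
import Cfsg.Agent.H45.UDefs
import Cfsg.Agent.H17.SUGen
import Cfsg.Agent.H45.Singer
import Cfsg.Agent.Lib.Helper30.PsuF1

set_option autoImplicit false
set_option linter.unusedSectionVars false
set_option linter.style.haveILetI false

/-! Piece S2412-FC (helper96): the finite-field data for the Siegel case `n = 4` of the
two-generation of the unitary groups. -/

namespace Cfsg.Agent.Lib.Helper96.Psu

open Matrix Polynomial Cfsg.Agent.H45.U

/-- Arithmetic core: `ζ ^ ((q+1)^2)` lies in no proper subfield of the field with `q ^ 4`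
elements. -/
theorem fc_nt (q s m : ℕ) (hq : 2 ≤ q) (hm : 2 ≤ m) (hs : s ^ m = q ^ 4)
    (hd : q ^ 4 - 1 ∣ (q + 1) ^ 2 * (s - 1)) : False := by
  have hq4 : 16 ≤ q ^ 4 := by
    calc 16 = 2 ^ 4 := by norm_num
      _ ≤ q ^ 4 := Nat.pow_le_pow_left hq 4
  have hs2 : 2 ≤ s := by
    by_contra hlt
    have h01 : s = 0 ∨ s = 1 := by omega
    rcases h01 with rfl | rfl
    · rw [zero_pow (by omega)] at hs; omega
    · rw [one_pow] at hs; omega
  have hsq : s ≤ q ^ 2 := by
    by_contra hlt
    push Not at hlt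
    have h1 : (q ^ 2) ^ 2 < s ^ 2 := Nat.pow_lt_pow_left hlt (by norm_num)
    have h2 : s ^ 2 ≤ s ^ m := Nat.pow_le_pow_right (by omega) hm
    have h3 : (q ^ 2) ^ 2 = q ^ 4 := by ring
    omega
  obtain ⟨k, hk⟩ := hd
  have hkz : ((q : ℤ) + 1) ^ 2 * ((s : ℤ) - 1) = ((q : ℤ) ^ 4 - 1) * k := by
    have h := congrArg (Nat.cast : ℕ → ℤ) hk
    push_cast [Nat.cast_sub (by omega : 1 ≤ s), Nat.cast_sub (by omega : 1 ≤ q ^ 4)] at h
    exact h
  have hq1 : (q : ℤ) + 1 ≠ 0 := by positivity
  have h2 : ((q : ℤ) + 1) * ((s : ℤ) - 1) = ((q : ℤ) - 1) * ((q : ℤ) ^ 2 + 1) * k := by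
    apply mul_left_cancel₀ hq1
    linear_combination hkz
  obtain ⟨j, hj⟩ : ∃ j : ℤ, j = ((s : ℤ) - 1) - ((q : ℤ) - 1) ^ 2 * k := ⟨_, rfl⟩
  have h3 : 2 * ((s : ℤ) - 1) = ((q : ℤ) ^ 2 + 1) * j := by
    rw [hj]
    linear_combination (1 - (q : ℤ)) * h2
  have hsz : (2 : ℤ) ≤ s := by exact_mod_cast hs2
  have hsqz : (s : ℤ) ≤ (q : ℤ) ^ 2 := by exact_mod_cast hsq
  have hj1 : 0 < j := by
    by_contra hneg
    push Not at hneg
    nlinarith [sq_nonneg (q : ℤ)]
  have hj2 : j < 2 := by
    by_contra hneg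
    push Not at hneg
    nlinarith [sq_nonneg (q : ℤ)]
  have hj' : j = 1 := by omega
  rw [hj', mul_one] at h3
  have h4 : 2 * s = q ^ 2 + 3 := by
    have : (2 : ℤ) * s = (q : ℤ) ^ 2 + 3 := by linarith
    exact_mod_cast this
  rcases Nat.even_or_odd' q with ⟨t, rfl | rfl⟩
  · have : (2 * t) ^ 2 = 4 * (t * t) := by ring
    omega
  · have h5 : (2 * t + 1) ^ 2 = 4 * (t * t + t) + 1 := by ring
    have h6 : 2 ∣ s := ⟨t * t + t + 1, by omega⟩
    have h7 : 2 ∣ (2 * t + 1) ^ 4 := by rw [← hs]; exact dvd_pow h6 (by omega)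
    have h8 := Nat.Prime.dvd_of_dvd_pow Nat.prime_two h7
    omega

/-- An additive subgroup stable under multiplication by `ρ` is everything as soon as it is
nonzero, when the powers of `ρ` span additively. -/
theorem fc_as {E : Type*} [Field E] (ρ : E)
    (hcl : AddSubmonoid.closure (Set.range (fun i : ℕ => ρ ^ i)) = ⊤)
    (Y : AddSubgroup E) (hY : ∀ c ∈ Y, c * ρ ∈ Y) (c₁ : E) (hc₁ : c₁ ∈ Y) (h0 : c₁ ≠ 0)
    (c : E) : c ∈ Y := by
  have h1 : ∀ i : ℕ, c₁ * ρ ^ i ∈ Y := by
    intro i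
    induction i with
    | zero => simpa using hc₁
    | succ i ih => rw [pow_succ, ← mul_assoc]; exact hY _ ih
  have h2 : ∀ z ∈ AddSubmonoid.closure (Set.range (fun i : ℕ => ρ ^ i)), c₁ * z ∈ Y := by
    intro z hz
    induction hz using AddSubmonoid.closure_induction with
    | mem z hz => obtain ⟨i, rfl⟩ := hz; exact h1 i
    | zero => rw [mul_zero]; exact Y.zero_mem
    | add z w _ _ hz hw => rw [mul_add]; exact Y.add_mem hz hw
  have h3 := h2 (c / c₁) (by rw [hcl]; trivial)
  rwa [mul_div_cancel₀ _ h0] at h3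

/-- The roots of `X ^ q + X`. -/
theorem fc_card_T {F : Type*} [Field F] [Fintype F] [DecidableEq F] (q : ℕ) (hq : 2 ≤ q) :
    (Finset.univ.filter (fun a : F => a ^ q = -a)).card ≤ q := by
  have hdeg : (X ^ q + X : F[X]).natDegree = q := by
    rw [natDegree_add_eq_left_of_natDegree_lt]
    · exact natDegree_X_pow q
    · rw [natDegree_X_pow, natDegree_X]; omega
  have hp : (X ^ q + X : F[X]) ≠ 0 := by
    intro h
    rw [h, natDegree_zero] at hdeg
    omega
  calc (Finset.univ.filter (fun a : F => a ^ q = -a)).card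
      ≤ (X ^ q + X : F[X]).roots.toFinset.card := by
        apply Finset.card_le_card
        intro a ha
        rw [Finset.mem_filter] at ha
        rw [Multiset.mem_toFinset, mem_roots hp, IsRoot.def, eval_add, eval_pow, eval_X, ha.2]
        ring
    _ ≤ Multiset.card (X ^ q + X : F[X]).roots := Multiset.toFinset_card_le _
    _ ≤ (X ^ q + X : F[X]).natDegree := card_roots' _
    _ = q := hdeg

section General

variable {F : Type*} [Field F] [Fintype F] {q : ℕ} (hF : Fintype.card F = q ^ 2)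
variable {E : Type*} [Field E] [Algebra F E]

include hF in
theorem fc_add (x y : E) : (x + y) ^ q = x ^ q + y ^ q := by
  obtain ⟨p, k, hprime, hp, hk⟩ := H17.exists_char_pow hF
  haveI : Fact p.Prime := ⟨hprime⟩
  haveI : CharP F p := hp
  haveI : CharP E p := charP_of_injective_algebraMap (algebraMap F E).injective p
  rw [hk]
  exact add_pow_char_pow x y p k

/-- The Frobenius `x ↦ x ^ q` of `E`. -/
def fcFrob : E →+* E where
  toFun a := a ^ q
  map_one' := one_pow q
  map_mul' a b := mul_pow a b q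
  map_zero' := zero_pow (by have := H17.two_le_of_card_sq hF; omega)
  map_add' a b := fc_add hF a b

theorem fcFrob_apply (a : E) : (fcFrob hF : E →+* E) a = a ^ q := rfl

variable (q) in
/-- Gram matrix of the form `(x, y) ↦ Tr(c x y^q)`. -/
noncomputable def fcM (b : Module.Basis (Fin 2) F E) (c : E) : Matrix (Fin 2) (Fin 2) F :=
  Matrix.of fun i j => Algebra.trace F E (c * b i * b j ^ q)

variable (b : Module.Basis (Fin 2) F E)

theorem fcM_apply (c : E) (i j : Fin 2) :
    fcM q b c i j = Algebra.trace F E (c * b i * b j ^ q) := rfl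

theorem fcM_add (c c' : E) : fcM q b (c + c') = fcM q b c + fcM q b c' := by
  ext i j
  simp only [fcM_apply, Matrix.add_apply, add_mul, map_add]

theorem fcM_sub (c c' : E) : fcM q b (c - c') = fcM q b c - fcM q b c' := by
  ext i j
  simp only [fcM_apply, Matrix.sub_apply, sub_mul, map_sub]

theorem fc_sumL (x : E) (i : Fin 2) : ∑ k, Algebra.leftMulMatrix b x k i • b k = x * b i := by
  simp_rw [Algebra.leftMulMatrix_eq_repr_mul]
  exact b.sum_repr (x * b i)

theorem fcM_L_mul (c x : E) : (Algebra.leftMulMatrix b x)ᵀ * fcM q b c = fcM q b (c * x) := by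
  ext i j
  rw [Matrix.mul_apply]
  simp only [Matrix.transpose_apply, fcM_apply]
  have h1 : ∀ k, Algebra.leftMulMatrix b x k i * Algebra.trace F E (c * b k * b j ^ q) =
      Algebra.trace F E (Algebra.leftMulMatrix b x k i • (c * b k * b j ^ q)) := fun k => by
    rw [map_smul, smul_eq_mul]
  rw [Finset.sum_congr rfl (fun k _ => h1 k), ← map_sum]
  congr 1
  calc ∑ k, Algebra.leftMulMatrix b x k i • (c * b k * b j ^ q)
      = c * (∑ k, Algebra.leftMulMatrix b x k i • b k) * b j ^ q := by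
        rw [Finset.mul_sum, Finset.sum_mul]
        refine Finset.sum_congr rfl fun k _ => ?_
        rw [mul_smul_comm, smul_mul_assoc]
    _ = c * x * b i * b j ^ q := by rw [fc_sumL]; ring

include hF in
theorem fcM_mul_L (c y : E) :
    fcM q b c * (Algebra.leftMulMatrix b y).map (H17.frobHom hF) = fcM q b (c * y ^ q) := by
  ext i j
  rw [Matrix.mul_apply]
  simp only [Matrix.map_apply, fcM_apply, H17.frobHom_apply]
  have h1 : ∀ l, Algebra.trace F E (c * b i * b l ^ q) * (Algebra.leftMulMatrix b y l j) ^ q =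
      Algebra.trace F E ((Algebra.leftMulMatrix b y l j) ^ q • (c * b i * b l ^ q)) := fun l => by
    rw [map_smul, smul_eq_mul, mul_comm]
  rw [Finset.sum_congr rfl (fun l _ => h1 l), ← map_sum]
  congr 1
  have h2 : ∑ l, (Algebra.leftMulMatrix b y l j) ^ q • (b l) ^ q = (y * b j) ^ q := by
    rw [← fc_sumL b y j]
    have h := map_sum (fcFrob hF : E →+* E) (fun l => Algebra.leftMulMatrix b y l j • b l)
      Finset.univ
    simp only [fcFrob_apply] at h
    rw [h]
    refine Finset.sum_congr rfl fun l _ => ?_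
    rw [_root_.smul_pow]
  calc ∑ l, (Algebra.leftMulMatrix b y l j) ^ q • (c * b i * b l ^ q)
      = c * b i * ∑ l, (Algebra.leftMulMatrix b y l j) ^ q • (b l) ^ q := by
        rw [Finset.mul_sum]
        refine Finset.sum_congr rfl fun l _ => ?_
        rw [mul_smul_comm]
    _ = c * y ^ q * b i * b j ^ q := by rw [h2, mul_pow]; ring

theorem fc_tr_zero [FiniteDimensional F E] [Algebra.IsSeparable F E] (w : E)
    (h : ∀ i, Algebra.trace F E (b i * w) = 0) : w = 0 := by
  apply (traceForm_nondegenerate F E).1 w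
  intro x
  rw [Algebra.traceForm_apply, ← b.sum_repr x, Finset.mul_sum, map_sum]
  refine Finset.sum_eq_zero fun i _ => ?_
  rw [mul_smul_comm, map_smul, mul_comm, h, smul_zero]

include hF in
theorem fc_det_ne [FiniteDimensional F E] [Algebra.IsSeparable F E] : (fcM q b 1).det ≠ 0 := by
  have hq := H17.two_le_of_card_sq hF
  intro h
  obtain ⟨v, hv, hv0⟩ := Matrix.exists_mulVec_eq_zero_iff.mpr h
  apply hv
  have hw : ∑ j, v j • (b j) ^ q = 0 := by
    apply fc_tr_zero b
    intro i
    have h1 := congrFun hv0 i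
    rw [Matrix.mulVec, dotProduct] at h1
    simp only [fcM_apply, one_mul, Pi.zero_apply] at h1
    rw [Finset.mul_sum, map_sum, ← h1]
    refine Finset.sum_congr rfl fun j _ => ?_
    rw [mul_smul_comm, map_smul, smul_eq_mul, mul_comm]
  have hw2 : (∑ j, (v j) ^ q • b j) ^ q = 0 := by
    have h := map_sum (fcFrob hF : E →+* E) (fun j => (v j) ^ q • b j) Finset.univ
    simp only [fcFrob_apply] at h
    rw [h, ← hw]
    refine Finset.sum_congr rfl fun j _ => ?_
    rw [_root_.smul_pow, H17.frob_frob hF]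
  have hw3 : ∑ j, (v j) ^ q • b j = 0 := by
    rcases pow_eq_zero_iff (n := q) (by omega) |>.mp hw2 with h
    exact h
  funext j
  have := Fintype.linearIndependent_iff.mp b.linearIndependent (fun j => (v j) ^ q) hw3 j
  exact pow_eq_zero_iff (n := q) (by omega) |>.mp this

include hF in
theorem fc_aux (E : Type*) [Field E] [Algebra F E] [Fintype E] (hE : Module.finrank F E = 2) :
    ∃ A A' G G' S₀ : Matrix (Fin 2) (Fin 2) F, A * A' = 1 ∧ A' * A = 1 ∧ G * G' = 1 ∧
      G' * G = 1 ∧
      G * A = ct (H17.frobHom hF) (A ^ q) * G ∧ A.det ^ q = A.det ∧ G.det ^ q = G.det ∧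
      S₀ + ct (H17.frobHom hF) S₀ = 0 ∧
      (∀ X : AddSubgroup (Matrix (Fin 2) (Fin 2) F),
        (∀ S ∈ X, A * S * ct (H17.frobHom hF) A ∈ X) →
        A ^ q * S₀ * ct (H17.frobHom hF) (A ^ q) - S₀ ∈ X →
        ∀ S, S + ct (H17.frobHom hF) S = 0 → S ∈ X) := by
  classical
  have hq := H17.two_le_of_card_sq hF
  haveI : Module.Finite F E := Module.finite_of_finrank_pos (by rw [hE]; norm_num)
  obtain ⟨b⟩ : Nonempty (Module.Basis (Fin 2) F E) := ⟨Module.finBasisOfFinrankEq F E hE⟩
  have hσσ : ∀ a, H17.frobHom hF (H17.frobHom hF a) = a := H17.frobHom_invol hF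
  have hcardE : Fintype.card E = q ^ 4 := by
    rw [Module.card_eq_pow_finrank (K := F) (V := E), hE, hF]; ring
  obtain ⟨ζ, hζ⟩ := IsCyclic.exists_generator (α := Eˣ)
  have hordζ : orderOf (ζ : E) = q ^ 4 - 1 := by
    rw [orderOf_units, orderOf_eq_card_of_forall_mem_zpowers hζ, Nat.card_eq_fintype_card,
      Fintype.card_units, hcardE]
  set σ := H17.frobHom hF with hσ
  set L := Algebra.leftMulMatrix b with hL
  set α : E := (ζ : E) ^ (q + 1) with hα
  have hα0 : α ≠ 0 := pow_ne_zero _ ζ.ne_zero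
  set Γs := ct σ (fcM q b 1) with hΓs
  have hΓdet : (fcM q b 1).det ≠ 0 := fc_det_ne hF b
  have hΓsdet : IsUnit Γs.det := by
    rw [hΓs, det_ct]
    exact isUnit_iff_ne_zero.mpr ((map_ne_zero σ).mpr hΓdet)
  obtain ⟨x, hx⟩ := FiniteField.norm_surjective F E Γs.det
  have hx0 : x ≠ 0 := by
    rintro rfl
    rw [Algebra.norm_zero] at hx
    exact hΓsdet.ne_zero hx.symm
  have hLT : ∀ y z : E, (L y)ᵀ * (L z)ᵀ = (L (y * z))ᵀ := by
    intro y z
    rw [← Matrix.transpose_mul, ← map_mul, mul_comm]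
  have hLone : (L 1)ᵀ = 1 := by rw [map_one, Matrix.transpose_one]
  have hI1 : ∀ y : E, (L (y ^ q))ᵀ * fcM q b 1 = fcM q b 1 * (L y).map σ := by
    intro y
    rw [hL, fcM_L_mul, hσ, fcM_mul_L hF]
  have hctT : ∀ M : Matrix (Fin 2) (Fin 2) F, ct σ Mᵀ = M.map σ := fun M => rfl
  have hctmap : ∀ M : Matrix (Fin 2) (Fin 2) F, ct σ (M.map σ) = Mᵀ := by
    intro M
    ext i j
    simp only [ct_apply, Matrix.map_apply, Matrix.transpose_apply]
    exact hσσ _
  have hI2 : ∀ y : E, Γs * (L (y ^ q)).map σ = (L y)ᵀ * Γs := by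
    intro y
    have h := congrArg (ct σ) (hI1 y)
    rw [ct_mul, ct_mul, hctT, hctmap] at h
    exact h
  have hI3 : ∀ y : E, Γs⁻¹ * (L y)ᵀ = (L (y ^ q)).map σ * Γs⁻¹ := by
    intro y
    calc Γs⁻¹ * (L y)ᵀ = Γs⁻¹ * ((L y)ᵀ * Γs) * Γs⁻¹ := by
          rw [Matrix.mul_assoc, Matrix.mul_assoc, Matrix.mul_nonsing_inv _ hΓsdet, Matrix.mul_one]
      _ = Γs⁻¹ * (Γs * (L (y ^ q)).map σ) * Γs⁻¹ := by rw [hI2]
      _ = (L (y ^ q)).map σ * Γs⁻¹ := by
          rw [← Matrix.mul_assoc, Matrix.nonsing_inv_mul _ hΓsdet, Matrix.one_mul]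
  -- the parametrisation of the skew-Hermitian matrices
  obtain ⟨θ, hθ⟩ : ∃ θ : E → Matrix (Fin 2) (Fin 2) F,
      θ = fun c => fcM q b c - ct σ (fcM q b c) := ⟨_, rfl⟩
  have hθadd : ∀ c c', θ (c + c') = θ c + θ c' := by
    intro c c'
    simp only [hθ, fcM_add, ct_add]
    abel
  have hθsub : ∀ c c', θ (c - c') = θ c - θ c' := by
    intro c c'
    simp only [hθ, fcM_sub, ct_sub]
    abel
  have hθskew : ∀ c, θ c + ct σ (θ c) = 0 := by
    intro c
    simp only [hθ, ct_sub, ct_ct σ hσσ]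
    abel
  have hθeq : ∀ y c : E, (L y)ᵀ * θ c * ct σ ((L y)ᵀ) = θ (c * (y * y ^ q)) := by
    intro y c
    have h1 : (L y)ᵀ * fcM q b c * (L y).map σ = fcM q b (c * (y * y ^ q)) := by
      rw [hL, fcM_L_mul, hσ, fcM_mul_L hF, mul_assoc]
    have h2 : (L y)ᵀ * ct σ (fcM q b c) * (L y).map σ = ct σ (fcM q b (c * (y * y ^ q))) := by
      rw [← h1, ct_mul, ct_mul, hctmap, hctT, Matrix.mul_assoc]
    rw [hctT]
    simp only [hθ]
    rw [Matrix.mul_sub, Matrix.sub_mul, h1, h2]
  -- the multiplier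
  set ρ : E := α * α ^ q with hρ
  have hρ0 : ρ ≠ 0 := mul_ne_zero hα0 (pow_ne_zero _ hα0)
  have hρζ : ρ = (ζ : E) ^ ((q + 1) ^ 2) := by
    rw [hρ, hα, ← pow_mul, ← pow_add]
    congr 1
    ring
  have hcl : AddSubmonoid.closure (Set.range (fun i : ℕ => ρ ^ i)) = ⊤ := by
    apply Cfsg.Agent.Lib.Helper30.Psu.add_closure_pow_top ρ hρ0
    intro s m hm hs hdvd
    rw [hcardE] at hs
    have h1 : ρ ^ (s - 1) = 1 := orderOf_dvd_iff_pow_eq_one.mp hdvd
    rw [hρζ, ← pow_mul] at h1
    have h2 := orderOf_dvd_of_pow_eq_one h1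
    rw [hordζ] at h2
    exact fc_nt q s m hq hm hs h2
  have hρq : ρ ^ q - 1 ≠ 0 := by
    intro h
    have h1 : ρ ^ q = 1 := sub_eq_zero.mp h
    have h2 : ρ = 1 := by
      have h3 := FiniteField.pow_card ρ
      rw [hcardE, show q ^ 4 = q * q ^ 3 by ring, pow_mul, h1, one_pow] at h3
      exact h3.symm
    rw [hρζ] at h2
    have h4 := orderOf_dvd_of_pow_eq_one h2
    rw [hordζ] at h4
    exact fc_nt q (q ^ 2) 2 hq le_rfl (by ring) (Dvd.dvd.mul_right h4 _)
  -- θ is nonzero somewhere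
  have hex : ∃ c₀, θ c₀ ≠ 0 := by
    by_contra hall
    push Not at hall
    have hb0 : b 0 ≠ 0 := b.ne_zero 0
    have hu : b 0 * b 0 ^ q ≠ 0 := mul_ne_zero hb0 (pow_ne_zero _ hb0)
    obtain ⟨c', hc'⟩ : ∃ c', Algebra.trace F E (c' * (b 0 * b 0 ^ q)) ≠ 0 := by
      by_contra h
      push Not at h
      exact hu ((traceForm_nondegenerate F E).1 _ (fun y => by
        rw [Algebra.traceForm_apply, mul_comm]; exact h y))
    obtain ⟨μ, hμ⟩ : ∃ μ : F, μ ^ q ≠ μ := by
      by_contra h
      push Not at h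
      exact H17.frobHom_ne_id hF (RingHom.ext h)
    have h00 := congrFun (congrFun (hall (algebraMap F E
      (μ / Algebra.trace F E (c' * (b 0 * b 0 ^ q))) * c')) 0) 0
    have hval : Algebra.trace F E (algebraMap F E
        (μ / Algebra.trace F E (c' * (b 0 * b 0 ^ q))) * c' * b 0 * b 0 ^ q) = μ := by
      rw [mul_assoc, mul_assoc, ← Algebra.smul_def, map_smul, smul_eq_mul, ← mul_assoc,
        mul_assoc c', div_mul_cancel₀ _ hc']
    rw [hθ] at h00
    simp only [Matrix.sub_apply, ct_apply, fcM_apply, Matrix.zero_apply, hval, hσ,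
      H17.frobHom_apply] at h00
    exact hμ (sub_eq_zero.mp h00).symm
  obtain ⟨c₀, hc₀⟩ := hex
  have hθzero : θ 0 = 0 := by
    have := hθsub 0 0
    rwa [sub_zero, sub_self] at this
  -- θ is injective
  have hθinj : Function.Injective θ := by
    intro c c' hcc
    by_contra hne
    have hd : c - c' ≠ 0 := sub_ne_zero.mpr hne
    have hd0 : θ (c - c') = 0 := by rw [hθsub, hcc, sub_self]
    let Y : AddSubgroup E :=
      { carrier := {c | θ c = 0}
        add_mem' := fun {a b} ha hb => by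
          show θ (a + b) = 0
          rw [hθadd, show θ a = 0 from ha, show θ b = 0 from hb, add_zero]
        zero_mem' := hθzero
        neg_mem' := fun {a} ha => by
          show θ (-a) = 0
          have := hθsub 0 a
          rw [zero_sub, hθzero, show θ a = 0 from ha, sub_zero] at this
          exact this }
    have hY : ∀ c ∈ Y, c * ρ ∈ Y := by
      intro c hc
      show θ (c * ρ) = 0
      rw [hρ, ← hθeq α c, show θ c = 0 from hc, Matrix.mul_zero, Matrix.zero_mul]
    exact hc₀ (fc_as ρ hcl Y hY (c - c') hd0 hd c₀)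
  -- counting the skew-Hermitian matrices
  have hsurj : ∀ S : Matrix (Fin 2) (Fin 2) F, S + ct σ S = 0 → ∃ c, θ c = S := by
    intro S hS
    have hT := fc_card_T (F := F) q hq
    have hsub : Finset.univ.image θ ⊆ Finset.univ.filter
        (fun S : Matrix (Fin 2) (Fin 2) F => S + ct σ S = 0) := by
      intro S hS
      obtain ⟨c, -, rfl⟩ := Finset.mem_image.mp hS
      exact Finset.mem_filter.mpr ⟨Finset.mem_univ _, hθskew c⟩
    have hcard : (Finset.univ.filter
        (fun S : Matrix (Fin 2) (Fin 2) F => S + ct σ S = 0)).card ≤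
        (Finset.univ.image θ).card := by
      rw [Finset.card_image_of_injective _ hθinj, Finset.card_univ, hcardE]
      calc (Finset.univ.filter (fun S : Matrix (Fin 2) (Fin 2) F => S + ct σ S = 0)).card
          ≤ ((Finset.univ.filter (fun a : F => a ^ q = -a)) ×ˢ
              ((Finset.univ.filter (fun a : F => a ^ q = -a)) ×ˢ
                (Finset.univ : Finset F))).card := by
            apply Finset.card_le_card_of_injOn (fun S => (S 0 0, S 1 1, S 0 1))
            · intro S hS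
              have hS' : S + ct σ S = 0 := (Finset.mem_filter.mp hS).2
              have h00 := congrFun (congrFun hS' 0) 0
              have h11 := congrFun (congrFun hS' 1) 1
              simp only [Matrix.add_apply, ct_apply, Matrix.zero_apply, hσ,
                H17.frobHom_apply] at h00 h11
              simp only [Finset.coe_product, Set.mem_prod, Finset.mem_coe, Finset.mem_filter,
                Finset.mem_univ, true_and, and_true]
              exact ⟨eq_neg_of_add_eq_zero_right h00, eq_neg_of_add_eq_zero_right h11⟩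
            · intro S hS S' hS' hSS
              have hS1 : S + ct σ S = 0 := (Finset.mem_filter.mp hS).2
              have hS2 : S' + ct σ S' = 0 := (Finset.mem_filter.mp hS').2
              have e00 : S 0 0 = S' 0 0 := congrArg Prod.fst hSS
              have e11 : S 1 1 = S' 1 1 := congrArg (fun p => p.2.1) hSS
              have e01 : S 0 1 = S' 0 1 := congrArg (fun p => p.2.2) hSS
              have h10 := congrFun (congrFun hS1 1) 0
              have h10' := congrFun (congrFun hS2 1) 0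
              simp only [Matrix.add_apply, ct_apply, Matrix.zero_apply] at h10 h10'
              have e10 : S 1 0 = S' 1 0 := by
                rw [eq_neg_of_add_eq_zero_left h10, eq_neg_of_add_eq_zero_left h10', e01]
              ext i j
              fin_cases i <;> fin_cases j
              · exact e00
              · exact e01
              · exact e10
              · exact e11
        _ ≤ q * (q * q ^ 2) := by
            rw [Finset.card_product, Finset.card_product, Finset.card_univ, hF]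
            exact Nat.mul_le_mul hT (Nat.mul_le_mul_right _ hT)
        _ = q ^ 4 := by ring
    have himg := Finset.eq_of_subset_of_card_le hsub hcard
    have hmem : S ∈ Finset.univ.image θ := by
      rw [himg]
      exact Finset.mem_filter.mpr ⟨Finset.mem_univ _, hS⟩
    obtain ⟨c, -, hc⟩ := Finset.mem_image.mp hmem
    exact ⟨c, hc⟩
  -- assembling
  have hAq : ((L α)ᵀ) ^ q = (L (α ^ q))ᵀ := by
    rw [← Matrix.transpose_pow, ← map_pow]
  have hdetG : (Γs⁻¹ * (L x)ᵀ).det = 1 := by
    rw [Matrix.det_mul, Matrix.det_transpose, hL, ← Algebra.norm_eq_matrix_det b, hx,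
      ← Matrix.det_mul, Matrix.nonsing_inv_mul _ hΓsdet, Matrix.det_one]
  refine ⟨(L α)ᵀ, (L α⁻¹)ᵀ, Γs⁻¹ * (L x)ᵀ, (L x⁻¹)ᵀ * Γs, θ 1, ?_, ?_, ?_, ?_, ?_, ?_, ?_,
    hθskew 1, ?_⟩
  · rw [hLT, mul_inv_cancel₀ hα0, hLone]
  · rw [hLT, inv_mul_cancel₀ hα0, hLone]
  · rw [Matrix.mul_assoc, ← Matrix.mul_assoc (L x)ᵀ, hLT, mul_inv_cancel₀ hx0, hLone,
      Matrix.one_mul, Matrix.nonsing_inv_mul _ hΓsdet]
  · rw [Matrix.mul_assoc, ← Matrix.mul_assoc Γs, Matrix.mul_nonsing_inv _ hΓsdet,
      Matrix.one_mul, hLT, inv_mul_cancel₀ hx0, hLone]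
  · rw [hAq, hctT, Matrix.mul_assoc, hLT, mul_comm x α, ← hLT, ← Matrix.mul_assoc, hI3,
      Matrix.mul_assoc]
  · rw [Matrix.det_transpose, hL, ← Algebra.norm_eq_matrix_det b, hα, map_pow]
    have hn := FiniteField.pow_card (Algebra.norm F (ζ : E))
    rw [hF] at hn
    rw [← pow_mul, show (q + 1) * q = q ^ 2 + q by ring, pow_add, hn, pow_succ, mul_comm]
  · rw [hdetG, one_pow]
  · intro X hX h1 S hS
    obtain ⟨c, rfl⟩ := hsurj S hS
    let Y : AddSubgroup E :=
      { carrier := {c | θ c ∈ X}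
        add_mem' := fun {a b} ha hb => by
          show θ (a + b) ∈ X
          rw [hθadd]
          exact X.add_mem ha hb
        zero_mem' := by
          show θ 0 ∈ X
          rw [hθzero]
          exact X.zero_mem
        neg_mem' := fun {a} ha => by
          show θ (-a) ∈ X
          have := hθsub 0 a
          rw [zero_sub, hθzero, zero_sub] at this
          rw [this]
          exact X.neg_mem ha }
    have hY : ∀ c ∈ Y, c * ρ ∈ Y := by
      intro c hc
      show θ (c * ρ) ∈ X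
      rw [hρ, ← hθeq α c]
      exact hX _ hc
    have hc1 : ρ ^ q - 1 ∈ Y := by
      show θ (ρ ^ q - 1) ∈ X
      have h2 : θ (ρ ^ q - 1) = (L α)ᵀ ^ q * θ 1 * ct σ ((L α)ᵀ ^ q) - θ 1 := by
        rw [hAq, hθeq (α ^ q) 1, one_mul, hθsub, hρ, mul_pow]
      rw [h2]
      exact h1
    exact fc_as ρ hcl Y hY (ρ ^ q - 1) hc1 hρq c

end General

/-- **S2412-FC** (the Siegel case `n = 4`). -/
theorem field_C {F : Type*} [Field F] [Fintype F] {q : ℕ} (hF : Fintype.card F = q ^ 2) :
    ∃ A A' G G' S₀ : Matrix (Fin 2) (Fin 2) F, A * A' = 1 ∧ A' * A = 1 ∧ G * G' = 1 ∧ G' * G = 1 ∧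
      G * A = ct (H17.frobHom hF) (A ^ q) * G ∧ A.det ^ q = A.det ∧ G.det ^ q = G.det ∧
      S₀ + ct (H17.frobHom hF) S₀ = 0 ∧
      (∀ X : AddSubgroup (Matrix (Fin 2) (Fin 2) F),
        (∀ S ∈ X, A * S * ct (H17.frobHom hF) A ∈ X) →
        A ^ q * S₀ * ct (H17.frobHom hF) (A ^ q) - S₀ ∈ X →
        ∀ S, S + ct (H17.frobHom hF) S = 0 → S ∈ X) := by
  classical
  obtain ⟨f, hfm, hf, hfd, -, -⟩ := H45.exists_singer_poly (F := F) 2 (by norm_num)
  haveI : Fact (Irreducible f) := ⟨hf⟩
  have hfin : Module.finrank F (AdjoinRoot f) = 2 := by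
    rw [(AdjoinRoot.powerBasis hf.ne_zero).finrank, AdjoinRoot.powerBasis_dim, hfd]
  haveI : Module.Finite F (AdjoinRoot f) := (AdjoinRoot.powerBasis hf.ne_zero).finite
  haveI : Finite (AdjoinRoot f) := Module.finite_of_finite F
  letI : Fintype (AdjoinRoot f) := Fintype.ofFinite _
  exact fc_aux hF (AdjoinRoot f) hfin

end Cfsg.Agent.Lib.Helper96.Psu
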