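import Mathlib

/-!
# A multiple HNN-type group inside `FreeGroup X ⋊ Q` (shared definitions)

Given a group `Q`, a subgroup `S₀`, subgroups `A i ≤ S₀` and elements `σ i` conjugating `A i` into `S₀`,
we let `B i = σ i A i (σ i)⁻¹`, take the `Q`-set `X = Σ i, Q ⧸ B i`, and inside the semidirect product
`FreeGroup X ⋊ Q` the subgroup `G` generated by `S₀` and the elements `t i = (x i, σ i)`, where `x i`
is the base point of the `i`-th orbit. Conjugation by `t i` induces conjugation by `σ i` on `A i`.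
-/

namespace Cfsg.Agent.Lib.Helper96.LS

universe u

/-- The data. -/
structure Dat (Q : Type u) [Group Q] (I : Type u) where
  /-- the base subgroup -/
  S₀ : Subgroup Q
  /-- the source subgroups -/
  A : I → Subgroup Q
  /-- the conjugating elements -/
  σ : I → Q
  hA : ∀ i, A i ≤ S₀
  hB : ∀ i, ∀ a ∈ A i, σ i * a * (σ i)⁻¹ ∈ S₀

variable {Q : Type u} [Group Q] {I : Type u} (D : Dat Q I)

/-- The target subgroups `σ i A i (σ i)⁻¹`. -/
def Dat.B (i : I) : Subgroup Q := (D.A i).map (MulAut.conj (D.σ i)).toMonoidHom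

theorem Dat.mem_B {i : I} {b : Q} : b ∈ D.B i ↔ (D.σ i)⁻¹ * b * D.σ i ∈ D.A i := by
  unfold Dat.B
  constructor
  · rintro ⟨a, ha, rfl⟩
    simpa [MulAut.conj_apply, mul_assoc] using ha
  · intro h
    exact ⟨_, h, by simp [MulAut.conj_apply, mul_assoc]⟩

theorem Dat.conj_mem_B {i : I} {a : Q} : D.σ i * a * (D.σ i)⁻¹ ∈ D.B i ↔ a ∈ D.A i := by
  rw [D.mem_B]
  simp [mul_assoc]

theorem Dat.B_le (i : I) : D.B i ≤ D.S₀ := by
  intro b hb
  have h := D.hB i _ (D.mem_B.1 hb)
  simpa [mul_assoc] using h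

/-- The letters: the disjoint union of the coset spaces `Q ⧸ B i`. -/
abbrev Dat.X : Type u := Σ i : I, Q ⧸ D.B i

/-- Decidable equality of letters (classical), fixed once and for all. -/
noncomputable instance Dat.instDecEqX : DecidableEq D.X := Classical.decEq _

/-- The permutation action of `Q` on the free group on the letters. -/
noncomputable def Dat.act : Q →* MulAut (FreeGroup D.X) where
  toFun q := FreeGroup.freeGroupCongr (MulAction.toPerm q)
  map_one' := by
    apply MulEquiv.ext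
    intro w
    show FreeGroup.map _ w = w
    have : ((MulAction.toPerm (1 : Q) : Equiv.Perm D.X) : D.X → D.X) = id := by
      funext x; simp
    rw [this, FreeGroup.map.id]
  map_mul' q₁ q₂ := by
    apply MulEquiv.ext
    intro w
    show FreeGroup.map _ w = FreeGroup.map _ (FreeGroup.map _ w)
    rw [FreeGroup.map.comp]
    have : ((MulAction.toPerm (q₁ * q₂) : Equiv.Perm D.X) : D.X → D.X) =
        (MulAction.toPerm q₁ : Equiv.Perm D.X) ∘ (MulAction.toPerm q₂ : Equiv.Perm D.X) := by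
      funext x; simp [mul_smul]
    rw [this]

theorem Dat.act_apply (q : Q) (w : FreeGroup D.X) :
    D.act q w = FreeGroup.map (fun x : D.X => q • x) w := rfl

@[simp] theorem Dat.act_of (q : Q) (x : D.X) :
    D.act q (FreeGroup.of x) = FreeGroup.of (q • x) := by
  rw [D.act_apply]; simp

/-- The ambient group. -/
abbrev Dat.Lam : Type u := FreeGroup D.X ⋊[D.act] Q

/-- The base point of the `i`-th orbit of letters. -/
def Dat.x (i : I) : D.X := ⟨i, ((1 : Q) : Q ⧸ D.B i)⟩

theorem Dat.smul_x (q : Q) (i : I) : q • D.x i = ⟨i, ((q : Q) : Q ⧸ D.B i)⟩ := by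
  unfold Dat.x
  rw [Sigma.smul_mk]
  congr 1
  show ((q * 1 : Q) : Q ⧸ D.B i) = _
  rw [mul_one]

theorem Dat.smul_x_eq_iff {q q' : Q} {i j : I} :
    q • D.x i = q' • D.x j ↔ i = j ∧ q'⁻¹ * q ∈ D.B i := by
  rw [D.smul_x, D.smul_x]
  constructor
  · intro h
    have hij : i = j := congrArg Sigma.fst h
    subst hij
    refine ⟨rfl, ?_⟩
    have h2 : ((q : Q) : Q ⧸ D.B i) = (q' : Q) := eq_of_heq (Sigma.mk.inj h).2
    have h3 := QuotientGroup.eq.1 h2.symm
    exact h3
  · rintro ⟨rfl, h⟩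
    congr 1
    exact (QuotientGroup.eq.2 h).symm

/-- The stable letters. -/
noncomputable def Dat.t (i : I) : D.Lam := ⟨FreeGroup.of (D.x i), D.σ i⟩

/-- `t i` or its inverse. -/
noncomputable def Dat.tt (i : I) (e : Bool) : D.Lam := if e then D.t i else (D.t i)⁻¹

/-- The group. -/
noncomputable def Dat.G : Subgroup D.Lam :=
  Subgroup.closure ((SemidirectProduct.inr '' (D.S₀ : Set Q)) ∪ Set.range D.t)

/-- The letter contributed by `t i` (for `e = true`) or its inverse (for `e = false`) after `g`. -/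
def Dat.letter (g : D.Lam) (i : I) (e : Bool) : D.X × Bool :=
  if e then (g.right • D.x i, true) else ((g.right * (D.σ i)⁻¹) • D.x i, false)

theorem Dat.inr_mem_G {s : Q} (hs : s ∈ D.S₀) : (SemidirectProduct.inr s : D.Lam) ∈ D.G :=
  Subgroup.subset_closure (Or.inl ⟨s, hs, rfl⟩)

theorem Dat.t_mem_G (i : I) : D.t i ∈ D.G :=
  Subgroup.subset_closure (Or.inr ⟨i, rfl⟩)

theorem Dat.tt_mem_G (i : I) (e : Bool) : D.tt i e ∈ D.G := by
  unfold Dat.tt
  split_ifs
  · exact D.t_mem_G i
  · exact D.G.inv_mem (D.t_mem_G i)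

/-- Conjugation by `t i` is conjugation by `σ i` on `A i`. -/
theorem Dat.t_conj (i : I) {a : Q} (ha : a ∈ D.A i) :
    D.t i * SemidirectProduct.inr a * (D.t i)⁻¹ =
      (SemidirectProduct.inr (D.σ i * a * (D.σ i)⁻¹) : D.Lam) := by
  have hfix : (D.σ i * a * (D.σ i)⁻¹) • D.x i = D.x i := by
    have := (D.smul_x_eq_iff (q := D.σ i * a * (D.σ i)⁻¹) (q' := 1) (i := i) (j := i)).2
      ⟨rfl, by simpa using D.conj_mem_B.2 ha⟩
    simpa using this
  set b : Q := D.σ i * a * (D.σ i)⁻¹ with hb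
  have ht : D.t i = SemidirectProduct.inl (FreeGroup.of (D.x i)) * SemidirectProduct.inr (D.σ i) :=
    SemidirectProduct.mk_eq_inl_mul_inr _ _
  have h1 : (SemidirectProduct.inr b : D.Lam) * SemidirectProduct.inl (FreeGroup.of (D.x i))⁻¹ *
      (SemidirectProduct.inr b)⁻¹ = SemidirectProduct.inl (FreeGroup.of (D.x i))⁻¹ := by
    rw [← map_inv, ← SemidirectProduct.inl_aut, map_inv, D.act_of, hfix]
  have h2 : (SemidirectProduct.inr b : D.Lam) =
      SemidirectProduct.inr (D.σ i) * SemidirectProduct.inr a * (SemidirectProduct.inr (D.σ i))⁻¹ := by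
    rw [hb, map_mul, map_mul, map_inv]
  rw [ht, mul_inv_rev]
  calc SemidirectProduct.inl (FreeGroup.of (D.x i)) * SemidirectProduct.inr (D.σ i) *
        SemidirectProduct.inr a * ((SemidirectProduct.inr (D.σ i))⁻¹ *
          (SemidirectProduct.inl (FreeGroup.of (D.x i)))⁻¹)
      = SemidirectProduct.inl (FreeGroup.of (D.x i)) * ((SemidirectProduct.inr b : D.Lam) *
          SemidirectProduct.inl (FreeGroup.of (D.x i))⁻¹ * (SemidirectProduct.inr b)⁻¹) *
          SemidirectProduct.inr b := by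
        rw [h2, map_inv]; group
    _ = SemidirectProduct.inr b := by
        rw [h1, map_inv]; group

/-- The inverse form of `t_conj`. -/
theorem Dat.t_inv_conj (i : I) {b : Q} (hb : b ∈ D.B i) :
    (D.t i)⁻¹ * SemidirectProduct.inr b * D.t i =
      (SemidirectProduct.inr ((D.σ i)⁻¹ * b * D.σ i) : D.Lam) := by
  have h := D.t_conj i (D.mem_B.1 hb)
  have h2 : (SemidirectProduct.inr (D.σ i * ((D.σ i)⁻¹ * b * D.σ i) * (D.σ i)⁻¹) : D.Lam) =
      SemidirectProduct.inr b := by
    congr 1; group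
  rw [h2] at h
  rw [← h]
  group

/-- Reduced paths: the normal form of the elements of `G`. -/
inductive Dat.Path : D.Lam → Prop
  | base (s : Q) (hs : s ∈ D.S₀) : Dat.Path (SemidirectProduct.inr s)
  | step (g : D.Lam) (i : I) (e : Bool) (s : Q) (hs : s ∈ D.S₀) (hg : Dat.Path g)
      (hw : (g * D.tt i e * SemidirectProduct.inr s).left.toWord =
        g.left.toWord ++ [D.letter g i e]) :
      Dat.Path (g * D.tt i e * SemidirectProduct.inr s)

theorem Dat.Path.mem {g : D.Lam} (h : D.Path g) : g ∈ D.G := by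
  induction h with
  | base s hs => exact D.inr_mem_G hs
  | step g i e s hs _ _ ih => exact D.G.mul_mem (D.G.mul_mem ih (D.tt_mem_G i e)) (D.inr_mem_G hs)

end Cfsg.Agent.Lib.Helper96.LS
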