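import Mathlib
import Cfsg.Prelude.Def_Characters
import Cfsg.Agent.H82.CyclicExtChar
import Cfsg.Agent.H82.CanonExt
import Cfsg.Agent.H82.IndDeg
import Cfsg.Agent.H32.InvOver
import Cfsg.Agent.Lib.Gallagher
import Cfsg.Agent.Lib.Helper96.DadeExt

/-!
# Fully ramified characters under a Frobenius action with cyclic complement (helper96)

`N ≤ G ⊴ Γ`, `Γ/G` cyclic of order `m`, no element outside `G` centralising a non-trivial element
of `G/N`, `θ ∈ Irr(N)` invariant in `Γ` with `θ^G = e χ`.  Then `m ∣ e - 1` or `m ∣ e + 1`.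

Proof: a generator `x` of `Γ` mod `G` has `x^m ∈ N`, so `U = N⟨x⟩` is a complement modulo `N`.
Extend `χ` to `X ∈ Irr(Γ)` and `θ` to `θ^ ∈ Irr(U)` (cyclic quotients).  By Gallagher
`X|U = Σ a_β β θ^` over the `m` linear characters `β` of `U/N`, with `Σ a_β = e`, and the
conjugation count `|G| Σ_{U∖N} |X|² = |N| Σ_{Γ∖G} |X|²` gives `m Σ a_β² = e² + m - 1`.  The
inequality `Σ (a_β - b)(a_β - b - 1) ≥ 0`, `b = ⌊e/m⌋`, finishes.
-/

set_option autoImplicit false
set_option linter.style.haveILetI false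
set_option linter.unusedSectionVars false
set_option linter.unnecessarySeqFocus false
open Cfsg
open scoped ComplexConjugate

namespace Cfsg.Agent.Lib.Helper96

universe u

section FrobGroup

variable {Γ : Type u} [Group Γ] [Finite Γ] (G N : Subgroup Γ) [hG : G.Normal] [hN : N.Normal]

/-- A cyclic complement modulo `N` in a "Frobenius" situation: `Γ/G` cyclic and no element
outside `G` centralises a non-trivial element of `G/N`. -/
theorem frob_complement (hNG : N ≤ G) (hGlt : G ≠ ⊤) (hcyc : IsCyclic (Γ ⧸ G))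
    (hfrob : ∀ x : Γ, x ∉ G → ∀ g : Γ, g ∈ G → x * g * x⁻¹ * g⁻¹ ∈ N → g ∈ N) :
    ∃ U : Subgroup Γ, N ≤ U ∧ G ⊓ U = N ∧ G ⊔ U = ⊤ ∧ IsCyclic (↥U ⧸ N.subgroupOf U) := by
  classical
  obtain ⟨q, hq⟩ := hcyc.exists_generator
  obtain ⟨x, rfl⟩ := QuotientGroup.mk_surjective q
  set m := Nat.card (Γ ⧸ G) with hm
  have hord : orderOf (x : Γ ⧸ G) = m := orderOf_eq_card_of_forall_mem_zpowers hq
  have hxG : x ∉ G := by
    intro hx
    apply hGlt
    apply QuotientGroup.subgroup_eq_top_of_subsingleton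
    constructor
    intro a b
    have h1 : (x : Γ ⧸ G) = 1 := (QuotientGroup.eq_one_iff x).mpr hx
    have ha := hq a
    have hb := hq b
    rw [h1, Subgroup.zpowers_one_eq_bot, Subgroup.mem_bot] at ha hb
    rw [ha, hb]
  have hxmG : x ^ m ∈ G := by
    rw [← QuotientGroup.eq_one_iff, QuotientGroup.mk_pow, ← hord, pow_orderOf_eq_one]
  have hxmN : x ^ m ∈ N := by
    apply hfrob x hxG (x ^ m) hxmG
    have : x * x ^ m * x⁻¹ * (x ^ m)⁻¹ = 1 := by
      rw [← pow_succ', pow_succ, mul_inv_cancel_right, mul_inv_cancel]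
    rw [this]
    exact N.one_mem
  have hUmem : ∀ y : Γ, y ∈ N ⊔ Subgroup.zpowers x ↔ ∃ n ∈ N, ∃ k : ℤ, y = n * x ^ k := by
    intro y
    rw [← SetLike.mem_coe, Subgroup.normal_mul, Set.mem_mul]
    constructor
    · rintro ⟨n, hn, z, hz, rfl⟩
      obtain ⟨k, rfl⟩ := Subgroup.mem_zpowers_iff.mp hz
      exact ⟨n, hn, k, rfl⟩
    · rintro ⟨n, hn, k, rfl⟩
      exact ⟨n, hn, x ^ k, Subgroup.zpow_mem_zpowers x k, rfl⟩
  refine ⟨N ⊔ Subgroup.zpowers x, le_sup_left, ?_, ?_, ?_⟩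
  · apply le_antisymm
    · rintro y ⟨hyG, hyU⟩
      obtain ⟨n, hn, k, rfl⟩ := (hUmem y).mp hyU
      have hxk : x ^ k ∈ G := by
        have h1 : n⁻¹ * (n * x ^ k) ∈ G := G.mul_mem (G.inv_mem (hNG hn)) hyG
        simpa using h1
      have h2 : (x : Γ ⧸ G) ^ k = 1 := by
        rw [← QuotientGroup.mk_zpow, QuotientGroup.eq_one_iff]
        exact hxk
      obtain ⟨j, hj⟩ := orderOf_dvd_iff_zpow_eq_one.mpr h2
      rw [hord] at hj
      have h3 : x ^ k = (x ^ m) ^ j := by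
        rw [hj, zpow_mul, zpow_natCast]
      show n * x ^ k ∈ N
      rw [h3]
      exact N.mul_mem hn (N.zpow_mem hxmN j)
    · exact le_inf hNG le_sup_left
  · rw [eq_top_iff]
    intro y _
    obtain ⟨k, hk⟩ := Subgroup.mem_zpowers_iff.mp (hq (y : Γ ⧸ G))
    have h1 : ((x ^ k : Γ) : Γ ⧸ G) = (y : Γ ⧸ G) := by
      rw [QuotientGroup.mk_zpow]
      exact hk
    have h2 : (x ^ k)⁻¹ * y ∈ G := QuotientGroup.eq.mp h1
    have h3 : y = (x ^ k)⁻¹⁻¹ * ((x ^ k)⁻¹ * y) := by group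
    rw [h3]
    refine Subgroup.mul_mem _ (Subgroup.mem_sup_right ?_) (Subgroup.mem_sup_left h2)
    rw [inv_inv]
    exact Subgroup.mem_sup_right (Subgroup.zpow_mem_zpowers x k)
  · have hxU : x ∈ N ⊔ Subgroup.zpowers x := Subgroup.mem_sup_right (Subgroup.mem_zpowers x)
    haveI : (N.subgroupOf (N ⊔ Subgroup.zpowers x)).Normal := Subgroup.normal_subgroupOf
    refine ⟨⟨QuotientGroup.mk ⟨x, hxU⟩, fun q => ?_⟩⟩
    obtain ⟨y, rfl⟩ := QuotientGroup.mk_surjective q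
    obtain ⟨n, hn, k, hy⟩ := (hUmem y).mp y.2
    refine ⟨k, ?_⟩
    show (QuotientGroup.mk ⟨x, hxU⟩ : _ ⧸ N.subgroupOf (N ⊔ Subgroup.zpowers x)) ^ k = _
    rw [← QuotientGroup.mk_zpow, QuotientGroup.eq, Subgroup.mem_subgroupOf]
    have h1 : (((⟨x, hxU⟩ : ↥(N ⊔ Subgroup.zpowers x)) ^ k)⁻¹ * y : ↥(N ⊔ Subgroup.zpowers x)).1 =
        (x ^ k)⁻¹ * (y : Γ) := by
      simp
    rw [h1, hy]
    have h2 : (x ^ k)⁻¹ * (n * x ^ k) = (x ^ k)⁻¹ * n * (x ^ k)⁻¹⁻¹ := by group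
    rw [h2]
    exact hN.conj_mem n hn _

end FrobGroup


section FrobCount

variable {Γ : Type u} [Group Γ] [Fintype Γ] (G N U : Subgroup Γ) [hG : G.Normal] [hN : N.Normal]

theorem card_finset_of_mem (H : Subgroup Γ) (F : Finset Γ) (hF : ∀ y, y ∈ F ↔ y ∈ H) :
    F.card = Nat.card H := by
  classical
  rw [Nat.card_eq_fintype_card, Fintype.card_subtype]
  congr 1
  ext y
  simp [hF]

/-- Conjugation count in a Frobenius situation: summing a class function over `Γ ∖ G` is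
`|G:N|` times summing it over `U ∖ N`. -/
theorem frob_conj_sum (hNU : N ≤ U) (hGU : G ⊓ U = N) (hsup : G ⊔ U = ⊤)
    (hfrob : ∀ x : Γ, x ∉ G → ∀ g : Γ, g ∈ G → x * g * x⁻¹ * g⁻¹ ∈ N → g ∈ N)
    (f : Γ → ℂ) (hf : ∀ y g : Γ, f (g * y * g⁻¹) = f y)
    (D Y : Finset Γ) (hD : ∀ y, y ∈ D ↔ y ∈ U ∧ y ∉ N) (hY : ∀ y, y ∈ Y ↔ y ∉ G) :
    (Nat.card G : ℂ) * ∑ y ∈ D, f y = (Nat.card N : ℂ) * ∑ y ∈ Y, f y := by
  classical
  set FG : Finset Γ := Finset.univ.filter (fun y => y ∈ G) with hFG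
  have hFGmem : ∀ y, y ∈ FG ↔ y ∈ G := fun y => by simp [hFG]
  have hFGcard : FG.card = Nat.card G := card_finset_of_mem G FG hFGmem
  have hNG : N ≤ G := by rw [← hGU]; exact inf_le_left
  -- key: conjugating an element of `U ∖ N` into `U` by an element of `G` forces it into `N`
  have keyI : ∀ g ∈ G, ∀ u ∈ U, u ∉ N → g * u * g⁻¹ ∈ U → g ∈ N := by
    intro g hg u hu huN hgu
    have huG : u ∉ G := fun h => huN (by rw [← hGU]; exact ⟨h, hu⟩)
    have huG' : u⁻¹ ∉ G := fun h => huG (by simpa using G.inv_mem h)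
    apply hfrob u⁻¹ huG' g hg
    rw [inv_inv, ← hGU]
    constructor
    · have h1 : u⁻¹ * g * u ∈ G := by
        have := hG.conj_mem g hg u⁻¹
        simpa using this
      exact G.mul_mem h1 (G.inv_mem hg)
    · have h2 : u⁻¹ * g * u * g⁻¹ = u⁻¹ * (g * u * g⁻¹) := by group
      rw [h2]
      exact U.mul_mem (U.inv_mem hu) hgu
  set P : Finset (Γ × Γ) := FG ×ˢ D with hP
  set Φ : Γ × Γ → Γ := fun p => p.1 * p.2 * p.1⁻¹ with hΦ
  have hmaps : ∀ p ∈ P, Φ p ∈ Y := by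
    intro p hp
    rw [hP, Finset.mem_product, hFGmem, hD] at hp
    rw [hY]
    intro h
    have h1 : p.1⁻¹ * (p.1 * p.2 * p.1⁻¹) * p.1⁻¹⁻¹ ∈ G := hG.conj_mem _ h _
    have h2 : p.1⁻¹ * (p.1 * p.2 * p.1⁻¹) * p.1⁻¹⁻¹ = p.2 := by group
    rw [h2] at h1
    exact hp.2.2 (by rw [← hGU]; exact ⟨h1, hp.2.1⟩)
  -- fibres have at most |N| elements, with equality when non-empty
  have hfib : ∀ y ∈ Y, (P.filter (fun p => Φ p = y)).card ≤ Nat.card N := by
    intro y _
    by_cases hne : (P.filter (fun p => Φ p = y)).Nonempty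
    · obtain ⟨p₀, hp₀⟩ := hne
      rw [Finset.mem_filter, hP, Finset.mem_product, hFGmem, hD] at hp₀
      obtain ⟨⟨hg₀, hu₀, hu₀N⟩, hy₀⟩ := hp₀
      apply le_of_eq
      rw [Nat.card_eq_fintype_card, ← Finset.card_univ (α := N)]
      symm
      refine Finset.card_bij (fun (n : N) _ => ((p₀.1 * n, (n : Γ)⁻¹ * p₀.2 * n) : Γ × Γ)) ?_ ?_ ?_
      · intro n _
        rw [Finset.mem_filter, hP, Finset.mem_product, hFGmem, hD]
        refine ⟨⟨G.mul_mem hg₀ (hNG n.2), U.mul_mem (U.mul_mem (U.inv_mem (hNU n.2)) hu₀) (hNU n.2),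
          ?_⟩, ?_⟩
        · intro h
          apply hu₀N
          have h1 := N.mul_mem (N.mul_mem n.2 h) (N.inv_mem n.2)
          have h2 : (n : Γ) * ((n : Γ)⁻¹ * p₀.2 * n) * (n : Γ)⁻¹ = p₀.2 := by group
          rwa [h2] at h1
        · show p₀.1 * n * ((n : Γ)⁻¹ * p₀.2 * n) * (p₀.1 * n)⁻¹ = y
          rw [← hy₀]
          show _ = p₀.1 * p₀.2 * p₀.1⁻¹
          group
      · intro n₁ _ n₂ _ h
        have h1 : p₀.1 * (n₁ : Γ) = p₀.1 * n₂ := (Prod.ext_iff.mp h).1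
        exact Subtype.ext (mul_left_cancel h1)
      · intro p hp
        rw [Finset.mem_filter, hP, Finset.mem_product, hFGmem, hD] at hp
        obtain ⟨⟨hg, hu, huN⟩, hy⟩ := hp
        have h1 : p.1 * p.2 * p.1⁻¹ = p₀.1 * p₀.2 * p₀.1⁻¹ := by
          have := hy.trans hy₀.symm
          exact this
        have h2 : (p₀.1⁻¹ * p.1) * p.2 * (p₀.1⁻¹ * p.1)⁻¹ = p₀.2 := by
          have : (p₀.1⁻¹ * p.1) * p.2 * (p₀.1⁻¹ * p.1)⁻¹ = p₀.1⁻¹ * (p.1 * p.2 * p.1⁻¹) * p₀.1 := by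
            group
          rw [this, h1]
          group
        have hn : p₀.1⁻¹ * p.1 ∈ N :=
          keyI _ (G.mul_mem (G.inv_mem hg₀) hg) p.2 hu huN (by rw [h2]; exact hu₀)
        refine ⟨⟨p₀.1⁻¹ * p.1, hn⟩, Finset.mem_univ _, ?_⟩
        apply Prod.ext
        · show p₀.1 * (p₀.1⁻¹ * p.1) = p.1
          group
        · show (p₀.1⁻¹ * p.1)⁻¹ * p₀.2 * (p₀.1⁻¹ * p.1) = p.2
          rw [← h2]
          group
    · rw [Finset.not_nonempty_iff_eq_empty] at hne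
      rw [hne, Finset.card_empty]
      exact Nat.zero_le _
  -- cardinalities
  have hcardΓ : Nat.card Γ = Nat.card G * G.index := (Subgroup.card_mul_index G).symm
  have hrel : N.relIndex U = G.index := by
    have h1 := Subgroup.relIndex_sup_right U G
    rw [sup_comm, hsup, Subgroup.relIndex_top_right] at h1
    rw [h1, ← hGU, Subgroup.inf_relIndex_right]
  have hcardU : Nat.card U = Nat.card N * G.index := by
    have h1 := Subgroup.relIndex_mul_relIndex ⊥ N U bot_le hNU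
    rw [Subgroup.relIndex_bot_left, Subgroup.relIndex_bot_left, hrel] at h1
    exact h1.symm
  have hDcard : D.card + Nat.card N = Nat.card U := by
    set FU : Finset Γ := Finset.univ.filter (fun y => y ∈ U) with hFU
    have hFUcard : FU.card = Nat.card U := card_finset_of_mem U FU (fun y => by simp [hFU])
    have h1 := Finset.card_filter_add_card_filter_not (s := FU) (fun y => y ∈ N)
    have h2 : FU.filter (fun y => y ∈ N) = Finset.univ.filter (fun y => y ∈ N) := by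
      ext y
      simp only [hFU, Finset.mem_filter, Finset.mem_univ, true_and]
      exact ⟨fun h => h.2, fun h => ⟨hNU h, h⟩⟩
    have h3 : FU.filter (fun y => ¬ y ∈ N) = D := by
      ext y
      simp only [hFU, Finset.mem_filter, Finset.mem_univ, true_and, hD]
    rw [h2, h3, card_finset_of_mem N _ (fun y => by simp), hFUcard] at h1
    omega
  have hYcard : Y.card + Nat.card G = Nat.card Γ := by
    have h1 := Finset.card_filter_add_card_filter_not (s := (Finset.univ : Finset Γ)) (fun y => y ∈ G)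
    have h3 : (Finset.univ : Finset Γ).filter (fun y => ¬ y ∈ G) = Y := by
      ext y
      simp only [Finset.mem_filter, Finset.mem_univ, true_and, hY]
    rw [h3, card_finset_of_mem G _ (fun y => by simp), Finset.card_univ,
      ← Nat.card_eq_fintype_card] at h1
    omega
  have hPcard : P.card = Y.card * Nat.card N := by
    rw [hP, Finset.card_product, hFGcard]
    have h1 : D.card = Nat.card N * G.index - Nat.card N := by omega
    have h2 : Y.card = Nat.card G * G.index - Nat.card G := by omega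
    rw [h1, h2, Nat.mul_sub, Nat.sub_mul]
    congr 1 <;> ring
  have hfibeq : ∀ y ∈ Y, (P.filter (fun p => Φ p = y)).card = Nat.card N := by
    have h1 : P.card = ∑ y ∈ Y, (P.filter (fun p => Φ p = y)).card :=
      Finset.card_eq_sum_card_fiberwise (fun p hp => hmaps p hp)
    have h2 : ∑ y ∈ Y, (P.filter (fun p => Φ p = y)).card = ∑ _y ∈ Y, Nat.card N := by
      rw [← h1, hPcard, Finset.sum_const, smul_eq_mul]
    exact (Finset.sum_eq_sum_iff_of_le hfib).mp h2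
  -- the double count
  have hsum1 : ∑ p ∈ P, f (Φ p) = (Nat.card G : ℂ) * ∑ u ∈ D, f u := by
    rw [hP, Finset.sum_product]
    have : ∀ g ∈ FG, ∑ u ∈ D, f (Φ (g, u)) = ∑ u ∈ D, f u := by
      intro g _
      exact Finset.sum_congr rfl fun u _ => hf u g
    rw [Finset.sum_congr rfl this, Finset.sum_const, hFGcard, nsmul_eq_mul]
  have hsum2 : ∑ p ∈ P, f (Φ p) = (Nat.card N : ℂ) * ∑ y ∈ Y, f y := by
    rw [← Finset.sum_fiberwise_of_maps_to hmaps (fun p => f (Φ p)), Finset.mul_sum]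
    refine Finset.sum_congr rfl fun y hy => ?_
    have : ∀ p ∈ P.filter (fun p => Φ p = y), f (Φ p) = f y := by
      intro p hp
      rw [(Finset.mem_filter.mp hp).2]
    rw [Finset.sum_congr rfl this, Finset.sum_const, hfibeq y hy, nsmul_eq_mul]
  rw [← hsum1, hsum2]

end FrobCount

section Arith

/-- Arithmetic core: `m` natural numbers with sum `e` and sum of squares `(e² + m - 1)/m`. -/
theorem dvd_sub_one_or_add_one {ι : Type*} (I : Finset ι) (a : ι → ℕ) (m e : ℕ) (hm : 2 ≤ m)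
    (hI : I.card = m) (h1 : ∑ i ∈ I, a i = e) (h2 : m * ∑ i ∈ I, (a i) ^ 2 = e ^ 2 + m - 1) :
    (m : ℤ) ∣ (e : ℤ) - 1 ∨ (m : ℤ) ∣ (e : ℤ) + 1 := by
  set b : ℕ := e / m with hb
  set k : ℕ := e % m with hk
  have hek : e = m * b + k := (Nat.div_add_mod e m).symm
  have hklt : k < m := Nat.mod_lt e (by omega)
  have hterm : ∀ i ∈ I, (0 : ℤ) ≤ ((a i : ℤ) - b) * ((a i : ℤ) - b - 1) := by
    intro i _
    rcases le_or_gt ((a i : ℤ) - b) 0 with h | h
    · nlinarith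
    · nlinarith
  have hsum := Finset.sum_nonneg hterm
  have hexp : ∑ i ∈ I, ((a i : ℤ) - b) * ((a i : ℤ) - b - 1) =
      (∑ i ∈ I, ((a i : ℤ)) ^ 2) - (2 * b + 1) * (∑ i ∈ I, (a i : ℤ)) + m * ((b : ℤ) * (b + 1)) := by
    have : ∀ i ∈ I, ((a i : ℤ) - b) * ((a i : ℤ) - b - 1) =
        (a i : ℤ) ^ 2 - (2 * b + 1) * (a i : ℤ) + (b : ℤ) * (b + 1) := fun i _ => by ring
    rw [Finset.sum_congr rfl this, Finset.sum_add_distrib, Finset.sum_sub_distrib,
      ← Finset.mul_sum, Finset.sum_const, hI, nsmul_eq_mul]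
  rw [hexp] at hsum
  have h1' : ∑ i ∈ I, (a i : ℤ) = e := by exact_mod_cast h1
  have h2' : (m : ℤ) * ∑ i ∈ I, ((a i : ℤ)) ^ 2 = (e : ℤ) ^ 2 + m - 1 := by
    have h3 : (m * ∑ i ∈ I, (a i) ^ 2 : ℕ) + 1 = e ^ 2 + m := by omega
    have h4 : ((m * ∑ i ∈ I, (a i) ^ 2 : ℕ) : ℤ) + 1 = (e : ℤ) ^ 2 + m := by exact_mod_cast h3
    push_cast at h4
    linarith
  rw [h1'] at hsum
  have hekZ : (e : ℤ) = m * b + k := by exact_mod_cast hek
  have hmZ : (2 : ℤ) ≤ m := by exact_mod_cast hm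
  have hkZ : (k : ℤ) < m := by exact_mod_cast hklt
  have hk0 : (0 : ℤ) ≤ k := Int.natCast_nonneg k
  -- multiply the inequality by m
  have hineq : (0 : ℤ) ≤ (k : ℤ) ^ 2 - m * k + m - 1 := by
    have h5 : (0 : ℤ) ≤ (m : ℤ) * ((∑ i ∈ I, ((a i : ℤ)) ^ 2) - (2 * b + 1) * e + m * ((b : ℤ) * (b + 1))) :=
      mul_nonneg (by linarith) hsum
    have h6 : (m : ℤ) * ((∑ i ∈ I, ((a i : ℤ)) ^ 2) - (2 * b + 1) * e + m * ((b : ℤ) * (b + 1))) =
        (k : ℤ) ^ 2 - m * k + m - 1 := by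
      rw [mul_add, mul_sub, h2', hekZ]
      ring
    rw [h6] at h5
    exact h5
  have hcases : k = 0 ∨ k = 1 ∨ k + 1 = m := by
    by_contra hcon
    push Not at hcon
    obtain ⟨c0, c1, c2⟩ := hcon
    have hk2 : (2 : ℤ) ≤ k := by
      have : 2 ≤ k := by omega
      exact_mod_cast this
    have hk3 : (k : ℤ) + 2 ≤ m := by
      have : k + 2 ≤ m := by omega
      exact_mod_cast this
    nlinarith
  rcases hcases with h0 | h0 | h0
  · exfalso
    rw [h0] at hekZ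
    have h7 : (m : ℤ) ∣ (e : ℤ) ^ 2 + m - 1 := ⟨_, h2'.symm⟩
    have h8 : (m : ℤ) ∣ (e : ℤ) ^ 2 + m := by
      rw [hekZ]
      exact ⟨m * b * b + 1, by push_cast; ring⟩
    have h9 : (m : ℤ) ∣ 1 := by
      have := dvd_sub h8 h7
      simpa using this
    have := Int.le_of_dvd one_pos h9
    linarith
  · left
    exact ⟨b, by rw [hekZ, h0]; push_cast; ring⟩
  · right
    have h0Z : (k : ℤ) + 1 = m := by exact_mod_cast h0
    exact ⟨b + 1, by rw [hekZ]; linarith⟩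

end Arith


end Cfsg.Agent.Lib.Helper96
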