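import Cfsg.Agent.Lib.Helper96.LSPath

/-!
# Conjugation induction in the Leary–Stancu model
-/

namespace Cfsg.Agent.Lib.Helper96.LS

universe u

variable {Q : Type u} [Group Q] {I : Type u}

open SemidirectProduct

/-- If `g * inr a * g⁻¹ = inr b` then `b = g.right * a * g.right⁻¹` fixes `g.left`. -/
theorem Dat.conj_inr_eq (D : Dat Q I) {g : D.Lam} {a b : Q}
    (h : g * inr a * g⁻¹ = (inr b : D.Lam)) :
    g.right * a * g.right⁻¹ = b ∧ D.act b g.left = g.left := by
  have hr := congrArg SemidirectProduct.right h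
  have hl := congrArg SemidirectProduct.left h
  simp only [SemidirectProduct.mul_right, SemidirectProduct.inv_right,
    SemidirectProduct.right_inr] at hr
  refine ⟨hr, ?_⟩
  simp only [SemidirectProduct.mul_left, SemidirectProduct.mul_right, SemidirectProduct.inv_left,
    SemidirectProduct.left_inr, SemidirectProduct.right_inr, map_one, mul_one] at hl
  have h2 : D.act (g.right * a) (D.act g.right⁻¹ g.left⁻¹) = (D.act b g.left)⁻¹ := by
    rw [← hr, ← map_inv (D.act (g.right * a * g.right⁻¹))]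
    have : D.act (g.right * a * g.right⁻¹) = D.act (g.right * a) * D.act g.right⁻¹ := by
      rw [← map_mul]
    rw [this]
    rfl
  rw [h2] at hl
  exact (mul_inv_eq_one.1 hl).symm

/-- An element of `Q` fixing `w` fixes the last letter of `w`. -/
theorem Dat.fix_last (D : Dat Q I) {b : Q} {w : FreeGroup D.X} (h : D.act b w = w)
    {L : List (D.X × Bool)} {y : D.X × Bool} (hw : w.toWord = L ++ [y]) : b • y.1 = y.1 := by
  have h1 : (D.act b w).toWord = w.toWord.map (fun y => (b • y.1, y.2)) :=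
    toWord_freeGroupCongr (MulAction.toPerm b) w
  rw [h, hw] at h1
  simp only [List.map_append, List.map_cons, List.map_nil] at h1
  have h2 := (List.append_inj' h1 (by simp)).2
  simp only [List.cons.injEq, and_true] at h2
  exact (congrArg Prod.fst h2).symm

/-- **Conjugation induction.** -/
theorem conj_induction (D : Dat Q I)
    (M : Q → Set Q → Prop)
    (h1 : ∀ s ∈ D.S₀, ∀ P : Set Q, P ⊆ D.S₀ → M s P)
    (h2 : ∀ i, ∀ P : Set Q, P ⊆ D.A i → M (D.σ i) P)
    (h3 : ∀ i, ∀ P : Set Q, P ⊆ D.B i → M (D.σ i)⁻¹ P)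
    (h4 : ∀ (q₁ q₂ : Q) (P : Set Q), P ⊆ D.S₀ → (∀ a ∈ P, q₁ * a * q₁⁻¹ ∈ D.S₀) → M q₁ P →
      M q₂ ((fun a => q₁ * a * q₁⁻¹) '' P) → M (q₂ * q₁) P)
    (g : D.Lam) (hg : g ∈ D.G) (P : Set Q) (hP : P ⊆ D.S₀)
    (hc : ∀ a ∈ P, ∃ b ∈ D.S₀, g * SemidirectProduct.inr a * g⁻¹ = SemidirectProduct.inr b) :
    M g.right P := by
  induction hn : g.left.toWord.length using Nat.strong_induction_on generalizing g P with
  | _ n ih =>
    rcases nf D g hg with ⟨s, hs, rfl⟩ | ⟨g', hg', i, e, s, hs, hgeq, hw⟩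
    · simpa using h1 s hs P hP
    · have hlen : g'.left.toWord.length < n := by
        rw [← hn, hw]; simp
      have hsc : ∀ a ∈ P, s * a * s⁻¹ ∈ D.S₀ := fun a ha =>
        D.S₀.mul_mem (D.S₀.mul_mem hs (hP ha)) (D.S₀.inv_mem hs)
      have hM1 : M s P := h1 s hs P hP
      cases e with
      | true =>
        have hr : g.right = g'.right * (D.σ i * s) := by
          rw [hgeq]; simp [SemidirectProduct.mul_right, D.right_tt, mul_assoc]
        have hA : ∀ a ∈ P, s * a * s⁻¹ ∈ D.A i := by
          intro a ha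
          obtain ⟨b, hb, hbe⟩ := hc a ha
          obtain ⟨hb1, hb2⟩ := D.conj_inr_eq hbe
          have h5 := D.fix_last hb2 hw
          simp only [Dat.letter, if_true] at h5
          rw [← mul_smul] at h5
          have h6 := (D.smul_x_eq_iff.1 h5).2
          rw [← hb1, hr] at h6
          have h7 : g'.right⁻¹ * (g'.right * (D.σ i * s) * a * (g'.right * (D.σ i * s))⁻¹ * g'.right)
              = D.σ i * (s * a * s⁻¹) * (D.σ i)⁻¹ := by group
          rw [h7] at h6
          exact D.conj_mem_B.1 h6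
        have hM2 : M (D.σ i) ((fun a => s * a * s⁻¹) '' P) := by
          apply h2
          rintro _ ⟨a, ha, rfl⟩
          exact hA a ha
        have hM3 : M (D.σ i * s) P := h4 s (D.σ i) P hP hsc hM1 hM2
        have hB : ∀ a ∈ P, (D.σ i * s) * a * (D.σ i * s)⁻¹ ∈ D.B i := by
          intro a ha
          have := D.conj_mem_B.2 (hA a ha)
          have h8 : D.σ i * s * a * (D.σ i * s)⁻¹ = D.σ i * (s * a * s⁻¹) * (D.σ i)⁻¹ := by group
          rw [h8]; exact this
        have hM4 : M g'.right ((fun a => (D.σ i * s) * a * (D.σ i * s)⁻¹) '' P) := by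
          refine ih _ hlen g' hg' _ ?_ ?_ rfl
          · rintro _ ⟨a, ha, rfl⟩
            exact D.B_le i (hB a ha)
          · rintro _ ⟨a, ha, rfl⟩
            obtain ⟨b, hb, hbe⟩ := hc a ha
            refine ⟨b, hb, ?_⟩
            rw [← hbe, hgeq]
            have h9 := D.t_conj i (hA a ha)
            have h8 : D.σ i * s * a * (D.σ i * s)⁻¹ = D.σ i * (s * a * s⁻¹) * (D.σ i)⁻¹ := by group
            beta_reduce
            rw [h8, ← h9]
            simp only [Dat.tt, if_true, map_mul, map_inv]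
            group
        rw [hr]
        exact h4 (D.σ i * s) g'.right P hP (fun a ha => D.B_le i (hB a ha)) hM3 hM4
      | false =>
        have hr : g.right = g'.right * ((D.σ i)⁻¹ * s) := by
          rw [hgeq]; simp [SemidirectProduct.mul_right, D.right_tt, mul_assoc]
        have hBs : ∀ a ∈ P, s * a * s⁻¹ ∈ D.B i := by
          intro a ha
          obtain ⟨b, hb, hbe⟩ := hc a ha
          obtain ⟨hb1, hb2⟩ := D.conj_inr_eq hbe
          have h5 := D.fix_last hb2 hw
          simp only [Dat.letter, Bool.false_eq_true, if_false] at h5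
          rw [← mul_smul] at h5
          have h6 := (D.smul_x_eq_iff.1 h5).2
          rw [← hb1, hr] at h6
          have h7 : (g'.right * (D.σ i)⁻¹)⁻¹ * (g'.right * ((D.σ i)⁻¹ * s) * a *
              (g'.right * ((D.σ i)⁻¹ * s))⁻¹ * (g'.right * (D.σ i)⁻¹)) = s * a * s⁻¹ := by group
          rw [h7] at h6
          exact h6
        have hM2 : M (D.σ i)⁻¹ ((fun a => s * a * s⁻¹) '' P) := by
          apply h3
          rintro _ ⟨a, ha, rfl⟩
          exact hBs a ha
        have hM3 : M ((D.σ i)⁻¹ * s) P := h4 s (D.σ i)⁻¹ P hP hsc hM1 hM2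
        have hA : ∀ a ∈ P, ((D.σ i)⁻¹ * s) * a * ((D.σ i)⁻¹ * s)⁻¹ ∈ D.A i := by
          intro a ha
          have := D.mem_B.1 (hBs a ha)
          have h8 : (D.σ i)⁻¹ * s * a * ((D.σ i)⁻¹ * s)⁻¹ = (D.σ i)⁻¹ * (s * a * s⁻¹) * D.σ i := by
            group
          rw [h8]; exact this
        have hM4 : M g'.right ((fun a => ((D.σ i)⁻¹ * s) * a * ((D.σ i)⁻¹ * s)⁻¹) '' P) := by
          refine ih _ hlen g' hg' _ ?_ ?_ rfl
          · rintro _ ⟨a, ha, rfl⟩
            exact D.hA i (hA a ha)
          · rintro _ ⟨a, ha, rfl⟩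
            obtain ⟨b, hb, hbe⟩ := hc a ha
            refine ⟨b, hb, ?_⟩
            rw [← hbe, hgeq]
            have h9 := D.t_inv_conj i (hBs a ha)
            have h8 : (D.σ i)⁻¹ * s * a * ((D.σ i)⁻¹ * s)⁻¹ = (D.σ i)⁻¹ * (s * a * s⁻¹) * D.σ i := by
              group
            beta_reduce
            rw [h8, ← h9]
            simp only [Dat.tt, Bool.false_eq_true, if_false, map_mul, map_inv]
            group
        rw [hr]
        exact h4 ((D.σ i)⁻¹ * s) g'.right P hP (fun a ha => D.hA i (hA a ha)) hM3 hM4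

end Cfsg.Agent.Lib.Helper96.LS
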