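import Mathlib

/-!
# Word lemmas in free groups (for the Leary–Stancu model)
-/

namespace Cfsg.Agent.Lib.Helper96.LS

open FreeGroup

/-- Appending a non-cancelling letter to a reduced word gives a reduced word. -/
theorem isReduced_append_of_last {α : Type*} (L₁ L₂ : List (α × Bool))
    (h₁ : IsReduced L₁) (h₂ : IsReduced L₂)
    (h : ∀ a ∈ L₁.getLast?, ∀ b ∈ L₂.head?, a.1 = b.1 → a.2 = b.2) : IsReduced (L₁ ++ L₂) := by
  unfold FreeGroup.IsReduced at *
  exact List.isChain_append.2 ⟨h₁, h₂, h⟩

/-- Multiplying by a one-letter element either appends the letter or cancels the last letter. -/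
theorem toWord_mul_letter {α : Type*} [DecidableEq α] (w m : FreeGroup α) (y : α × Bool)
    (hm : m.toWord = [y]) :
    (w * m).toWord = w.toWord ++ [y] ∨
      ∃ L, w.toWord = L ++ [(y.1, !y.2)] ∧ (w * m).toWord = L := by
  rw [toWord_mul, hm]
  rcases List.eq_nil_or_concat w.toWord with h | ⟨L, b, h⟩
  on_goal 2 => rw [List.concat_eq_append] at h
  · left
    rw [h]; rfl
  · by_cases hb : b = (y.1, !y.2)
    · right
      refine ⟨L, by rw [h, hb], ?_⟩
      have hLred : IsReduced L := by
        have := (isReduced_toWord (x := w))
        rw [h] at this
        exact this.infix ⟨[], [b], by simp⟩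
      have hstep : Red.Step (L ++ (y.1, !y.2) :: (y.1, y.2) :: []) (L ++ []) := Red.Step.not_rev
      have h3 : w.toWord ++ [y] = L ++ (y.1, !y.2) :: (y.1, y.2) :: [] := by
        rw [h, hb]; simp
      rw [h3, reduce.Step.eq hstep, List.append_nil, hLred.reduce_eq]
    · left
      apply IsReduced.reduce_eq
      apply isReduced_append_of_last _ _ isReduced_toWord IsReduced.singleton
      intro a ha c hc h1
      rw [h] at ha
      simp at ha hc
      subst ha; subst hc
      by_contra h2
      apply hb
      ext
      · exact h1
      · simp only
        revert h2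
        cases b.2 <;> cases y.2 <;> simp

/-- The reduced word of the image under a bijective relabelling of the letters. -/
theorem toWord_freeGroupCongr {α β : Type*} [DecidableEq α] [DecidableEq β] (e : α ≃ β)
    (w : FreeGroup α) :
    (FreeGroup.freeGroupCongr e w).toWord = w.toWord.map (fun y => (e y.1, y.2)) := by
  have h1 : FreeGroup.freeGroupCongr e w = FreeGroup.map e w := rfl
  conv_lhs => rw [h1, ← mk_toWord (x := w), map.mk, toWord_mk]
  apply IsReduced.reduce_eq
  have hred : IsReduced w.toWord := isReduced_toWord
  unfold FreeGroup.IsReduced at *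
  rw [List.isChain_map]
  refine hred.imp ?_
  intro a b hab h
  exact hab (e.injective h)

/-- Relabelling the letters keeps the length. -/
theorem norm_freeGroupCongr {α β : Type*} [DecidableEq α] [DecidableEq β] (e : α ≃ β)
    (w : FreeGroup α) : (FreeGroup.freeGroupCongr e w).norm = w.norm := by
  unfold FreeGroup.norm
  rw [toWord_freeGroupCongr, List.length_map]

/-- The tree inequality: the first vertex on the geodesic from `1` to `v` is closer to every point
than `1` or `v`. -/
theorem norm_lt_max {α : Type*} [DecidableEq α] (c v m : FreeGroup α) (y : α × Bool)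
    (L : List (α × Bool)) (hv : v.toWord = y :: L) (hL : L ≠ []) (hm : m.toWord = [y]) :
    (c * m).norm < max c.norm (c * v).norm := by
  have hmn : m.norm = 1 := by unfold FreeGroup.norm; rw [hm]; rfl
  rcases toWord_mul_letter c m y hm with h | ⟨L', h1, h2⟩
  · -- no cancellation: then `c * v` is long
    have hne : ∀ a ∈ c.toWord.getLast?, a ≠ (y.1, !y.2) := by
      intro a ha hay
      -- otherwise the word `c.toWord ++ [y]` would not be reduced
      have hred : IsReduced (c.toWord ++ [y]) := by
        rw [← h]; exact isReduced_toWord
      unfold FreeGroup.IsReduced at hred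
      have h3 := (List.isChain_append.1 hred).2.2 a ha y (by simp)
      rw [hay] at h3
      have := h3 rfl
      simp at this
    have hred2 : IsReduced (c.toWord ++ v.toWord) := by
      apply isReduced_append_of_last _ _ isReduced_toWord isReduced_toWord
      intro a ha b hb h1
      rw [hv] at hb
      simp at hb
      subst hb
      by_contra h2
      apply hne a ha
      ext
      · exact h1
      · simp only
        revert h2
        cases a.2 <;> cases y.2 <;> simp
    have h4 : (c * v).norm = c.norm + v.norm := by
      unfold FreeGroup.norm
      rw [toWord_mul, hred2.reduce_eq, List.length_append]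
    have h5 : 2 ≤ v.norm := by
      unfold FreeGroup.norm
      rw [hv]
      have : 0 < L.length := List.length_pos_iff.2 hL
      simp
      omega
    have h6 : (c * m).norm ≤ c.norm + 1 := by
      have := norm_mul_le c m
      omega
    have : (c * m).norm < (c * v).norm := by omega
    exact lt_max_of_lt_right this
  · have h3 : (c * m).norm < c.norm := by
      unfold FreeGroup.norm
      rw [h2, h1]
      simp
    exact lt_max_of_lt_left h3

end Cfsg.Agent.Lib.Helper96.LS
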