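import Cfsg.Agent.Lib.Helper96.LSDefs
import Cfsg.Agent.Lib.Helper96.LSWord

/-!
# The normal form in the Leary–Stancu model

Every element of `D.G` is a reduced path (`D.Path`).
-/

namespace Cfsg.Agent.Lib.Helper96.LS

universe u

variable {Q : Type u} [Group Q] {I : Type u} (D : Dat Q I)

open SemidirectProduct

theorem Dat.left_mul_inr (γ : D.Lam) (q : Q) : (γ * inr q).left = γ.left := by simp

theorem Dat.right_tt (i : I) (e : Bool) :
    (D.tt i e).right = if e then D.σ i else (D.σ i)⁻¹ := by
  unfold Dat.tt Dat.t
  split_ifs <;> simp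

/-- The effect of `t i ^ ±1` on the free-group component. -/
theorem Dat.left_mul_tt (g : D.Lam) (i : I) (e : Bool) :
    ∃ m : FreeGroup D.X, m.toWord = [D.letter g i e] ∧ (g * D.tt i e).left = g.left * m := by
  cases e with
  | true =>
    refine ⟨FreeGroup.of (g.right • D.x i), ?_, ?_⟩
    · rw [FreeGroup.toWord_of]; simp [Dat.letter]
    · simp [Dat.tt, Dat.t, SemidirectProduct.mul_left]
  | false =>
    refine ⟨(FreeGroup.of ((g.right * (D.σ i)⁻¹) • D.x i))⁻¹, ?_, ?_⟩
    · rw [FreeGroup.toWord_inv, FreeGroup.toWord_of]; simp [Dat.letter, FreeGroup.invRev]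
    · show g.left * D.act g.right (D.act (D.σ i)⁻¹ (FreeGroup.of (D.x i))⁻¹) = _
      rw [map_inv (D.act (D.σ i)⁻¹), D.act_of, map_inv (D.act g.right), D.act_of, mul_smul]

theorem Dat.Path.mul_inr {g : D.Lam} (h : D.Path g) {s : Q} (hs : s ∈ D.S₀) :
    D.Path (g * inr s) := by
  cases h with
  | base s₀ hs₀ =>
    rw [← map_mul]
    exact Dat.Path.base _ (D.S₀.mul_mem hs₀ hs)
  | step g' i e s' hs' hg' hw =>
    have h1 : g' * D.tt i e * inr s' * inr s = g' * D.tt i e * inr (s' * s) := by
      rw [map_mul, mul_assoc]
    rw [h1]
    refine Dat.Path.step g' i e (s' * s) (D.S₀.mul_mem hs' hs) hg' ?_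
    rw [D.left_mul_inr] at hw ⊢
    exact hw

theorem Dat.Path.mul_tt {g : D.Lam} (h : D.Path g) (j : I) (e' : Bool) :
    D.Path (g * D.tt j e') := by
  obtain ⟨m, hm, hleft⟩ := D.left_mul_tt g j e'
  rcases toWord_mul_letter g.left m (D.letter g j e') hm with hA | ⟨L, hL1, hL2⟩
  · have h1 : g * D.tt j e' = g * D.tt j e' * inr 1 := by rw [map_one, mul_one]
    rw [h1]
    refine Dat.Path.step g j e' 1 (D.S₀.one_mem) h ?_
    rw [D.left_mul_inr, hleft]
    exact hA
  · cases h with
    | base s₀ hs₀ =>
      exfalso
      have : (inr s₀ : D.Lam).left.toWord = [] := by simp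
      rw [this] at hL1
      simp at hL1
    | step g' i e s hs hg' hw =>
      rw [hL1] at hw
      have hw2 := List.append_inj' hw (by simp)
      have hlet : (D.letter (g' * D.tt i e * inr s) j e').1 = (D.letter g' i e).1 ∧
          (!(D.letter (g' * D.tt i e * inr s) j e').2) = (D.letter g' i e).2 := by
        have := hw2.2
        simp only [List.cons.injEq, and_true] at this
        rw [← this]
        exact ⟨rfl, rfl⟩
      have hr : (g' * D.tt i e * inr s).right = g'.right * (if e then D.σ i else (D.σ i)⁻¹) * s := by
        simp [SemidirectProduct.mul_right, D.right_tt]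
      cases e with
      | true =>
        cases e' with
        | true =>
          exfalso
          have := hlet.2
          simp [Dat.letter] at this
        | false =>
          have h1 := hlet.1
          simp only [Dat.letter, if_true, Bool.false_eq_true, if_false] at h1
          rw [hr] at h1
          simp only [if_true] at h1
          have h2 := D.smul_x_eq_iff.1 h1
          obtain ⟨hji, h3⟩ := h2
          subst hji
          have h4 : g'.right⁻¹ * (g'.right * D.σ j * s * (D.σ j)⁻¹) = D.σ j * s * (D.σ j)⁻¹ := by
            group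
          rw [h4] at h3
          have hsA : s ∈ D.A j := D.conj_mem_B.1 h3
          have h5 : g' * D.tt j true * inr s * D.tt j false =
              g' * inr (D.σ j * s * (D.σ j)⁻¹) := by
            have := D.t_conj j hsA
            simp only [Dat.tt, if_true, Bool.false_eq_true, if_false]
            rw [← this]
            group
          rw [h5]
          exact hg'.mul_inr D (D.hB j s hsA)
      | false =>
        cases e' with
        | false =>
          exfalso
          have := hlet.2
          simp [Dat.letter] at this
        | true =>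
          have h1 := hlet.1
          simp only [Dat.letter, if_true, Bool.false_eq_true, if_false] at h1
          rw [hr] at h1
          simp only [Bool.false_eq_true, if_false] at h1
          have h2 := D.smul_x_eq_iff.1 h1
          obtain ⟨hji, h3⟩ := h2
          subst hji
          have h4 : (g'.right * (D.σ j)⁻¹)⁻¹ * (g'.right * (D.σ j)⁻¹ * s) = s := by
            group
          rw [h4] at h3
          have h5 : g' * D.tt j false * inr s * D.tt j true =
              g' * inr ((D.σ j)⁻¹ * s * D.σ j) := by
            have := D.t_inv_conj j h3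
            simp only [Dat.tt, if_true, Bool.false_eq_true, if_false]
            rw [← this]
            group
          rw [h5]
          exact hg'.mul_inr D (D.hA j (D.mem_B.1 h3))

theorem Dat.Path.mul_tt_inv {g : D.Lam} (h : D.Path g) (j : I) :
    D.Path (g * (D.t j)⁻¹) := by
  have := h.mul_tt D j false
  simpa [Dat.tt] using this

/-- **Normal form**: every element of `D.G` is a reduced path. -/
theorem path_of_mem (D : Dat Q I) (g : D.Lam) (hg : g ∈ D.G) : D.Path g := by
  unfold Dat.G at hg
  induction hg using Subgroup.closure_induction_right with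
  | one =>
    have : (1 : D.Lam) = inr 1 := by simp
    rw [this]
    exact Dat.Path.base 1 D.S₀.one_mem
  | mul_right x hx y hy ih =>
    rcases hy with ⟨s, hs, rfl⟩ | ⟨j, rfl⟩
    · exact ih.mul_inr D hs
    · have := ih.mul_tt D j true
      simpa [Dat.tt] using this
  | mul_inv_cancel x hx y hy ih =>
    rcases hy with ⟨s, hs, rfl⟩ | ⟨j, rfl⟩
    · rw [← map_inv]
      exact ih.mul_inr D (D.S₀.inv_mem hs)
    · exact ih.mul_tt_inv D j

/-- The normal form, as a one-step statement. -/
theorem nf (D : Dat Q I) : ∀ g ∈ D.G, (∃ s ∈ D.S₀, g = SemidirectProduct.inr s) ∨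
    ∃ g' ∈ D.G, ∃ (i : I) (e : Bool) (s : Q), s ∈ D.S₀ ∧
      g = g' * D.tt i e * SemidirectProduct.inr s ∧
      g.left.toWord = g'.left.toWord ++ [D.letter g' i e] := by
  intro g hg
  have h := path_of_mem D g hg
  cases h with
  | base s hs => exact Or.inl ⟨s, hs, rfl⟩
  | step g' i e s hs hg' hw => exact Or.inr ⟨g', hg'.mem D, i, e, s, hs, rfl, hw⟩

/-- An element of `D.G` with trivial free-group component lies in `S₀`. -/
theorem left_eq_one (D : Dat Q I) :
    ∀ g ∈ D.G, g.left = 1 → ∃ s ∈ D.S₀, g = SemidirectProduct.inr s := by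
  intro g hg h1
  rcases nf D g hg with h | ⟨g', _, i, e, s, _, _, hw⟩
  · exact h
  · exfalso
    rw [h1] at hw
    simp at hw

/-- The vertices of `D.G` are closed under passing to the first letter. -/
theorem exists_first (D : Dat Q I) : ∀ g ∈ D.G, ∀ (y : D.X × Bool) (L : List (D.X × Bool)),
    g.left.toWord = y :: L → ∃ g1 ∈ D.G, g1.left.toWord = [y] := by
  intro g hg y L hgL
  induction hn : L.length using Nat.strong_induction_on generalizing g L with
  | _ n ih =>
    rcases nf D g hg with ⟨s, hs, rfl⟩ | ⟨g', hg', i, e, s, hs, hgeq, hw⟩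
    · exfalso
      simp at hgL
    · rw [hgL] at hw
      rcases List.eq_nil_or_concat g'.left.toWord with h0 | ⟨L', b, h0⟩
      · rw [h0] at hw
        simp at hw
        refine ⟨g, hg, ?_⟩
        rw [hgL, hw.2]
      · rw [List.concat_eq_append] at h0
        rw [h0] at hw
        cases L' with
        | nil =>
          simp at hw
          refine ⟨g', hg', ?_⟩
          rw [h0, hw.1]
          rfl
        | cons y' L'' =>
          simp at hw
          obtain ⟨rfl, hL⟩ := hw
          have h0' : g'.left.toWord = y :: (L'' ++ [b]) := by rw [h0]; rfl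
          refine ih (L'' ++ [b]).length ?_ g' hg' (L'' ++ [b]) h0' rfl
          rw [← hn, hL]
          simp

end Cfsg.Agent.Lib.Helper96.LS
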