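import Cfsg.Prelude.Def_FusionSystem
import Cfsg.Agent.Lib.Helper96.LSPath
import Cfsg.Agent.H67.LSFinite
import Cfsg.Agent.Helper55.LSFree
import Cfsg.Agent.Helper55.LSSig
import Cfsg.Agent.Lib.Helper96.LSConj

/-!
# Leary–Stancu: every fusion system on a finite group is realised by a virtually free group

The assembly with `Q = Equiv.Perm S`.
-/

namespace Cfsg.Agent.Lib.Helper96.LS


universe u

open SemidirectProduct

section
variable {Ω : Type u} [Group Ω] {S : Subgroup Ω}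

/-- The left regular representation. -/
noncomputable def lamHom (S : Subgroup Ω) : ↥S →* Equiv.Perm ↥S := MulAction.toPermHom ↥S ↥S

theorem lamHom_apply (s x : ↥S) : lamHom S s x = s * x := rfl

theorem lamHom_injective : Function.Injective (lamHom S) := by
  intro a b h
  have := congrArg (fun f : Equiv.Perm ↥S => f 1) h
  simpa [lamHom_apply] using this

/-- Restriction of a map of a fusion system to a smaller subgroup. -/
theorem res_mem (F : Cfsg.FusionSystem S) {R P : Subgroup Ω} {ψ : R →* Ω} (hψ : ψ ∈ F.Hom R)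
    (hPR : P ≤ R) : ψ.comp (Subgroup.inclusion hPR) ∈ F.Hom P := by
  have hRS : R ≤ S := (F.le_of_mem hψ).1
  have hP : P ≤ S := hPR.trans hRS
  have h1 := F.conj_mem hP S.one_mem
  have h : ∀ x : P, Cfsg.conjHom P (1 : Ω) x ∈ R := by
    intro x
    simp only [Cfsg.conjHom, MonoidHom.coe_comp, Function.comp_apply, Subgroup.coe_subtype,
      MulEquiv.coe_toMonoidHom, MulAut.conj_apply, one_mul, inv_one, mul_one]
    exact hPR x.2
  have h2 := F.comp_mem h1 hψ h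
  have h3 : (Cfsg.conjHom P (1 : Ω)).codRestrict R h = Subgroup.inclusion hPR := by
    ext x
    simp [Cfsg.conjHom]
  rw [h3] at h2
  exact h2

/-- The index type: all the maps of the system. -/
abbrev Idx (F : Cfsg.FusionSystem S) : Type u := Σ P : Subgroup Ω, {φ : P →* Ω // φ ∈ F.Hom P}

variable (F : Cfsg.FusionSystem S)

/-- The map `i`, read as a homomorphism from a subgroup of `S` to `S`. -/
noncomputable def fHom (i : Idx F) : ↥(i.1.subgroupOf S) →* ↥S :=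
  (i.2.1.codRestrict S (F.le_of_mem i.2.2).2).comp
    (Subgroup.subgroupOfEquivOfLe (F.le_of_mem i.2.2).1).toMonoidHom

theorem fHom_coe (i : Idx F) (x : ↥(i.1.subgroupOf S)) :
    ((fHom F i x : ↥S) : Ω) = i.2.1 ⟨x.1.1, x.2⟩ := rfl

theorem fHom_injective (i : Idx F) : Function.Injective (fHom F i) := by
  intro a b h
  have h1 : ((fHom F i a : ↥S) : Ω) = fHom F i b := by rw [h]
  rw [fHom_coe, fHom_coe] at h1
  have h2 := F.injective_of_mem i.2.2 h1
  have h3 : ((a.1 : ↥S) : Ω) = ((b.1 : ↥S) : Ω) := by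
    have := congrArg (fun z : i.1 => (z : Ω)) h2
    exact this
  exact Subtype.ext (Subtype.ext h3)

variable [Finite ↥S]

/-- The permutation realising the map `i`. -/
noncomputable def sig (i : Idx F) : Equiv.Perm ↥S :=
  Classical.choose (Cfsg.Agent.Helper55.LS.exists_sigma (i.1.subgroupOf S) (fHom F i) (fHom_injective F i))

theorem sig_spec (i : Idx F) (p : ↥(i.1.subgroupOf S)) (s : ↥S) :
    sig F i ((p : ↥S) * s) = fHom F i p * sig F i s :=
  Classical.choose_spec (Cfsg.Agent.Helper55.LS.exists_sigma (i.1.subgroupOf S) (fHom F i) (fHom_injective F i)) p s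

theorem sig_conj (i : Idx F) (p : ↥(i.1.subgroupOf S)) :
    sig F i * lamHom S (p : ↥S) * (sig F i)⁻¹ = lamHom S (fHom F i p) := by
  ext y
  have h := sig_spec F i p ((sig F i)⁻¹ y)
  simp only [Equiv.Perm.coe_mul, Function.comp_apply, lamHom_apply]
  rw [h]
  simp

/-- The data of the model. -/
noncomputable def dat : Dat (Equiv.Perm ↥S) (Idx F) where
  S₀ := (lamHom S).range
  A i := (i.1.subgroupOf S).map (lamHom S)
  σ i := sig F i
  hA i := by
    rintro _ ⟨p, -, rfl⟩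
    exact ⟨p, rfl⟩
  hB i := by
    rintro _ ⟨p, hp, rfl⟩
    rw [sig_conj F i ⟨p, hp⟩]
    exact ⟨_, rfl⟩

/-- The embedding of `S`. -/
noncomputable def iota : ↥S →* ↥(dat F).G :=
  ((inr : Equiv.Perm ↥S →* (dat F).Lam).comp (lamHom S)).codRestrict (dat F).G
    (fun s => (dat F).inr_mem_G ⟨s, rfl⟩)

theorem iota_coe (s : ↥S) : ((iota F s : ↥(dat F).G) : (dat F).Lam) = inr (lamHom S s) := rfl

theorem iota_injective : Function.Injective (iota F) := by
  intro a b h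
  have h1 : ((iota F a : ↥(dat F).G) : (dat F).Lam) = iota F b := by rw [h]
  rw [iota_coe, iota_coe] at h1
  exact lamHom_injective (inr_injective h1)

/-- The predicate for the conjugation induction. -/
def MM (q : Equiv.Perm ↥S) (T : Set (Equiv.Perm ↥S)) : Prop :=
  ∀ (P : Subgroup Ω) (hP : P ≤ S) (φ : P →* Ω) (hφ : ∀ x : P, φ x ∈ S),
    (∀ x : P, lamHom S ⟨x, hP x.2⟩ ∈ T) →
    (∀ x : P, lamHom S ⟨φ x, hφ x⟩ = q * lamHom S ⟨x, hP x.2⟩ * q⁻¹) → φ ∈ F.Hom P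

theorem MM_h1 : ∀ s ∈ (dat F).S₀, ∀ T : Set (Equiv.Perm ↥S), T ⊆ (dat F).S₀ → MM F s T := by
  rintro _ ⟨s, rfl⟩ T - P hP φ hφ - heq
  have h1 : φ = Cfsg.conjHom P (s : Ω) := by
    ext x
    have h2 := heq x
    rw [← map_inv, ← map_mul, ← map_mul] at h2
    have h3 := lamHom_injective h2
    have h4 := congrArg Subtype.val h3
    simpa [Cfsg.conjHom, MulAut.conj_apply] using h4
  rw [h1]
  exact F.conj_mem hP s.2

theorem MM_h2 : ∀ i, ∀ T : Set (Equiv.Perm ↥S), T ⊆ (dat F).A i → MM F ((dat F).σ i) T := by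
  intro i T hT P hP φ hφ hPT heq
  -- `P ≤ i.1`
  have hmem : ∀ x : P, (⟨x, hP x.2⟩ : ↥S) ∈ i.1.subgroupOf S := by
    intro x
    obtain ⟨p, hp, hpe⟩ := hT (hPT x)
    have := lamHom_injective hpe
    rw [← this]; exact hp
  have hPi : P ≤ i.1 := fun x hx => hmem ⟨x, hx⟩
  have h1 : φ = i.2.1.comp (Subgroup.inclusion hPi) := by
    ext x
    have h2 := heq x
    have h3 : (dat F).σ i = sig F i := rfl
    rw [h3, sig_conj F i ⟨⟨x, hP x.2⟩, hmem x⟩] at h2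
    have h4 := lamHom_injective h2
    have h5 := congrArg Subtype.val h4
    rw [fHom_coe] at h5
    exact h5
  rw [h1]
  exact res_mem F i.2.2 hPi

theorem MM_h3 : ∀ i, ∀ T : Set (Equiv.Perm ↥S), T ⊆ (dat F).B i → MM F ((dat F).σ i)⁻¹ T := by
  intro i T hT P hP φ hφ hPT heq
  obtain ⟨ψ, hψ, hψe⟩ := F.inv_mem i.2.2
  -- every `x ∈ P` is `i.2.1 p` with `φ x = p`
  have key : ∀ x : P, ∃ p : i.1, i.2.1 p = (x : Ω) ∧ φ x = (p : Ω) := by
    intro x
    have h1 := (dat F).mem_B.1 (hT (hPT x))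
    obtain ⟨p, hp, hpe⟩ := h1
    have h3 : (dat F).σ i = sig F i := rfl
    rw [h3] at hpe
    have h4 : lamHom S ⟨x, hP x.2⟩ = sig F i * lamHom S p * (sig F i)⁻¹ := by
      rw [hpe]; group
    rw [sig_conj F i ⟨p, hp⟩] at h4
    have h5 := congrArg Subtype.val (lamHom_injective h4)
    rw [fHom_coe] at h5
    refine ⟨⟨p.1, hp⟩, h5.symm, ?_⟩
    have h6 := heq x
    rw [h3] at h6
    have h7 : lamHom S ⟨φ x, hφ x⟩ = lamHom S p := by
      rw [h6, hpe]; group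
    exact congrArg Subtype.val (lamHom_injective h7)
  have hPr : P ≤ i.2.1.range := by
    intro x hx
    obtain ⟨p, hp, -⟩ := key ⟨x, hx⟩
    exact ⟨p, hp⟩
  have h1 : φ = ψ.comp (Subgroup.inclusion hPr) := by
    ext x
    obtain ⟨p, hp, hp2⟩ := key x
    rw [hp2, ← hψe p]
    simp only [MonoidHom.coe_comp, Function.comp_apply]
    congr 1
    exact Subtype.ext hp
  rw [h1]
  exact res_mem F hψ hPr

theorem MM_h4 : ∀ (q₁ q₂ : Equiv.Perm ↥S) (T : Set (Equiv.Perm ↥S)), T ⊆ (dat F).S₀ →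
    (∀ a ∈ T, q₁ * a * q₁⁻¹ ∈ (dat F).S₀) → MM F q₁ T →
    MM F q₂ ((fun a => q₁ * a * q₁⁻¹) '' T) → MM F (q₂ * q₁) T := by
  intro q₁ q₂ T _ hq₁ hM₁ hM₂ P hP φ hφ hPT heq
  obtain ⟨φ₁, hφ₁, hφ₁e⟩ := Cfsg.Agent.Helper55.LS.exists_hom_of_conj (lamHom S) lamHom_injective P hP q₁
    (fun x => hq₁ _ (hPT x))
  have hφ₁F : φ₁ ∈ F.Hom P := hM₁ P hP φ₁ hφ₁ hPT hφ₁e
  have hR : φ₁.range ≤ S := by
    rintro _ ⟨x, rfl⟩
    exact hφ₁ x
  have hz : ∀ z : φ₁.range, ∃ x : P, φ₁ x = (z : Ω) := fun z => z.2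
  obtain ⟨ψ, hψ, hψe⟩ := Cfsg.Agent.Helper55.LS.exists_hom_of_conj (lamHom S) lamHom_injective φ₁.range hR q₂
    (by
      intro z
      obtain ⟨x, hx⟩ := hz z
      refine ⟨⟨φ x, hφ x⟩, ?_⟩
      have h1 : (⟨(z : Ω), hR z.2⟩ : ↥S) = ⟨φ₁ x, hφ₁ x⟩ := Subtype.ext hx.symm
      rw [heq x, h1, hφ₁e x]
      group)
  have hψF : ψ ∈ F.Hom φ₁.range := by
    refine hM₂ φ₁.range hR ψ hψ ?_ hψe
    intro z
    obtain ⟨x, hx⟩ := hz z
    refine ⟨lamHom S ⟨x, hP x.2⟩, hPT x, ?_⟩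
    have h1 : (⟨(z : Ω), hR z.2⟩ : ↥S) = ⟨φ₁ x, hφ₁ x⟩ := Subtype.ext hx.symm
    rw [h1, hφ₁e x]
  have hcod : ∀ x : P, φ₁ x ∈ φ₁.range := fun x => ⟨x, rfl⟩
  have h1 : φ = ψ.comp (φ₁.codRestrict φ₁.range hcod) := by
    ext x
    have h2 := hψe ⟨φ₁ x, hcod x⟩
    have h3 : lamHom S ⟨ψ ⟨φ₁ x, hcod x⟩, hψ _⟩ = lamHom S ⟨φ x, hφ x⟩ := by
      rw [h2, heq x, hφ₁e x]
      group
    have h4 := congrArg Subtype.val (lamHom_injective h3)
    exact h4.symm
  rw [h1]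
  exact F.comp_mem hφ₁F hψF hcod

/-- The realisation statement. -/
theorem realized : F.IsRealizedBy (iota F) := by
  refine ⟨iota_injective F, ?_⟩
  intro P hP φ hφ
  constructor
  · intro hφF
    let i : Idx F := ⟨P, φ, hφF⟩
    refine ⟨⟨(dat F).t i, (dat F).t_mem_G i⟩, ?_⟩
    intro x
    apply Subtype.ext
    show inr (lamHom S ⟨φ x, hφ x⟩) = (dat F).t i * inr (lamHom S ⟨x, hP x.2⟩) * ((dat F).t i)⁻¹
    have hxA : lamHom S ⟨x, hP x.2⟩ ∈ (dat F).A i := ⟨⟨x, hP x.2⟩, x.2, rfl⟩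
    rw [(dat F).t_conj i hxA]
    congr 1
    have h3 : (dat F).σ i = sig F i := rfl
    rw [h3, sig_conj F i ⟨⟨x, hP x.2⟩, x.2⟩]
    congr 1
  · rintro ⟨g, hg⟩
    have hgeq : ∀ x : P, (inr (lamHom S ⟨φ x, hφ x⟩) : (dat F).Lam) =
        (g : (dat F).Lam) * inr (lamHom S ⟨x, hP x.2⟩) * (g : (dat F).Lam)⁻¹ := by
      intro x
      have := congrArg Subtype.val (hg x)
      exact this
    have hM := conj_induction (dat F) (MM F) (MM_h1 F) (MM_h2 F) (MM_h3 F) (MM_h4 F)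
      (g : (dat F).Lam) g.2 (Set.range fun x : P => lamHom S ⟨x, hP x.2⟩)
      (by rintro _ ⟨x, rfl⟩; exact ⟨_, rfl⟩)
      (by
        rintro _ ⟨x, rfl⟩
        exact ⟨lamHom S ⟨φ x, hφ x⟩, ⟨_, rfl⟩, (hgeq x).symm⟩)
    refine hM P hP φ hφ (fun x => ⟨x, rfl⟩) ?_
    intro x
    have := congrArg SemidirectProduct.right (hgeq x)
    simpa using this

/-- Finite subgroups are conjugate into the image of `S`. -/
theorem finite_sub (H : Subgroup ↥(dat F).G) (hH : Finite ↥H) :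
    ∃ g : ↥(dat F).G, ∀ h ∈ H, g * h * g⁻¹ ∈ (iota F).range := by
  have hfin : ((H.map (dat F).G.subtype : Subgroup (dat F).Lam) : Set (dat F).Lam).Finite := by
    rw [Subgroup.coe_map]
    exact (Set.toFinite (H : Set ↥(dat F).G)).image _
  obtain ⟨g, hg, hgH⟩ := Cfsg.Agent.H67.LS.finite_conj (dat F) (left_eq_one (dat F)) (exists_first (dat F))
    (H.map (dat F).G.subtype) (by rintro _ ⟨h, -, rfl⟩; exact h.2) hfin
  refine ⟨⟨g, hg⟩, ?_⟩
  intro h hh
  obtain ⟨s, ⟨s₀, rfl⟩, hs⟩ := hgH h ⟨h, hh, rfl⟩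
  exact ⟨s₀, Subtype.ext hs.symm⟩

/-- **Leary–Stancu.** -/
theorem main : ∃ (G : Type u) (_ : Group G) (ι : ↥S →* G), F.IsRealizedBy ι ∧
    (∀ H : Subgroup G, Finite ↥H → ∃ g : G, ∀ h ∈ H, g * h * g⁻¹ ∈ ι.range) ∧
    ∃ N : Subgroup G, N.Normal ∧ IsFreeGroup ↥N ∧ N.index ∣ (Nat.card ↥S).factorial := by
  refine ⟨↥(dat F).G, inferInstance, iota F, realized F, finite_sub F, ?_⟩
  refine ⟨(SemidirectProduct.rightHom.comp (dat F).G.subtype : ↥(dat F).G →* Equiv.Perm ↥S).ker,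
    MonoidHom.normal_ker _, Cfsg.Agent.Helper55.LS.free_kernel (dat F), ?_⟩
  have := Cfsg.Agent.Helper55.LS.index_kernel_dvd (dat F)
  rwa [Nat.card_perm] at this

end

end Cfsg.Agent.Lib.Helper96.LS
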