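import Mathlib

set_option autoImplicit false

namespace Cfsg.Agent.Lib.Helper96

variable {F K : Type*} [Field F] [Field K] [Algebra F K]

theorem mem_singer_iff (d : (Module.End F K)ˣ) :
    d ∈ (Units.map ((Algebra.lmul F K : K →ₐ[F] Module.End F K) : K →* Module.End F K)).range
      ↔ ∃ k : K, k ≠ 0 ∧ ∀ x, (d : Module.End F K) x = k * x := by
  constructor
  · rintro ⟨k, rfl⟩
    exact ⟨k, k.ne_zero, fun x => by simp⟩
  · rintro ⟨k, hk, h⟩
    refine ⟨Units.mk0 k hk, ?_⟩
    apply Units.ext
    apply LinearMap.ext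
    intro x
    simp [h]

theorem unit_inv_apply (u : (Module.End F K)ˣ) (x : K) :
    ((u⁻¹ : (Module.End F K)ˣ) : Module.End F K) ((u : Module.End F K) x) = x := by
  rw [← Module.End.mul_apply, Units.inv_mul, Module.End.one_apply]

theorem unit_apply_inv (u : (Module.End F K)ˣ) (x : K) :
    (u : Module.End F K) (((u⁻¹ : (Module.End F K)ˣ) : Module.End F K) x) = x := by
  rw [← Module.End.mul_apply, Units.mul_inv, Module.End.one_apply]

/-- Semilinear maps `x ↦ c * σ x` normalise the Singer group. -/
theorem mem_normalizer_singer_of (u : (Module.End F K)ˣ) (c : K) (hc : c ≠ 0) (σ : K ≃ₐ[F] K)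
    (hu : ∀ x, (u : Module.End F K) x = c * σ x) :
    u ∈ Subgroup.normalizer (((Units.map ((Algebra.lmul F K : K →ₐ[F] Module.End F K) : K →* Module.End F K)).range : Subgroup (Module.End F K)ˣ) : Set (Module.End F K)ˣ) := by
  rw [Subgroup.mem_set_normalizer_iff']
  intro d
  change d * u ∈ (Units.map ((Algebra.lmul F K : K →ₐ[F] Module.End F K) : K →* Module.End F K)).range ↔
    u * d ∈ (Units.map ((Algebra.lmul F K : K →ₐ[F] Module.End F K) : K →* Module.End F K)).range
  rw [mem_singer_iff, mem_singer_iff]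
  constructor
  · rintro ⟨k, hk, h⟩
    refine ⟨σ k, by simpa using hk, fun x => ?_⟩
    have h1 := h (σ.symm (c⁻¹ * x))
    simp only [Units.val_mul, Module.End.mul_apply, hu, AlgEquiv.apply_symm_apply] at h1 ⊢
    rw [mul_inv_cancel_left₀ hc] at h1
    rw [h1, map_mul, AlgEquiv.apply_symm_apply]
    field_simp
  · rintro ⟨k, hk, h⟩
    refine ⟨σ.symm k, by simpa using hk, fun x => ?_⟩
    have h1 := h (c * σ x)
    simp only [Units.val_mul, Module.End.mul_apply, hu] at h1 ⊢
    have h2 : σ ((d : Module.End F K) (c * σ x)) = k * σ x := by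
      have := mul_left_cancel₀ hc (h1.trans (by ring : k * (c * σ x) = c * (k * σ x)))
      exact this
    apply σ.injective
    rw [h2, map_mul, AlgEquiv.apply_symm_apply]

/-- Elements of the normaliser of the Singer group are semilinear maps `x ↦ c * σ x`. -/
theorem exists_of_mem_normalizer_singer [Finite K] (u : (Module.End F K)ˣ)
    (hu : u ∈ Subgroup.normalizer (((Units.map ((Algebra.lmul F K : K →ₐ[F] Module.End F K) : K →* Module.End F K)).range : Subgroup (Module.End F K)ˣ) : Set (Module.End F K)ˣ)) :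
    ∃ (c : K) (_ : c ≠ 0) (σ : K ≃ₐ[F] K), ∀ x, (u : Module.End F K) x = c * σ x := by
  set c : K := (u : Module.End F K) 1 with hc_def
  have hc : c ≠ 0 := by
    intro h0
    have := unit_inv_apply u 1
    rw [← hc_def, h0, map_zero] at this
    exact zero_ne_one this
  -- multiplicativity
  have hmul : ∀ k y : K, (u : Module.End F K) (k * y) = (u : Module.End F K) k * c⁻¹ * (u : Module.End F K) y := by
    intro k y
    by_cases hk : k = 0
    · subst hk; simp
    · have hL : Units.map ((Algebra.lmul F K : K →ₐ[F] Module.End F K) : K →* Module.End F K) (Units.mk0 k hk)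
          ∈ (Units.map ((Algebra.lmul F K : K →ₐ[F] Module.End F K) : K →* Module.End F K)).range := ⟨_, rfl⟩
      have h1 := (Subgroup.mem_set_normalizer_iff.mp hu _).mp hL
      change _ ∈ (Units.map ((Algebra.lmul F K : K →ₐ[F] Module.End F K) : K →* Module.End F K)).range at h1
      rw [mem_singer_iff] at h1
      obtain ⟨k', hk', h⟩ := h1
      have e1 := h ((u : Module.End F K) 1)
      have e2 := h ((u : Module.End F K) y)
      simp only [Units.val_mul, Module.End.mul_apply, unit_inv_apply] at e1 e2
      simp only [Units.coe_map, MonoidHom.coe_coe, Units.val_mk0, Algebra.coe_lmul_eq_mul,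
        LinearMap.mul_apply', mul_one] at e1 e2
      rw [e2, e1]
      rw [← hc_def]
      field_simp
  -- the algebra automorphism
  let lin : K →ₗ[F] K := (LinearMap.mulLeft F c⁻¹).comp (u : Module.End F K)
  have hlin : ∀ x, lin x = c⁻¹ * (u : Module.End F K) x := fun x => rfl
  let τ : K →ₐ[F] K := AlgHom.ofLinearMap lin
    (by rw [hlin, ← hc_def, inv_mul_cancel₀ hc])
    (by
      intro x y
      rw [hlin, hlin, hlin, hmul x y]
      ring)
  have hτ : ∀ x, τ x = c⁻¹ * (u : Module.End F K) x := fun x => rfl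
  have hbij : Function.Bijective τ :=
    ⟨τ.toRingHom.injective, Finite.injective_iff_surjective.mp τ.toRingHom.injective⟩
  refine ⟨c, hc, AlgEquiv.ofBijective τ hbij, fun x => ?_⟩
  rw [AlgEquiv.coe_ofBijective, hτ, mul_inv_cancel_left₀ hc]


end Cfsg.Agent.Lib.Helper96
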